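import Cfsg.Agent.S0618
import Cfsg.Agent.Lib.Thompson.Factor
import Cfsg.Agent.Lib.FGS.PLength
import Cfsg.Agent.Lib.FF.EAGL
import Cfsg.Agent.Lib.LocStruct.SylowIn
import Cfsg.Agent.Lib.Core.Hall

/-!
# Prime divisors of automizers of `p`-subgroups (helper92)
-/

set_option autoImplicit false

namespace H92

open Subgroup Cfsg H69
open scoped Pointwise

universe u

/-- A `π`-separable group has a Hall `π ∪ {q}`-subgroup. -/
theorem exists_isPiHall_insert_aux (π : Set ℕ) (q : ℕ) [hq : Fact q.Prime] (n : ℕ) :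
    ∀ (G : Type u) [Group G] [Finite G], Nat.card G = n → H3.IsPiSeparable π G →
      ∃ H : Subgroup G, IsPiHall (insert q π) H := by
  induction n using Nat.strong_induction_on with
  | _ n ih =>
  intro G _ _ hn h
  rcases subsingleton_or_nontrivial G with hG | hG
  · refine ⟨⊤, H3.isPiHall_iff.2 ⟨?_, ?_⟩⟩
    · rw [Nat.card_eq_one_iff_unique.2 ⟨inferInstance, inferInstance⟩]; exact H3.piNum_one _
    · rw [index_top]; exact H3.piNum_one _
  have hquot : ∀ (R : Subgroup G) [R.Normal], R ≠ ⊥ →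
      ∃ K : Subgroup G, R ≤ K ∧ H3.PiNum (insert q π) (R.relIndex K) ∧
        H3.PiNum (insert q π)ᶜ K.index := by
    intro R _ hR
    have hlt : Nat.card (G ⧸ R) < n := by
      rw [← hn, ← R.index_eq_card, ← R.card_mul_index]
      have h1 : 1 < Nat.card R := (Subgroup.one_lt_card_iff_ne_bot R).2 hR
      have h2 : 0 < R.index := Nat.pos_of_ne_zero R.index_ne_zero_of_finite
      nlinarith
    obtain ⟨K, hK⟩ := ih _ hlt (G ⧸ R) rfl (h.quotient R)
    rw [H3.isPiHall_iff] at hK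
    refine ⟨K.comap (QuotientGroup.mk' R), ?_, ?_, ?_⟩
    · intro x hx
      rw [mem_comap, QuotientGroup.mk'_apply, (QuotientGroup.eq_one_iff x).2 hx]
      exact K.one_mem
    · rw [H3.relIndex_comap_mk']; exact hK.1
    · rw [K.index_comap_of_surjective (QuotientGroup.mk'_surjective R)]; exact hK.2
  have hnorm : ∀ (R : Subgroup G) [R.Normal], R ≠ ⊥ → H3.PiNum (insert q π) (Nat.card R) →
      ∃ H : Subgroup G, IsPiHall (insert q π) H := by
    intro R _ hR hπ
    obtain ⟨K, hRK, h1, h2⟩ := hquot R hR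
    refine ⟨K, H3.isPiHall_iff.2 ⟨?_, h2⟩⟩
    rw [← relIndex_bot_left, ← relIndex_mul_relIndex ⊥ R K bot_le hRK, relIndex_bot_left]
    exact hπ.mul h1
  obtain ⟨N, hN, hN1, hπ | hπ⟩ := h.exists_normal
  · exact hnorm N hN1 ((H3.isPiSubgroup_iff_piNum.1 hπ).mono (Set.subset_insert _ _))
  rw [H3.isPiSubgroup_iff_piNum] at hπ
  obtain ⟨Q, hQ⟩ := exists_isSylowIn q N
  by_cases hQ1 : Q = ⊥
  · have hN' : H3.PiNum (insert q π)ᶜ (Nat.card N) := by
      intro r hr hd hm
      rcases hm with rfl | hm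
      · exact (hQ.dvd_card_iff.1 hd) hQ1
      · exact hπ r hr hd hm
    obtain ⟨K, hNK, h1, h2⟩ := hquot N hN1
    have hco : (Nat.card (N.subgroupOf K)).Coprime (N.subgroupOf K).index := by
      rw [H24.card_subgroupOf_of_le hNK]
      exact hN'.coprime' h1
    obtain ⟨H, hH⟩ := Subgroup.exists_right_complement'_of_coprime hco
    refine ⟨H.map K.subtype, H3.isPiHall_iff.2 ⟨?_, ?_⟩⟩
    · rw [H24.card_map_subtype, ← hH.symm.index_eq_card]; exact h1
    · rw [← relIndex_mul_index (map_subtype_le H)]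
      refine H3.PiNum.mul ?_ h2
      have : (H.map K.subtype).relIndex K = H.index := by
        rw [relIndex, subgroupOf, comap_map_eq_self_of_injective K.subtype_injective]
      rw [this, hH.index_eq_card, H24.card_subgroupOf_of_le hNK]
      exact hN'
  by_cases hM : normalizer (Q : Set G) = ⊤
  · have : Q.Normal := normalizer_eq_top_iff.1 hM
    obtain ⟨k, hk⟩ := hQ.isP.exists_card_eq
    exact hnorm Q hQ1 (hk ▸ H3.piNum_prime_pow hq.out (Set.mem_insert _ _) k)
  set M := normalizer (Q : Set G) with hMdef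
  have hlt : Nat.card M < n := by
    rw [← hn, ← M.card_mul_index]
    have h1 : 1 < M.index := Subgroup.one_lt_index_of_ne_top hM
    have h2 : 0 < Nat.card M := Nat.card_pos
    nlinarith
  obtain ⟨H, hH⟩ := ih _ hlt M rfl (h.subgroup M)
  rw [H3.isPiHall_iff] at hH
  refine ⟨H.map M.subtype, H3.isPiHall_iff.2 ⟨?_, ?_⟩⟩
  · rw [H24.card_map_subtype]; exact hH.1
  · rw [← relIndex_mul_index (map_subtype_le H)]
    have : (H.map M.subtype).relIndex M = H.index := by
      rw [relIndex, subgroupOf, comap_map_eq_self_of_injective M.subtype_injective]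
    rw [this]
    refine hH.2.mul ?_
    have hsup : N ⊔ M = ⊤ := by
      have := hQ.frattini_sup (L := ⊤) le_top (by rw [normalizer_eq_top_iff.2 hN])
      rwa [top_inf_eq] at this
    have e : M.index = M.relIndex N := by
      rw [← relIndex_top_right, ← hsup, relIndex, relIndex]
      have h1 := H24.card_sup_mul_card_inf' (A := N) (B := M) (by rw [normalizer_eq_top_iff.2 hN]; exact le_top)
      have h2 := (M.subgroupOf (N ⊔ M)).card_mul_index
      have h3 := (M.subgroupOf N).card_mul_index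
      rw [H24.card_subgroupOf_of_le le_sup_right] at h2
      rw [← inf_subgroupOf_left, H24.card_subgroupOf_of_le inf_le_left, inf_subgroupOf_left] at h3
      have h4 : 0 < Nat.card M := Nat.card_pos
      have h5 : 0 < Nat.card (N ⊓ M : Subgroup G) := Nat.card_pos
      rw [← h2, ← h3] at h1
      have : Nat.card M * Nat.card (N ⊓ M : Subgroup G) * (M.subgroupOf (N ⊔ M)).index =
          Nat.card M * Nat.card (N ⊓ M : Subgroup G) * (M.subgroupOf N).index := by linarith
      exact Nat.eq_of_mul_eq_mul_left (Nat.mul_pos h4 h5) this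
    rw [e]
    intro r hr hd hm
    rcases hm with rfl | hm
    · exact hQ.not_dvd_relIndex (hd.trans (relIndex_dvd_of_le_left N le_normalizer))
    · exact hπ r hr (hd.trans (relIndex_dvd_card M N)) hm

theorem exists_isPiHall_insert {G : Type*} [Group G] [Finite G] {π : Set ℕ}
    (h : H3.IsPiSeparable π G) (q : ℕ) [Fact q.Prime] : ∃ H : Subgroup G, IsPiHall (insert q π) H :=
  exists_isPiHall_insert_aux π q _ G rfl h

variable {G : Type*} [Group G] {p q : ℕ}

theorem factorizable_of_pair [Finite G] [hp : Fact p.Prime] [hq : Fact q.Prime]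
    (h23 : ¬ ((p = 2 ∧ q = 3) ∨ (p = 3 ∧ q = 2))) (hs : IsPSolvable p G)
    (hc : H3.PiNum (insert q {p}) (Nat.card G)) : IsThompsonFactorizable p G := by
  rw [H24.isThompsonFactorizable_iff_quotient]
  by_contra hnf
  obtain ⟨h1, E, -, -, -, hn, ⟨e⟩⟩ := Cfsg.Agent.S0618.result (H76.isPSolvable_quotient hs _)
    (H1.pPrimeCore_quotient_pPrimeCore) hnf
  have hd : p * (p - 1) * (p + 1) ∣ Nat.card G := by
    rw [← H23.card_SL_two_zmod, ← Nat.card_congr e.toEquiv]
    exact ((card_quotient_dvd_card _).trans (card_subgroup_dvd_card E)).trans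
      (card_quotient_dvd_card _)
  have h2 : 2 ∈ insert q ({p} : Set ℕ) := hc 2 Nat.prime_two (by
    rcases h1 with rfl | rfl <;> exact Dvd.dvd.trans (by norm_num) hd)
  have h3 : 3 ∈ insert q ({p} : Set ℕ) := hc 3 Nat.prime_three (by
    rcases h1 with rfl | rfl <;> exact Dvd.dvd.trans (by norm_num) hd)
  simp only [Set.mem_insert_iff, Set.mem_singleton_iff] at h2 h3
  omega

/-- The order of the automizer is divisible by `q` iff some `q`-element normalizes and does not centralize. -/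
theorem dvd_autz_iff [Finite G] [hq : Fact q.Prime] {H : Subgroup G} :
    q ∣ (𝐂(H).subgroupOf 𝐍(H)).index ↔ ∃ x ∈ 𝐍(H), x ∉ 𝐂(H) ∧ ∃ k : ℕ, x ^ q ^ k = 1 := by
  constructor
  · intro h
    obtain ⟨Q, hQ⟩ := exists_isSylowIn q 𝐍(H)
    by_contra hn
    have : Q ≤ 𝐂(H) := fun x hx => by
      by_contra hc
      obtain ⟨k, hk⟩ := hQ.isP ⟨x, hx⟩
      exact hn ⟨x, hQ.le hx, hc, k, congrArg Subtype.val hk⟩
    exact hQ.not_dvd_relIndex (h.trans (relIndex_dvd_of_le_left _ this))
  · rintro ⟨x, hx, hc, k, hk⟩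
    rw [index_eq_card]
    have h1 : orderOf (QuotientGroup.mk (s := 𝐂(H).subgroupOf 𝐍(H)) ⟨x, hx⟩) ∣ q ^ k := by
      rw [orderOf_dvd_iff_pow_eq_one, ← QuotientGroup.mk_pow]
      have : (⟨x, hx⟩ : 𝐍(H)) ^ q ^ k = 1 := Subtype.ext hk
      rw [this, QuotientGroup.mk_one]
    obtain ⟨j, -, hj⟩ := (Nat.dvd_prime_pow hq.out).1 h1
    rcases j with _ | j
    · rw [pow_zero, orderOf_eq_one_iff, QuotientGroup.eq_one_iff, mem_subgroupOf] at hj
      exact (hc hj).elim
    · exact ((dvd_pow_self q j.succ_ne_zero).trans hj.symm.dvd).trans (orderOf_dvd_natCard _)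

/-- The automizer of a subgroup of a section is a section of an automizer. -/
theorem autz_section [Finite G] [Fact p.Prime] {S B : Type*} [Group S] [Group B] (f : S →* G) (g : S →* B)
    (hf : Function.Injective f) (hg : Function.Surjective g) (U : Subgroup B) :
    (IsPSolvable p (𝐍((U.comap g).map f) ⧸ 𝐂((U.comap g).map f).subgroupOf 𝐍((U.comap g).map f)) →
      IsPSolvable p (𝐍(U) ⧸ 𝐂(U).subgroupOf 𝐍(U))) ∧
    (𝐂(U).subgroupOf 𝐍(U)).index ∣ (𝐂((U.comap g).map f).subgroupOf 𝐍((U.comap g).map f)).index := by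
  have : Finite S := Finite.of_injective f hf
  have : Finite B := Finite.of_surjective g hg
  set U' := (U.comap g).map f with hU'
  let T : Subgroup S := 𝐍(U).comap g
  have h1 : ∀ t : T, (f.comp T.subtype) t ∈ 𝐍(U') := fun t => by
    refine H24.mem_normalizer_of_conj_mem ?_
    rintro _ ⟨s, hs, rfl⟩
    refine ⟨t * s * (t : S)⁻¹, ?_, by simp⟩
    change g _ ∈ U
    rw [map_mul, map_mul, map_inv]
    exact H24.conj_mem_of_mem_normalizer t.2 hs
  let φ : T →* 𝐍(U') ⧸ 𝐂(U').subgroupOf 𝐍(U') :=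
    (QuotientGroup.mk' _).comp ((f.comp T.subtype).codRestrict _ h1)
  let ψ : T →* 𝐍(U) ⧸ 𝐂(U).subgroupOf 𝐍(U) :=
    (QuotientGroup.mk' _).comp ((g.comp T.subtype).codRestrict _ fun t => t.2)
  have hψ : Function.Surjective ψ := by
    intro y
    obtain ⟨⟨y, hy⟩, rfl⟩ := QuotientGroup.mk'_surjective _ y
    obtain ⟨s, rfl⟩ := hg y
    exact ⟨⟨s, hy⟩, rfl⟩
  have hk : φ.ker ≤ ψ.ker := by
    intro t ht
    rw [MonoidHom.mem_ker] at ht ⊢
    have ht' : f t ∈ 𝐂(U') := mem_subgroupOf.1 ((QuotientGroup.eq_one_iff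
      (((f.comp T.subtype).codRestrict _ h1) t)).1 ht)
    refine (QuotientGroup.eq_one_iff _).2 ?_
    change g t ∈ 𝐂(U)
    rw [mem_centralizer_iff_commute] at ht' ⊢
    intro u hu
    obtain ⟨s, rfl⟩ := hg u
    have := ht' (f s) ⟨s, hu, rfl⟩
    rw [← map_mul, ← map_mul] at this
    rw [← map_mul, ← map_mul, hf this]
  have hl : Function.Surjective (QuotientGroup.lift φ.ker ψ hk) := by
    intro y
    obtain ⟨t, rfl⟩ := hψ y
    exact ⟨QuotientGroup.mk t, rfl⟩
  refine ⟨fun h => H76.isPSolvable_of_surjective (H76.isPSolvable_of_injective h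
    (QuotientGroup.kerLift_injective φ)) hl, ?_⟩
  rw [index_eq_card, index_eq_card]
  exact (card_dvd_of_surjective _ hl).trans (card_dvd_of_injective _ (QuotientGroup.kerLift_injective φ))

/-- The factorization step. -/
theorem exists_qelt_of_factor [Finite G] [hp : Fact p.Prime] [hq : Fact q.Prime] (hpq : p ≠ q)
    (h23 : ¬ ((p = 2 ∧ q = 3) ∨ (p = 3 ∧ q = 2))) (hs : IsPSolvable p G) {H : Subgroup G} [H.Normal]
    (hH : IsPGroup p H) (hd : q ∣ 𝐂(H).index) (P : Sylow p G) :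
    ∃ x : G, x ∉ 𝐂(H) ∧ (∃ k : ℕ, x ^ q ^ k = 1) ∧
      (x ∈ 𝐍(thompsonSubgroupOf p (P : Subgroup G)) ∨
        x ∈ 𝐂(omegaOne p ((P : Subgroup G) ⊓ 𝐂((P : Subgroup G))))) := by
  obtain ⟨L, hL, hPL⟩ : ∃ L : Subgroup G, IsPiHall (insert q {p}) L ∧ (P : Subgroup G) ≤ L := by
    obtain ⟨L, hL⟩ := exists_isPiHall_insert (H3.isPiSeparable_of_isPSolvable hp.out hs) q
    obtain ⟨T, hT⟩ := exists_isSylowIn p L
    have hT' : IsSylowIn p T ⊤ := hT.trans_of_not_dvd le_top (by
      rw [relIndex_top_right]; exact hL.2 p hp.out (by simp))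
    obtain ⟨g, -, hg⟩ := hT'.conj (isSylowIn_top P)
    exact ⟨L ^ᶜ g, H3.isPiHall_conj_smul hL g, hg ▸ cj_mono g hT.le⟩
  have hF := factorizable_of_pair h23 (H76.isPSolvable_subgroup hs L) (H3.isPiHall_iff.1 hL).1
  by_contra hn
  push Not at hn
  let S : Sylow p L := P.subtype hPL
  have hS : (S : Subgroup L) = (P : Subgroup G).subgroupOf L := rfl
  let φ : L →* G ⧸ 𝐂(H) := (QuotientGroup.mk' _).comp L.subtype
  have hHL : H ≤ L := ((H1.le_pCore hH).trans (H1.pCore_le_sylow P)).trans hPL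
  obtain ⟨a, b, hab⟩ : ∃ a b : ℕ, Nat.card L = p ^ a * q ^ b := by
    refine ⟨(Nat.card L).factorization p, (Nat.card L).factorization q, ?_⟩
    have h0 : Nat.card L ≠ 0 := Nat.card_pos.ne'
    apply Nat.eq_of_factorization_eq h0 (mul_ne_zero (pow_ne_zero _ hp.out.ne_zero) (pow_ne_zero _ hq.out.ne_zero))
    intro r
    rw [Nat.factorization_mul (pow_ne_zero _ hp.out.ne_zero) (pow_ne_zero _ hq.out.ne_zero),
      hp.out.factorization_pow, hq.out.factorization_pow, Finsupp.add_apply, Finsupp.single_apply,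
      Finsupp.single_apply]
    by_cases h1 : p = r
    · subst h1; simp [hpq.symm]
    by_cases h2 : q = r
    · subst h2; simp [hpq]
    rw [if_neg h1, if_neg h2]
    by_contra hr
    have hr' : r ∈ (Nat.card L).primeFactors := by
      rw [← Nat.support_factorization, Finsupp.mem_support_iff]; exact hr
    have := hL.1 r (Nat.prime_of_mem_primeFactors hr') (Nat.dvd_of_mem_primeFactors hr')
    simp only [Set.mem_insert_iff, Set.mem_singleton_iff] at this
    omega
  have key : ∀ A : Subgroup L, (S : Subgroup L) ≤ A →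
      (∀ x ∈ A, (x : G) ∈ 𝐍(thompsonSubgroupOf p (P : Subgroup G)) ∨
        (x : G) ∈ 𝐂(omegaOne p ((P : Subgroup G) ⊓ 𝐂((P : Subgroup G))))) →
      A.map φ ≤ (S : Subgroup L).map φ := by
    intro A hSA hA
    have hA' : IsPGroup p (A.map φ) := by
      rintro ⟨_, x, hx, rfl⟩
      refine ⟨a, Subtype.ext ?_⟩
      change φ x ^ p ^ a = 1
      rw [← map_pow]
      refine (QuotientGroup.eq_one_iff _).2 ?_
      by_contra hc
      have h1 : ((x ^ p ^ a : L) : G) ^ q ^ b = 1 := by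
        rw [← Subgroup.coe_pow, ← pow_mul, ← hab, pow_card_eq_one', Subgroup.coe_one]
      have := hn _ hc ⟨b, h1⟩
      exact (hA _ (A.pow_mem hx _)).elim this.1 this.2
    exact (((isSylowIn_top S).map φ).max _ (map_mono hSA) (map_mono le_top) hA').le
  have hall : (⊤ : Subgroup L).map φ ≤ (S : Subgroup L).map φ := by
    rintro _ ⟨g, -, rfl⟩
    obtain ⟨x, hx, c, hc, n, hn', rfl⟩ := hF S g
    rw [map_mul, map_mul]
    refine mul_mem (mul_mem ?_ ?_) ?_
    · have : φ x = 1 := by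
        refine (QuotientGroup.eq_one_iff _).2 ?_
        change (x : G) ∈ 𝐂(H)
        rw [mem_centralizer_iff_commute]
        intro h hh
        have hd : Disjoint (H.subgroupOf L) (pPrimeCore p L) :=
          disjoint_iff.2 (H1.inf_pPrimeCore_eq_bot hH.comap_subtype)
        exact congrArg Subtype.val (commute_of_normal_of_disjoint _ _ inferInstance inferInstance hd
          ⟨h, hHL hh⟩ x hh hx).eq
      rw [this]; exact one_mem _
    · refine key _ ?_ ?_ (mem_map_of_mem φ hc)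
      · exact le_centralizer_iff.1 ((H24.omegaOne_le _).trans inf_le_right)
      · intro y hy
        right
        have e : omegaOne p ((P : Subgroup G) ⊓ 𝐂((P : Subgroup G))) =
            (omegaOne p ((S : Subgroup L) ⊓ 𝐂((S : Subgroup L)))).map L.subtype := by
          rw [H24.map_omegaOne L.subtype_injective, H24.map_inf_centralizer L.subtype_injective, hS,
            map_subgroupOf_eq_of_le hPL]
        rw [e, mem_centralizer_iff_commute]
        rintro _ ⟨z, hz, rfl⟩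
        exact congrArg Subtype.val (mem_centralizer_iff_commute.1 hy z hz)
    · refine key _ ?_ ?_ (mem_map_of_mem φ hn')
      · exact le_normalizer.trans (H24.normalizer_le_normalizer_thompsonSubgroupOf _)
      · intro y hy
        left
        have e : thompsonSubgroupOf p (P : Subgroup G) =
            (thompsonSubgroupOf p (S : Subgroup L)).map L.subtype := by
          rw [H24.map_thompsonSubgroupOf L.subtype_injective, hS, map_subgroupOf_eq_of_le hPL]
        rw [e]
        exact le_normalizer_map _ ⟨y, hy, rfl⟩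
  obtain ⟨k, hk⟩ := ((S.isPGroup'.map φ).to_le hall).exists_card_eq
  have h1 : q ∣ L.index * Nat.card ((⊤ : Subgroup L).map φ) := by
    have e : (⊤ : Subgroup L).map φ = L.map (QuotientGroup.mk' 𝐂(H)) := by
      rw [← map_map, H24.map_top_subtype]
    rw [e, H3.card_map_mk'_eq_relIndex, mul_comm, ← inf_relIndex_right,
      relIndex_mul_index inf_le_right]
    exact hd.trans (index_dvd_of_le inf_le_left)
  rcases hq.out.dvd_mul.1 h1 with h | h
  · exact hL.2 q hq.out (by simp) h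
  · rw [hk] at h
    exact hpq ((Nat.prime_dvd_prime_iff_eq hq.out hp.out).1 (hq.out.dvd_of_dvd_pow h)).symm

theorem autz_main_aux [hp : Fact p.Prime] [hq : Fact q.Prime] (hpq : p ≠ q)
    (h23 : ¬ ((p = 2 ∧ q = 3) ∨ (p = 3 ∧ q = 2))) (n : ℕ) :
    ∀ (G : Type u) [Group G] [Finite G], Nat.card G = n →
      (∀ H : Subgroup G, IsPGroup p H → IsPSolvable p (𝐍(H) ⧸ 𝐂(H).subgroupOf 𝐍(H))) →
      ∀ H : Subgroup G, IsPGroup p H → q ∣ (𝐂(H).subgroupOf 𝐍(H)).index → ∀ Gp : Sylow p G,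
        ∃ K : Subgroup G, K ≤ (Gp : Subgroup G) ∧ (Gp : Subgroup G) ≤ 𝐍(K) ∧
          q ∣ (𝐂(K).subgroupOf 𝐍(K)).index := by
  induction n using Nat.strong_induction_on with
  | _ n ih =>
  intro G _ _ hn hsol H₀ hH₀ hq₀ Gp
  obtain ⟨⟨H, P⟩, ⟨hP, hHP, hPN, hH⟩, hmax⟩ := Set.Finite.exists_maximalFor
    (fun x : Subgroup G × Subgroup G => Nat.card x.2)
    {x | IsPGroup p x.2 ∧ x.1 ≤ x.2 ∧ x.2 ≤ 𝐍(x.1) ∧ q ∣ (𝐂(x.1).subgroupOf 𝐍(x.1)).index}
    (Set.toFinite _) ⟨(H₀, H₀), hH₀, le_rfl, le_normalizer, hq₀⟩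
  dsimp only at hP hHP hPN hH
  have hmax' : ∀ K R : Subgroup G, IsPGroup p R → K ≤ R → R ≤ 𝐍(K) →
      q ∣ (𝐂(K).subgroupOf 𝐍(K)).index → Nat.card R ≤ Nat.card P := fun K R h1 h2 h3 h4 => by
    by_contra hlt
    have := hmax (j := (K, R)) ⟨h1, h2, h3, h4⟩ (not_le.1 hlt).le
    exact hlt this
  have hsyl : ∀ K : Subgroup G, K ≤ P → P ≤ 𝐍(K) → q ∣ (𝐂(K).subgroupOf 𝐍(K)).index →
      IsSylowIn p P 𝐍(K) := fun K h1 h2 h3 =>
    ⟨h2, hP, fun R a b c => (eq_of_le_of_card_ge a (hmax' K R c (h1.trans a) b h3)).symm⟩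
  by_cases hS : IsSylowIn p P ⊤
  · obtain ⟨g, -, hg⟩ := hS.conj (isSylowIn_top Gp)
    refine ⟨H ^ᶜ g, hg ▸ cj_mono g hHP, ?_, ?_⟩
    · rw [← hg, ← cj_normalizer]; exact cj_mono g hPN
    · obtain ⟨x, hx, hc, k, hk⟩ := dvd_autz_iff.1 hH
      refine dvd_autz_iff.2 ⟨g * x * g⁻¹, ?_, ?_, k, ?_⟩
      · rw [← cj_normalizer]; exact cj_mem g hx
      · rw [← cj_centralizer, cj_mem_iff]; exact hc
      · rw [conj_pow, hk]; group
  exfalso
  obtain ⟨R, hR, hPR, hRN⟩ : ∃ R : Subgroup G, IsPGroup p R ∧ P < R ∧ R ≤ 𝐍(P) := by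
    by_contra hc
    refine hS (isSylowIn_of_normalizer le_top ⟨le_inf le_top le_normalizer, hP, fun R a b c => ?_⟩)
    by_contra hne
    exact hc ⟨R, c, lt_of_le_of_ne a (Ne.symm hne), b.trans inf_le_right⟩
  have hlt : Nat.card P < Nat.card R := lt_of_le_of_ne (card_le_of_le hPR.le)
    fun e => hPR.ne (eq_of_le_of_card_ge hPR.le e.ge)
  -- enlarge `H`
  set H₁ := H ⊔ (P ⊓ 𝐂(H)) with hH₁
  have hH₁P : H₁ ≤ P := sup_le hHP inf_le_left
  have hPN₁ : P ≤ 𝐍(H₁) := le_normalizer_sup hPN (le_normalizer_inf le_normalizer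
    (le_normalizer_centralizer hPN))
  have hq₁ : q ∣ (𝐂(H₁).subgroupOf 𝐍(H₁)).index := by
    have hZ : IsSylowIn p (P ⊓ 𝐂(H)) 𝐂(H) := (hsyl H hHP hPN hH).inf_normal
      (centralizer_le_normalizer _) (normalizer_le_normalizer_centralizer H)
    have e := hZ.frattini_sup (L := 𝐍(H)) (centralizer_le_normalizer _)
      (normalizer_le_normalizer_centralizer H)
    set T := 𝐍(H) ⊓ 𝐍(P ⊓ 𝐂(H)) with hT
    have hT₁ : T ≤ 𝐍(H₁) := le_normalizer_sup inf_le_left inf_le_right
    obtain ⟨Q, hQ⟩ := exists_isSylowIn q T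
    have hQN : ¬ Q ≤ 𝐂(H) := by
      intro hle
      have h1 : q ∣ 𝐂(H).relIndex T := by
        have h2 : 𝐂(H).relIndex T = 𝐂(H).relIndex 𝐍(H) := by
          have hn : (𝐂(H).subgroupOf 𝐍(H)).Normal := inferInstance
          have h3 := relIndex_sup_left (T.subgroupOf 𝐍(H)) (𝐂(H).subgroupOf 𝐍(H))
          rw [← subgroupOf_sup (centralizer_le_normalizer _) inf_le_left, e, subgroupOf_self,
            relIndex_top_right, relIndex_subgroupOf inf_le_left] at h3
          exact h3.symm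
        rw [h2]; exact hH
      exact hQ.not_dvd_relIndex (h1.trans (relIndex_dvd_of_le_left _ hle))
    obtain ⟨x, hx, hc⟩ := SetLike.not_le_iff_exists.1 hQN
    obtain ⟨k, hk⟩ := hQ.isP ⟨x, hx⟩
    exact dvd_autz_iff.2 ⟨x, hT₁ (hQ.le hx), fun h => hc (centralizer_anti le_sup_left h), k,
      congrArg Subtype.val hk⟩
  have hS₁ := hsyl H₁ hH₁P hPN₁ hq₁
  have hpH₁ : IsPGroup p H₁ := hP.to_le hH₁P
  have hsN : IsPSolvable p 𝐍(H₁) := by
    refine H76.isPSolvable_extension (𝐂(H₁).subgroupOf 𝐍(H₁)) ?_ (hsol H₁ hpH₁)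
    refine H76.isPSolvable_of_injective (G' := 𝐂(H₁)) ?_
      (f := (subgroupOfEquivOfLe (centralizer_le_normalizer (H₁ : Set G))).toMonoidHom)
      (subgroupOfEquivOfLe (centralizer_le_normalizer (H₁ : Set G))).injective
    have hZ : IsSylowIn p (P ⊓ 𝐂(H₁)) 𝐂(H₁) := hS₁.inf_normal
      (centralizer_le_normalizer _) (normalizer_le_normalizer_centralizer H₁)
    have hZn : ((P ⊓ 𝐂(H₁)).subgroupOf 𝐂(H₁)).Normal := by
      refine normal_subgroupOf_of_le_normalizer (le_normalizer_of_le_centralizer (centralizer_anti ?_))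
      exact (inf_le_inf_left _ (centralizer_anti le_sup_left)).trans le_sup_right
    refine H76.isPSolvable_extension ((P ⊓ 𝐂(H₁)).subgroupOf 𝐂(H₁))
      (H76.isPSolvable_of_isPGroup hZ.isP.comap_subtype) (H76.isPSolvable_of_coprime ?_)
    rw [← index_eq_card]
    exact ((Nat.Prime.coprime_iff_not_dvd hp.out).2 hZ.not_dvd_relIndex).symm
  obtain ⟨S, hSP⟩ := hS₁.exists_sylow_subgroupOf
  have hcen : 𝐂(H₁.subgroupOf 𝐍(H₁)) = 𝐂(H₁).subgroupOf 𝐍(H₁) := by
    ext y
    rw [mem_subgroupOf, mem_centralizer_iff_commute, mem_centralizer_iff_commute]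
    exact ⟨fun h a ha => congrArg Subtype.val (h ⟨a, le_normalizer ha⟩ ha),
      fun h a ha => Subtype.ext (h a ha)⟩
  obtain ⟨x, hxc, ⟨k, hk⟩, hx⟩ := exists_qelt_of_factor hpq h23 hsN (H := H₁.subgroupOf 𝐍(H₁))
    hpH₁.comap_subtype (by rw [hcen]; exact hq₁) S
  rw [hcen, mem_subgroupOf] at hxc
  have hk' : (x : G) ^ q ^ k = 1 := congrArg Subtype.val hk
  have hP1 : P ≠ ⊥ := by
    intro e
    refine hxc (mem_centralizer_iff_commute.2 fun a ha => ?_)
    have : a ∈ (⊥ : Subgroup G) := e ▸ hH₁P ha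
    rw [mem_bot.1 this, one_mul, mul_one]
  obtain ⟨W, hWP, hW1, hNW, hxW⟩ : ∃ W : Subgroup G, W ≤ P ∧ W ≠ ⊥ ∧ 𝐍(P) ≤ 𝐍(W) ∧ (x : G) ∈ 𝐍(W) := by
    rcases hx with hx | hx
    · refine ⟨thompsonSubgroupOf p P, H24.thompsonSubgroupOf_le P,
        H24.thompsonSubgroupOf_ne_bot (dvd_card_of_ne_bot hP hP1),
        H24.normalizer_le_normalizer_thompsonSubgroupOf P, ?_⟩
      have e : thompsonSubgroupOf p P = (thompsonSubgroupOf p (S : Subgroup 𝐍(H₁))).map 𝐍(H₁).subtype := by
        rw [H24.map_thompsonSubgroupOf 𝐍(H₁).subtype_injective, hSP, map_subgroupOf_eq_of_le hPN₁]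
      rw [e]
      exact le_normalizer_map _ ⟨x, hx, rfl⟩
    · refine ⟨omegaOne p (P ⊓ 𝐂(P)), (H24.omegaOne_le _).trans inf_le_left,
        H24.omegaOne_center_ne_bot hP hP1,
        (H24.normalizer_le_normalizer_center P).trans (H24.normalizer_le_normalizer_omegaOne _), ?_⟩
      have e : omegaOne p (P ⊓ 𝐂(P)) =
          (omegaOne p ((S : Subgroup 𝐍(H₁)) ⊓ 𝐂((S : Subgroup 𝐍(H₁))))).map 𝐍(H₁).subtype := by
        rw [H24.map_omegaOne 𝐍(H₁).subtype_injective, H24.map_inf_centralizer 𝐍(H₁).subtype_injective,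
          hSP, map_subgroupOf_eq_of_le hPN₁]
      rw [e]
      exact le_normalizer_map _ ⟨x, centralizer_le_normalizer _ hx, rfl⟩
  by_cases hxCW : (x : G) ∈ 𝐂(W)
  swap
  · exact hlt.not_ge (hmax' W R hR (hWP.trans hPR.le) (hRN.trans hNW)
      (dvd_autz_iff.2 ⟨x, hxW, hxCW, k, hk'⟩))
  set M := 𝐍(W) with hM
  let g := QuotientGroup.mk' (W.subgroupOf M)
  have hg : Function.Surjective g := QuotientGroup.mk'_surjective _
  have hgk : IsPGroup p g.ker := by
    rw [QuotientGroup.ker_mk']; exact (hP.to_le hWP).comap_subtype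
  have hPM : P ≤ M := le_normalizer.trans hNW
  have hcard : Nat.card (M ⧸ W.subgroupOf M) < n := by
    rw [← hn, ← index_eq_card]
    have h1 := (W.subgroupOf M).card_mul_index
    rw [H24.card_subgroupOf_of_le le_normalizer] at h1
    have h2 : 1 < Nat.card W := (Subgroup.one_lt_card_iff_ne_bot W).2 hW1
    have h3 : 0 < (W.subgroupOf M).index := Nat.pos_of_ne_zero index_ne_zero_of_finite
    have h4 : Nat.card M ≤ Nat.card G := card_le_card_group M
    nlinarith
  obtain ⟨S', hS'⟩ := (((hR.comap_subtype (K := M))).map g).exists_le_sylow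
  obtain ⟨K, hKS, hSK, hK⟩ := ih _ hcard (M ⧸ W.subgroupOf M) rfl
    (fun U hU => (autz_section M.subtype g M.subtype_injective hg U).1
      (hsol _ ((hU.comap_of_ker_isPGroup g hgk).map _)))
    ((H₁.subgroupOf M).map g) (hpH₁.comap_subtype.map g) (by
      refine dvd_autz_iff.2 ⟨g ⟨x, hxW⟩, ?_, ?_, k, ?_⟩
      · refine le_normalizer_map _ ⟨⟨x, hxW⟩, ?_, rfl⟩
        refine H24.mem_normalizer_of_conj_mem fun y hy => ?_
        exact mem_subgroupOf.2 (H24.conj_mem_of_mem_normalizer x.2 (mem_subgroupOf.1 hy))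
      · intro hc
        refine hxc (mem_centralizer_iff_commute.2 fun a ha => ?_)
        have h1 := mem_centralizer_iff_commute.1 hc (g ⟨a, hPM (hH₁P ha)⟩) ⟨_, ha, rfl⟩
        have h2 : a⁻¹ * (x * a * (x : G)⁻¹) ∈ W := by
          have : g ((⟨a, hPM (hH₁P ha)⟩ : M)⁻¹ * (⟨x, hxW⟩ * ⟨a, hPM (hH₁P ha)⟩ * (⟨x, hxW⟩ : M)⁻¹)) = 1 := by
            rw [map_mul, map_mul, map_mul, map_inv, map_inv, ← h1]; group
          exact mem_subgroupOf.1 ((QuotientGroup.eq_one_iff _).1 this)
        set w := a⁻¹ * (x * a * (x : G)⁻¹) with hw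
        have h3 : ∀ m : ℕ, (x : G) ^ m * a * ((x : G) ^ m)⁻¹ = a * w ^ m := by
          intro m
          induction m with
          | zero => simp
          | succ m ihm =>
            have h4 := conj_eq_of_mem_centralizer hxCW (W.pow_mem h2 m)
            calc (x : G) ^ (m + 1) * a * ((x : G) ^ (m + 1))⁻¹
                = x * ((x : G) ^ m * a * ((x : G) ^ m)⁻¹) * (x : G)⁻¹ := by rw [pow_succ']; group
              _ = (x * a * (x : G)⁻¹) * (x * w ^ m * (x : G)⁻¹) := by rw [ihm]; group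
              _ = a * w ^ (m + 1) := by rw [h4, pow_succ', ← mul_assoc, hw, mul_inv_cancel_left]
        have h5 : w ^ q ^ k = 1 := by
          have := h3 (q ^ k)
          rw [hk', one_mul, inv_one, mul_one] at this
          exact (mul_eq_left.1 this.symm)
        obtain ⟨j, hj⟩ := hP ⟨w, hWP h2⟩
        have h6 : w ^ p ^ j = 1 := congrArg Subtype.val hj
        have h7 : w = 1 := by
          have := pow_gcd_eq_one.2 ⟨h5, h6⟩
          rwa [Nat.Coprime.gcd_eq_one (Nat.Coprime.pow _ _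
            ((Nat.coprime_primes hq.out hp.out).2 hpq.symm)), pow_one] at this
        rw [hw, inv_mul_eq_one] at h7
        calc a * x = (x * a * (x : G)⁻¹) * x := by rw [← h7]
          _ = x * a := by group
      · rw [← map_pow]
        have : (⟨x, hxW⟩ : M) ^ q ^ k = 1 := Subtype.ext hk'
        rw [this, map_one]) S'
  have h1 := hmax' ((K.comap g).map M.subtype) (((S' : Subgroup _).comap g).map M.subtype)
    ((S'.isPGroup'.comap_of_ker_isPGroup g hgk).map _) (map_mono (comap_mono hKS)) (by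
      refine (map_mono ((comap_mono hSK).trans (le_normalizer_comap g))).trans (le_normalizer_map _))
    (hK.trans (autz_section (p := p) M.subtype g M.subtype_injective hg K).2)
  have h2 : R ≤ ((S' : Subgroup _).comap g).map M.subtype := fun y hy =>
    ⟨⟨y, hNW (hRN hy)⟩, hS' ⟨_, hy, rfl⟩, rfl⟩
  exact hlt.not_ge ((card_le_of_le h2).trans h1)

end H92
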