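import Mathlib
import Cfsg.Agent.Lib.Thompson.NPCThm
import Cfsg.Agent.Lib.Push.Nat
import Cfsg.Agent.S2006
import Cfsg.Agent.Lib.LocStruct.ResAct

/-! Lemmas for Thompson's `J(S)` criterion for `p ≥ 5` (helper92). -/

set_option autoImplicit false

namespace H92.JN

open Subgroup Cfsg
open scoped commutatorElement

theorem end_mul {W : Type*} [AddCommGroup W] (f g : AddMonoid.End W) (w : W) :
    (f * g) w = f (g w) := rfl

theorem iso_step {W : Type*} [AddCommGroup W] (G : ℕ → ℕ → W) {n d : ℕ} (hn : Odd n)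
    (hd : n ≤ d + 1)
    (hrel : ∀ i j, d ≤ i + j + 1 → G (i + 1) j + G i (j + 1) + G (i + 1) (j + 1) = 0)
    (hz : ∀ i j, n ≤ i ∨ n ≤ j → G i j = 0) (halt : ∀ i, G i i = 0) :
    ∀ i j, d ≤ i + j → G i j = 0 := by
  suffices h : ∀ e i j, 2 * n ≤ i + j + e → d ≤ i + j → G i j = 0 from
    fun i j => h (2 * n) i j (by omega)
  intro e
  induction e with
  | zero => exact fun i j h _ => hz i j (by omega)
  | succ e ih =>
    intro i j h h'
    have key : ∀ j' i', i' + j' = i + j → (G i' j' = 0 ↔ G (i + j) 0 = 0) := by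
      intro j'
      induction j' with
      | zero => intro i' h1; rw [← h1]; rfl
      | succ j' ih' =>
        intro i' h1
        have h2 := hrel i' j' (by omega)
        rw [ih (i' + 1) (j' + 1) (by omega) (by omega), add_zero, add_eq_zero_iff_eq_neg] at h2
        rw [← ih' (i' + 1) (by omega), h2, neg_eq_zero]
    rw [key j i rfl]
    rcases le_or_gt n (i + j) with h1 | h1
    · exact hz _ _ (Or.inl h1)
    · obtain ⟨k, hk⟩ := hn
      exact (key k k (by omega)).1 (halt k)

theorem iso_lemma {W : Type*} [AddCommGroup W] (u : AddMonoid.End W) (F : ℕ → ℕ → W) {n s : ℕ}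
    (hn : Odd n) (hrel : ∀ i j, u (F i j) = F (i + 1) j + F i (j + 1) + F (i + 1) (j + 1))
    (hz : ∀ i j, n ≤ i ∨ n ≤ j → F i j = 0) (halt : ∀ i, F i i = 0) (hu : u ^ (s + 1) = 0) :
    ∀ i j, n + s ≤ i + j + 1 → F i j = 0 := by
  have h : ∀ t m, m + t = s + 1 → ∀ i j, n + s ≤ i + j + 1 + m → (u ^ m) (F i j) = 0 := by
    intro t
    induction t with
    | zero => intro m hm i j _; rw [add_zero] at hm; rw [hm, hu]; rfl
    | succ t ih =>
      intro m hm i j hij
      have hn0 := hn.pos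
      refine iso_step (fun i j => (u ^ m) (F i j)) (d := n + s - 1 - m) hn (by omega)
        (fun i j h => ?_) (fun i j h => by simp only [hz i j h, map_zero])
        (fun i => by simp only [halt i, map_zero]) i j (by omega)
      have := ih (m + 1) (by omega) i j (by omega)
      rwa [pow_succ, end_mul, hrel, map_add, map_add] at this
  intro i j hij
  exact h (s + 1) 0 (by omega) i j (by omega)

theorem end_pow {W : Type*} [AddCommGroup W] {p : ℕ} [hp : Fact p.Prime] (hW : ∀ w : W, p • w = 0)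
    (α : AddMonoid.End W) (m : ℕ) : (α - 1) ^ p ^ m = α ^ p ^ m - 1 := by
  rcases subsingleton_or_nontrivial (AddMonoid.End W) with h | h
  · exact Subsingleton.elim _ _
  haveI : CharP (AddMonoid.End W) p := (CharP.charP_iff_prime_eq_zero hp.out).2 (by
    ext w
    rw [AddMonoid.End.natCast_apply, hW]; rfl)
  rw [sub_pow_char_pow_of_commute p _ (Commute.one_right α), one_pow]

theorem chain_lemma {W : Type*} [AddCommGroup W] [Finite W] {p : ℕ} [hp : Fact p.Prime]
    (hW : ∀ w : W, p • w = 0) (u : AddMonoid.End W) {N k : ℕ} (hN : u ^ N = 0)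
    (hk : Nat.card (AddMonoidHom.range u) ≤ p ^ k) : u ^ (k + 1) = 0 := by
  let r : ℕ → AddSubgroup W := fun j => AddMonoidHom.range (u ^ j : AddMonoid.End W)
  have hr : ∀ j, r (j + 1) ≤ r j := by
    rintro j _ ⟨w, rfl⟩
    exact ⟨u w, by rw [pow_succ]; rfl⟩
  have hst : ∀ j, r j ≤ r (j + 1) → ∀ m, r j ≤ r (j + m) := by
    intro j h m
    induction m with
    | zero => exact le_rfl
    | succ m ih =>
      intro x hx
      obtain ⟨w, rfl⟩ := ih hx
      obtain ⟨w', e⟩ := h ⟨w, rfl⟩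
      refine ⟨w', ?_⟩
      change (u ^ (j + (m + 1))) w' = (u ^ (j + m)) w
      rw [show j + (m + 1) = m + (j + 1) by ring, add_comm j m, pow_add u m j, pow_add u m,
        end_mul, end_mul]
      exact congrArg _ e
  have h1 : ∀ j, Nat.card (r (j + 1)) = 1 ∨ p ^ j * Nat.card (r (j + 1)) ≤ p ^ k := by
    intro j
    induction j with
    | zero => right; simpa [r] using hk
    | succ j ih =>
      by_cases h : r (j + 1) ≤ r (j + 1 + 1)
      · left
        rw [AddSubgroup.card_eq_one, eq_bot_iff]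
        refine (hr _).trans ((hst _ h N).trans ?_)
        rintro _ ⟨w, rfl⟩
        change (u ^ (j + 1 + N)) w ∈ (⊥ : AddSubgroup W)
        rw [pow_add, hN, mul_zero]; rfl
      rcases ih with ih | ih
      · exact absurd (by rw [AddSubgroup.card_eq_one.1 ih]; exact bot_le) h
      right
      refine le_trans ?_ ih
      rw [pow_succ, mul_assoc]
      refine Nat.mul_le_mul_left _ ?_
      obtain ⟨x, hx, hx'⟩ := SetLike.not_le_iff_exists.1 h
      have e := (r (j + 1 + 1)).addSubgroupOf (r (j + 1)) |>.card_mul_index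
      rw [Nat.card_congr (AddSubgroup.addSubgroupOfEquivOfLe (hr _)).toEquiv] at e
      rw [← e, mul_comm]
      refine Nat.mul_le_mul_left _ (Nat.le_of_dvd (Nat.pos_of_ne_zero
        AddSubgroup.index_ne_zero_of_finite) ?_)
      have h2 : addOrderOf (QuotientAddGroup.mk (s := (r (j + 1 + 1)).addSubgroupOf (r (j + 1)))
          ⟨x, hx⟩) = p := by
        refine addOrderOf_eq_prime ?_ fun h3 => hx' ?_
        · rw [← QuotientAddGroup.mk_nsmul]
          exact congrArg _ (Subtype.ext (hW x))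
        · exact (QuotientAddGroup.eq_zero_iff (⟨x, hx⟩ : r (j + 1))).1 h3
      exact h2 ▸ addOrderOf_dvd_natCard _
  have h2 : Nat.card (r (k + 1)) = 1 := (h1 k).elim id fun h => by
    have h3 : 0 < Nat.card (r (k + 1)) := Nat.card_pos
    have h4 : 0 < p ^ k := pow_pos hp.out.pos k
    nlinarith
  ext w
  have : (u ^ (k + 1)) w ∈ r (k + 1) := ⟨w, rfl⟩
  rwa [AddSubgroup.card_eq_one.1 h2] at this

variable {G : Type*} [Group G] [Finite G]

/-- Thompson's lemma: if `M = [x, A]` is abelian, every element of `M` is a commutator modulo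
`C(A)`. -/
theorem thompson_surj {T A : Subgroup G} (hA : A ∈ H24.maxAb T) {x : G} (hx : x ∈ T)
    (hM : ∀ g ∈ A, ∀ h ∈ A, ⁅g, x⁆ * ⁅h, x⁆ = ⁅h, x⁆ * ⁅g, x⁆) {m : G}
    (hm : m ∈ closure {c | ∃ g ∈ A, c = ⁅g, x⁆}) :
    ∃ g ∈ A, ⁅g, x⁆⁻¹ * m ∈ centralizer (A : Set G) := by
  obtain ⟨hAT, hAc, hmax⟩ := H24.mem_maxAb.1 hA
  have hAc' := H24.isMulCommutative_iff_mem.1 hAc
  set M := closure {c | ∃ g ∈ A, c = ⁅g, x⁆} with hMdef
  have hMM : M ≤ centralizer (M : Set G) := by
    have h1 : M ≤ centralizer {c | ∃ g ∈ A, c = ⁅g, x⁆} := (closure_le _).2 (by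
      rintro _ ⟨g, hg, rfl⟩ _ ⟨h, hh, rfl⟩
      exact hM h hh g hg)
    rwa [← centralizer_closure] at h1
  have hMT : M ≤ T := (closure_le _).2 (by
    rintro _ ⟨g, hg, rfl⟩
    exact T.mul_mem (T.mul_mem (T.mul_mem (hAT hg) hx) (T.inv_mem (hAT hg))) (T.inv_mem hx))
  set C := A ⊓ centralizer (M : Set G) with hC
  set K := (centralizer (A : Set G)).subgroupOf M with hK
  have hc : ∀ g : A, ⁅(g : G), x⁆ ∈ M := fun g => subset_closure ⟨g, g.2, rfl⟩
  let σ : A ⧸ C.subgroupOf A → M ⧸ K := fun q => QuotientGroup.mk ⟨_, hc q.out⟩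
  have hσ : Function.Injective σ := by
    intro q q' e
    rw [← q.out_eq', ← q'.out_eq', QuotientGroup.eq, mem_subgroupOf]
    have e1 : ⁅(q.out : G), x⁆⁻¹ * ⁅(q'.out : G), x⁆ ∈ centralizer (A : Set G) :=
      QuotientGroup.eq (s := K).1 e
    have h0 := (q.out⁻¹ * q'.out).2
    rw [coe_mul, coe_inv] at h0 ⊢
    have hg := q.out.2
    generalize (q.out : G) = g at *
    generalize hh : g⁻¹ * (q'.out : G) = h at *
    have e2 : ⁅(q'.out : G), x⁆ = g * ⁅h, x⁆ * g⁻¹ * ⁅g, x⁆ := by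
      rw [← hh]; simp only [commutatorElement_def]; group
    have e3 : ⁅g, x⁆⁻¹ * ⁅(q'.out : G), x⁆ = g * ⁅h, x⁆ * g⁻¹ := by
      rw [inv_mul_eq_iff_eq_mul, ← mul_left_inj ⁅g, x⁆, mul_assoc, ← e2]
      exact hM _ q'.out.2 _ hg
    rw [e3] at e1
    have e4 : ⁅h, x⁆ ∈ centralizer (A : Set G) := by
      have := H69.conj_mem_of_mem_normalizer' (H69.le_normalizer_centralizer le_normalizer hg) e1
      rwa [show g⁻¹ * (g * ⁅h, x⁆ * g⁻¹) * g = ⁅h, x⁆ by group] at this
    refine ⟨h0, ?_⟩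
    rw [hMdef, centralizer_closure]
    rintro _ ⟨k, hk, rfl⟩
    have e5 : ⁅k * h, x⁆ = k * ⁅h, x⁆ * k⁻¹ * ⁅k, x⁆ := by
      simp only [commutatorElement_def]; group
    have e6 : ⁅h * k, x⁆ = h * ⁅k, x⁆ * h⁻¹ * ⁅h, x⁆ := by
      simp only [commutatorElement_def]; group
    rw [e4 k hk, mul_inv_cancel_right, hAc' k hk h h0, e6, hM h h0 k hk, mul_left_inj,
      mul_inv_eq_iff_eq_mul] at e5
    exact e5.symm
  have hcard : Nat.card (M ⧸ K) ≤ Nat.card (A ⧸ C.subgroupOf A) := by
    have h1 := hmax (M ⊔ C) (sup_le hMT (inf_le_left.trans hAT)) (by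
      refine H24.isMulCommutative_iff_mem.2 fun a ha b hb => ?_
      have h2 : M ⊔ C ≤ centralizer ((M ⊔ C : Subgroup G) : Set G) := by
        rw [H69.centralizer_sup]
        exact sup_le (le_inf hMM (H69.le_centralizer_comm.1 inf_le_right))
          (le_inf inf_le_right fun a ha b hb => hAc' b hb.1 a ha.1)
      exact h2 hb a ha)
    have h2 := H24.card_sup_mul_card_inf (A := M) (B := C)
      (H69.le_normalizer_of_le_centralizer (H69.le_centralizer_comm.1 inf_le_right))
    have h3 := card_eq_card_quotient_mul_card_subgroup K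
    have h4 := card_eq_card_quotient_mul_card_subgroup (C.subgroupOf A)
    rw [H69.card_subgroupOf inf_le_left] at h4
    have h5 : Nat.card (M ⊓ C : Subgroup G) ≤ Nat.card K := by
      rw [hK, ← inf_subgroupOf_right, H69.card_subgroupOf inf_le_right]
      exact card_le_of_le (le_inf (fun a ha b hb => hAc' b hb a ha.2.1) inf_le_left)
    have h6 : 0 < Nat.card K * Nat.card C := Nat.mul_pos Nat.card_pos Nat.card_pos
    refine Nat.le_of_mul_le_mul_right ?_ h6
    calc Nat.card (M ⧸ K) * (Nat.card K * Nat.card C) = Nat.card M * Nat.card C := by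
          rw [h3]; ring
      _ = Nat.card (M ⊔ C : Subgroup G) * Nat.card (M ⊓ C : Subgroup G) := h2.symm
      _ ≤ Nat.card A * Nat.card K := Nat.mul_le_mul h1 h5
      _ = _ := by rw [h4]; ring
  obtain ⟨q, hq⟩ := (hσ.bijective_of_nat_card_le hcard).2 (QuotientGroup.mk ⟨m, hm⟩)
  exact ⟨q.out, q.out.2, QuotientGroup.eq (s := K).1 hq⟩

/-- Hall–Higman for a group whose Sylow subgroup is maximal. -/
theorem hh {p : ℕ} [Fact p.Prime] (T : Sylow p G) (hT : IsCoatom (T : Subgroup G)) {g : G}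
    (hg : g ∈ (T : Subgroup G)) (hg' : g ∉ pCore p G) {U V : Subgroup G} (hUV : IsChiefFactor U V)
    (hU : U ≤ pCore p G) (h1 : iterCommutator U (zpowers g) (p - 1) ≤ V) :
    ⁅U, zpowers g⁆ ≤ V := by
  have hVn := hUV.2.2.1
  let π := QuotientGroup.mk' V
  have hπ : Function.Surjective π := QuotientGroup.mk'_surjective V
  have hVp : V ≤ Cfsg.pCore p _ := hUV.1.le.trans hU
  have hVT : V ≤ T := hVp.trans (H1.pCore_le_sylow T)
  have hcomap := H1.comap_mk'_pCore (H1.isPGroup_pCore.to_le hVp)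
  have h3 := Cfsg.Agent.S2006.aux (T.mapSurjective hπ) (g := π g) (U := U.map π) ?_ ⟨g, hg, rfl⟩
    (fun h => hg' (hcomap ▸ h)) (H57.chief_map_mk' hUV)
    (by rw [Subgroup.map_le_iff_le_comap, hcomap]; exact hU)
    (by
      rw [← MonoidHom.map_zpowers, ← H57.map_iter, Subgroup.map_le_iff_le_comap,
        MonoidHom.comap_bot, QuotientGroup.ker_mk']
      exact h1)
  · rwa [← MonoidHom.map_zpowers, ← Subgroup.map_commutator, Subgroup.map_le_iff_le_comap,
      MonoidHom.comap_bot, QuotientGroup.ker_mk'] at h3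
  · exact H3.isCoatom_map_of_ker_le hπ hT (by rwa [QuotientGroup.ker_mk'])

end H92.JN
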