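import Mathlib
import Cfsg.Agent.Lib.Misc92.JNormA

/-! The local step of Thompson's `J(S)` criterion for `p ≥ 5` (helper92). -/

set_option autoImplicit false

namespace H92.JN

open Subgroup Cfsg H69 H68.Push
open scoped commutatorElement

theorem geom {W : Type*} [AddCommGroup W] (α : AddMonoid.End W) (m : ℕ) {w : W}
    (h : ((α - 1) ^ (m + 2)) w = 0) (t : ℕ) :
    ((α - 1) ^ m) ((α ^ t - 1) w) = t • ((α - 1) ^ (m + 1)) w := by
  have h1 : α (((α - 1) ^ (m + 1)) w) = ((α - 1) ^ (m + 1)) w := by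
    rw [pow_succ' _ (m + 1), end_mul] at h
    exact sub_eq_zero.1 h
  induction t with
  | zero => simp
  | succ t ih =>
    have h2 : ∀ s : ℕ, (α ^ s) (((α - 1) ^ (m + 1)) w) = ((α - 1) ^ (m + 1)) w := fun s => by
      induction s with
      | zero => rfl
      | succ s ih => rw [pow_succ, end_mul, h1, ih]
    have h3 : (α - 1) ^ m * (α ^ (t + 1) - 1) =
        (α - 1) ^ m * (α ^ t - 1) + α ^ t * (α - 1) ^ (m + 1) := by
      have h4 : Commute (α ^ t) ((α - 1) ^ m) :=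
        ((Commute.refl α).sub_right (Commute.one_right α)).pow_pow t m
      rw [pow_succ (α - 1), ← mul_assoc, h4.eq, mul_assoc, ← mul_add, pow_succ α]
      congr 1
      noncomm_ring
    rw [← end_mul, h3, succ_nsmul, ← ih]
    exact congrArg _ (h2 t)

variable {G : Type*} [Group G] [Finite G] {p : ℕ} [hp : Fact p.Prime]

theorem exists_BD (T : Sylow p G) (hT : IsCoatom (T : Subgroup G))
    (hC : 𝐂(pCore p G) ≤ pCore p G) :
    ∃ B D : Subgroup G, IsChiefFactor B D ∧ B ≤ pCore p G ∧ D ≤ 𝐂(B) ∧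
      ∀ g ∈ (T : Subgroup G), g ∉ pCore p G → ¬ ⁅B, zpowers g⁆ ≤ D := by
  have hL : (pResidual p G).Normal := H4.pResidual_normal _ _
  have hRT := H1.pCore_le_sylow T
  have hLT := H4.pResidual_sup_sylow T
  obtain ⟨B, ⟨hBn, hBR, hBL⟩, hmin⟩ := exists_minimal_of_wellFoundedLT
    (fun B : Subgroup G => B.Normal ∧ B ≤ pCore p G ∧ ¬ B ≤ 𝐂(pResidual p G))
    ⟨pCore p G, inferInstance, le_rfl, fun h => hT.1 (by
      rw [← hLT, eq_comm, sup_eq_right]
      exact (le_centralizer_comm.1 h).trans (hC.trans hRT))⟩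
  have hBp : IsPGroup p B := H1.isPGroup_pCore.to_le hBR
  have hlt : ∀ N : Subgroup G, N.Normal → N ≤ B → N ≠ B → N ≤ B ⊓ 𝐂(pResidual p G) :=
    fun N hN h1 h2 => le_inf h1 (by
      by_contra h3
      exact h2 (le_antisymm h1 (hmin ⟨hN, h1.trans hBR, h3⟩ h1)))
  have hBB : ⁅B, pResidual p G⁆ = B := by
    by_contra h
    have h1 := hlt _ inferInstance (commutator_le_left_of_le_normalizer le_normalizer_of_normal) h
    rw [← res_top] at h1 hBL
    exact hBL (le_centralizer_comm.1 (res_le_centralizer_of_res_quadratic hBp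
      le_normalizer_of_normal (h1.trans inf_le_right)))
  refine ⟨B, B ⊓ 𝐂(pResidual p G), ⟨lt_of_le_of_ne inf_le_left fun e => hBL (inf_eq_left.1 e),
    hBn, inferInstance, fun N hN h1 h2 => ?_⟩, hBR, ?_, fun g hg hgR h => ?_⟩
  · by_cases e : N = B
    · exact Or.inr e
    · exact Or.inl (le_antisymm (hlt N hN h2 e) h1)
  · rw [le_centralizer_comm]
    conv_lhs => rw [← hBB]
    refine three_subgroups_cent ?_ ?_
    · rw [commutator_eq_bot_iff_le_centralizer.2 (le_centralizer_comm.1 inf_le_right)]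
      exact bot_le
    · exact (commutator_le_left_of_le_normalizer le_normalizer_of_normal).trans inf_le_right
  · set D := B ⊓ 𝐂(pResidual p G) with hD
    have hKn : (cm D B).Normal := normalizer_eq_top_iff.1 (eq_top_iff.2
      (le_normalizer_cm le_normalizer_of_normal le_normalizer_of_normal))
    have hg' : g ∈ cm D B := zpowers_le.1 (le_cm_iff.2 ⟨le_normalizer_of_normal, h⟩)
    by_cases hK : cm D B ≤ T
    · exact hgR (H1.le_pCore (T.isPGroup'.to_le hK) hg')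
    have h1 : (T : Subgroup G) ⊔ cm D B = ⊤ :=
      hT.2 _ (lt_of_le_of_ne le_sup_left fun e => hK (e ▸ le_sup_right))
    have h2 : pResidual p G ≤ cm D B := by
      refine H4.pResidual_le_of_isPGroup_quotient ?_
      refine T.isPGroup'.of_surjective ((QuotientGroup.mk' _).comp (T : Subgroup G).subtype)
        fun x => ?_
      obtain ⟨x, rfl⟩ := QuotientGroup.mk_surjective x
      obtain ⟨t, ht, c, hc, rfl⟩ := (mem_sup_of_le_normalizer_right
        (A := T) (B := cm D B) le_normalizer_of_normal).1 (h1 ▸ mem_top x)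
      exact ⟨⟨t, ht⟩, QuotientGroup.eq.2 (by simpa using hc)⟩
    exact hBL ((hBB.ge.trans (le_cm_iff.1 h2).2).trans inf_le_right)

omit [Finite G] in
theorem card_le_of_cyc {A C : Subgroup G} [Finite A] (hCA : C ≤ A) {a : G} (ha : a ∈ A) {n : ℕ}
    (hn : 0 < n) (han : a ^ n ∈ C) (h : ∀ g ∈ A, ∃ t : ℕ, ∃ c ∈ C, g = a ^ t * c) :
    Nat.card A ≤ n * Nat.card C := by
  haveI : Finite C := Finite.of_injective _ (inclusion_injective hCA)
  have : Function.Surjective fun x : Fin n × C =>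
      (⟨a ^ (x.1 : ℕ) * x.2, A.mul_mem (A.pow_mem ha _) (hCA x.2.2)⟩ : A) := by
    rintro ⟨g, hg⟩
    obtain ⟨t, c, hc, rfl⟩ := h g hg
    refine ⟨(⟨t % n, Nat.mod_lt _ hn⟩, ⟨(a ^ n) ^ (t / n) * c, C.mul_mem (C.pow_mem han _) hc⟩),
      Subtype.ext ?_⟩
    change a ^ (t % n) * ((a ^ n) ^ (t / n) * c) = a ^ t * c
    rw [← pow_mul, ← mul_assoc, ← pow_add, Nat.mod_add_div]
  simpa using Nat.card_le_card_of_surjective _ this

universe u in
/-- A model of an abelian section as a module with endomorphisms. -/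
theorem exists_end {G : Type u} [Group G] {L V D : Subgroup G} (h : IsSec L V D) :
    ∃ (W : Type u) (_ : AddCommGroup W) (ρ : G → AddMonoid.End W) (π : G → W),
      (∀ u ∈ V, ∀ v ∈ V, π (u * v) = π u + π v) ∧ (∀ w, ∃ v ∈ V, π v = w) ∧
      (∀ v ∈ V, π v = 0 ↔ v ∈ D) ∧ (∀ v ∈ V, π v⁻¹ = - π v) ∧
      (∀ v ∈ V, ∀ n : ℕ, π (v ^ n) = n • π v) ∧
      (∀ x ∈ L, ∀ v ∈ V, ρ x (π v) = π (x * v * x⁻¹)) ∧
      (∀ x ∈ L, ∀ v ∈ V, (ρ x - 1) (π v) = π ⁅x, v⁆) ∧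
      (∀ x ∈ L, ∀ y ∈ L, ρ (x * y) = ρ x * ρ y) ∧ (∀ x ∈ L, ∀ n : ℕ, ρ (x ^ n) = ρ x ^ n) := by
  classical
  obtain ⟨W, _, _, π, h1, h2, h3, h4⟩ := h.exists_model
  let ρ : G → AddMonoid.End W := fun x =>
    if hx : x ∈ L then DistribMulAction.toAddMonoidEnd L W ⟨x, hx⟩ else 1
  have hρ : ∀ x (hx : x ∈ L), ρ x = DistribMulAction.toAddMonoidEnd L W ⟨x, hx⟩ :=
    fun x hx => dif_pos hx
  have h0 : π 1 = 0 := (h3 1 V.one_mem).2 D.one_mem
  have h5 : ∀ v ∈ V, π v⁻¹ = - π v := fun v hv => by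
    rw [eq_neg_iff_add_eq_zero, ← h1 _ (V.inv_mem hv) _ hv, inv_mul_cancel, h0]
  have h6 : ∀ x ∈ L, ∀ v ∈ V, ρ x (π v) = π (x * v * x⁻¹) := fun x hx v hv => by
    rw [hρ x hx]; exact h4 ⟨x, hx⟩ v hv
  refine ⟨W, inferInstance, ρ, π, h1, h2, h3, h5, fun v hv n => ?_, h6, fun x hx v hv => ?_,
    fun x hx y hy => ?_, fun x hx n => ?_⟩
  · induction n with
    | zero => rw [pow_zero, h0, zero_nsmul]
    | succ n ih => rw [pow_succ, h1 _ (V.pow_mem hv n) _ hv, ih, succ_nsmul]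
  · rw [commutatorElement_def, h1 _ (conj_mem_of_mem_normalizer (h.normV hx) hv) _ (V.inv_mem hv),
      h5 v hv, ← h6 x hx v hv, ← sub_eq_add_neg]
    rfl
  · rw [hρ x hx, hρ y hy, hρ _ (L.mul_mem hx hy), ← map_mul]; rfl
  · rw [hρ x hx, hρ _ (L.pow_mem hx n), ← map_pow]; rfl

/-- The commutators of the iterated commutators with `a` vanish in high degree. -/
theorem iso_grp (hp2 : p ≠ 2) {T A B D R : Subgroup G} (hA : A ∈ H24.maxAb T) (hDT : D ≤ T)
    (hAB : A ≤ 𝐍(B)) (hAD : A ≤ 𝐍(D)) (hDB : D ≤ B) (hDC : D ≤ 𝐂(B)) (hBB : ⁅B, B⁆ ≤ D)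
    (hBR : ⁅B, R⁆ ≤ D) (hpow : ∀ y ∈ B, y ^ p ∈ D) {a : G} (ha : a ∈ A) {k : ℕ}
    (hak : a ^ p ^ k ∈ R) (hcyc : ∀ g ∈ A, ∃ t : ℕ, ∃ c ∈ A ⊓ R, g = a ^ t * c) (y : ℕ → G)
    (hy : ∀ i, y i ∈ B) (hys : ∀ i, y (i + 1) = ⁅a, y i⁆) (hyD : ∀ i, p ^ k ≤ i → y i ∈ D) :
    ∀ i j, p ^ k + k ≤ i + j + 1 → ⁅y i, y j⁆ = 1 := by
  obtain ⟨hAT, hAc, hmax⟩ := H24.mem_maxAb.1 hA
  have hAc' := H24.isMulCommutative_iff_mem.1 hAc
  have hc : ∀ x ∈ B, ∀ y ∈ B, ⁅x, y⁆ ∈ D := fun x hx y hy => hBB (commutator_mem_commutator hx hy)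
  have hz : ∀ d ∈ D, ∀ x ∈ B, x * d = d * x := fun d hd x hx => hDC hd x hx
  have hl : ∀ x ∈ B, ∀ x' ∈ B, ∀ y ∈ B, ⁅x * x', y⁆ = ⁅x', y⁆ * ⁅x, y⁆ := fun x hx x' hx' y hy => by
    have : ⁅x * x', y⁆ = x * ⁅x', y⁆ * x⁻¹ * ⁅x, y⁆ := by
      simp only [commutatorElement_def]; group
    rw [this, hz _ (hc _ hx' _ hy) x hx, mul_inv_cancel_right]
  have hr : ∀ x ∈ B, ∀ y ∈ B, ∀ y' ∈ B, ⁅x, y * y'⁆ = ⁅x, y⁆ * ⁅x, y'⁆ := fun x hx y hy y' hy' => by
    have : ⁅x, y * y'⁆ = ⁅x, y⁆ * (y * ⁅x, y'⁆ * y⁻¹) := by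
      simp only [commutatorElement_def]; group
    rw [this, hz _ (hc _ hx _ hy') y hy, mul_inv_cancel_right]
  have hl1 : ∀ d ∈ D, ∀ x ∈ B, ⁅d, x⁆ = 1 := fun d hd x hx =>
    commutatorElement_eq_one_iff_mul_comm.2 (hz d hd x hx).symm
  have hr1 : ∀ d ∈ D, ∀ x ∈ B, ⁅x, d⁆ = 1 := fun d hd x hx =>
    commutatorElement_eq_one_iff_mul_comm.2 (hz d hd x hx)
  have hcj : ∀ g x y : G, g * ⁅x, y⁆ * g⁻¹ = ⁅⁅g, x⁆ * x, ⁅g, y⁆ * y⁆ := fun g x y => by
    simp only [commutatorElement_def]; group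
  let E : Subgroup G :=
    { carrier := {x | x ∈ D ⊓ 𝐂(A ⊓ R) ∧ x ^ p = 1}
      one_mem' := ⟨one_mem _, one_pow _⟩
      mul_mem' := fun {x y} hx hy => ⟨mul_mem hx.1 hy.1, by
        rw [Commute.mul_pow (hz _ hy.1.1 _ (hDB hx.1.1)), hx.2, hy.2, one_mul]⟩
      inv_mem' := fun {x} hx => ⟨inv_mem hx.1, by rw [inv_pow, hx.2, inv_one]⟩ }
  have hED : E ≤ D := fun x hx => hx.1.1
  have hEE : E ≤ 𝐂(E) := fun x hx y hy => hz _ (hED hx) _ (hDB (hED hy))
  have hAE : A ≤ 𝐍(E) := fun g hg => H24.mem_normalizer_of_conj_mem fun x hx =>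
    ⟨⟨conj_mem_of_mem_normalizer (hAD hg) hx.1.1, fun c hc => by
      rw [show c * (g * x * g⁻¹) = (c * g) * x * g⁻¹ by group, hAc' c hc.1 g hg, mul_assoc g,
        hx.1.2 c hc, mul_assoc, mul_assoc, hAc' c hc.1 _ (inv_mem hg)]
      group⟩, by rw [conj_pow, hx.2, mul_one, mul_inv_cancel]⟩
  have hE : ∀ x ∈ B, ∀ y ∈ B, ⁅x, y⁆ ∈ E := fun x hx y hy => by
    refine ⟨⟨hc x hx y hy, fun c hc' => ?_⟩, ?_⟩
    · have h1 : ∀ x ∈ B, ⁅c, x⁆ ∈ D := fun x hx => by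
        rw [← commutatorElement_inv]
        exact inv_mem (hBR (commutator_mem_commutator hx hc'.2))
      rw [← mul_inv_eq_iff_eq_mul, hcj, hl _ (hDB (h1 x hx)) _ hx _ (mul_mem (hDB (h1 y hy)) hy),
        hl1 _ (h1 x hx) _ (mul_mem (hDB (h1 y hy)) hy), hr _ hx _ (hDB (h1 y hy)) _ hy,
        hr1 _ (h1 y hy) _ hx, one_mul, mul_one]
    · have h1 : ∀ n : ℕ, ⁅x, y ^ n⁆ = ⁅x, y⁆ ^ n := fun n => by
        induction n with
        | zero => simp
        | succ n ih => rw [pow_succ, hr _ hx _ (pow_mem hy n) _ hy, ih, pow_succ]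
      rw [← h1, hr1 _ (hpow y hy) _ hx]
  obtain ⟨W, _, ρ, π, h1, h2, h3, h5, h6, h7, h8, -, h10⟩ := exists_end (isSec_bot hAE hEE)
  haveI : Finite W := Finite.of_surjective (fun v : E => π v) fun w => by
    obtain ⟨v, hv, e⟩ := h2 w
    exact ⟨⟨v, hv⟩, e⟩
  have hW : ∀ w : W, p • w = 0 := fun w => by
    obtain ⟨v, hv, rfl⟩ := h2 w
    rw [← h6 v hv, hv.2, h3 1 E.one_mem]; exact one_mem _
  have hN : (ρ a - 1) ^ p ^ k = 0 := by
    rw [end_pow hW, ← h10 a ha]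
    ext w
    obtain ⟨v, hv, rfl⟩ := h2 w
    rw [h8 _ (A.pow_mem ha _) v hv, commutatorElement_eq_one_iff_mul_comm.2
      (hv.1.2 _ ⟨A.pow_mem ha _, hak⟩)]
    exact (h3 1 E.one_mem).2 (one_mem _)
  have hcard : Nat.card (AddMonoidHom.range (ρ a - 1 : AddMonoid.End W)) ≤ p ^ k := by
    have e1 : Nat.card W = Nat.card E := by
      simpa using card_model h1 h2 h3 bot_le le_rfl (Y := ⊤) (by simp)
    have e2 : Nat.card (AddMonoidHom.ker (ρ a - 1 : AddMonoid.End W)) =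
        Nat.card (E ⊓ centralizer {a} : Subgroup G) := by
      simpa using card_model h1 h2 h3 bot_le (inf_le_left : E ⊓ centralizer {a} ≤ E)
        (Y := AddMonoidHom.ker (ρ a - 1 : AddMonoid.End W)) fun v hv => by
          change (ρ a - 1) (π v) = 0 ↔ _
          rw [h8 a ha v hv, h3 ⁅a, v⁆ (mul_mem (conj_mem_of_mem_normalizer (hAE ha) hv) (inv_mem hv)), mem_bot,
            commutatorElement_eq_one_iff_mul_comm, mem_inf, mem_centralizer_singleton_iff]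
          exact ⟨fun h => ⟨hv, h.symm⟩, fun h => h.2.symm⟩
    have e3 := AddSubgroup.card_mul_index (AddMonoidHom.ker (ρ a - 1 : AddMonoid.End W))
    erw [AddSubgroup.index_ker] at e3
    rw [e1, e2] at e3
    have e4 := hmax (E ⊔ (A ⊓ R)) (sup_le (hED.trans hDT) (inf_le_left.trans hAT)) (by
      refine H24.isMulCommutative_iff_mem.2 fun a ha b hb => ?_
      have h2 : E ⊔ (A ⊓ R) ≤ 𝐂(E ⊔ (A ⊓ R)) := by
        rw [H69.centralizer_sup]
        exact sup_le (le_inf hEE fun x hx => hx.1.2)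
          (le_inf (le_centralizer_comm.1 fun x hx => hx.1.2) fun a ha b hb => hAc' b hb.1 a ha.1)
      exact h2 hb a ha)
    have e5 := H24.card_sup_mul_card_inf (A := E) (B := A ⊓ R)
      (le_normalizer_of_le_centralizer fun x hx => hx.1.2)
    have e6 := card_le_of_cyc (inf_le_left : A ⊓ R ≤ A) ha (pow_pos hp.out.pos k)
      ⟨A.pow_mem ha _, hak⟩ hcyc
    have e7 : Nat.card (E ⊓ (A ⊓ R) : Subgroup G) ≤ Nat.card (E ⊓ centralizer {a} : Subgroup G) :=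
      card_le_of_le (inf_le_inf_left _ fun c hc =>
        mem_centralizer_singleton_iff.2 (hAc' c hc.1 a ha))
    have e8 : 0 < Nat.card (E ⊓ centralizer {a} : Subgroup G) * Nat.card (A ⊓ R : Subgroup G) :=
      Nat.mul_pos Nat.card_pos Nat.card_pos
    refine Nat.le_of_mul_le_mul_left ?_ e8
    calc _ = Nat.card E * Nat.card (A ⊓ R : Subgroup G) := by rw [← e3]; ring
      _ = _ := e5.symm
      _ ≤ (p ^ k * Nat.card (A ⊓ R : Subgroup G)) * Nat.card (E ⊓ centralizer {a} : Subgroup G) :=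
        Nat.mul_le_mul (e4.trans e6) e7
      _ = _ := by ring
  have h0 : π 1 = 0 := (h3 1 E.one_mem).2 (one_mem _)
  intro i j hij
  have := iso_lemma (ρ a - 1) (fun i j => π ⁅y i, y j⁆) (n := p ^ k) (s := k)
    ((hp.out.odd_of_ne_two hp2).pow) (fun i j => ?_) (fun i j h => ?_) (fun i => ?_)
    (chain_lemma hW _ hN hcard) i j hij
  · exact mem_bot.1 ((h3 _ (hE _ (hy i) _ (hy j))).1 this)
  · change ρ a (π ⁅y i, y j⁆) - π ⁅y i, y j⁆ = _
    rw [h7 a ha _ (hE _ (hy i) _ (hy j)), hcj, ← hys, ← hys,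
      hl _ (hy _) _ (hy _) _ (mul_mem (hy _) (hy _)), hr _ (hy _) _ (hy _) _ (hy _),
      hr _ (hy _) _ (hy _) _ (hy _), h1 _ (mul_mem (hE _ (hy _) _ (hy _)) (hE _ (hy _) _ (hy _))) _
        (mul_mem (hE _ (hy _) _ (hy _)) (hE _ (hy _) _ (hy _))),
      h1 _ (hE _ (hy _) _ (hy _)) _ (hE _ (hy _) _ (hy _)),
      h1 _ (hE _ (hy _) _ (hy _)) _ (hE _ (hy _) _ (hy _))]
    abel
  · rcases h with h | h
    · simp only [hl1 _ (hyD i h) _ (hy j), h0]
    · simp only [hr1 _ (hyD j h) _ (hy i), h0]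
  · simp only [commutatorElement_self, h0]

theorem local_false (hp5 : 5 ≤ p) (T : Sylow p G) (hT : IsCoatom (T : Subgroup G))
    (hC : 𝐂(pCore p G) ≤ pCore p G) {A : Subgroup G} (hA : A ∈ H24.maxAb (T : Subgroup G)) {a : G}
    (ha : a ∈ A) (haR : a ∉ pCore p G)
    (hcyc : ∀ g ∈ A, ∃ t : ℕ, ∃ c ∈ A ⊓ pCore p G, g = a ^ t * c) : False := by
  classical
  obtain ⟨B, D, hBD, hBR, hDC, hnt⟩ := exists_BD T hT hC
  obtain ⟨hAT, -, -⟩ := H24.mem_maxAb.1 hA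
  have hBn := hBD.2.1
  have hDn := hBD.2.2.1
  have hDB := hBD.1.le
  have hRT := H1.pCore_le_sylow T
  have hBp : IsPGroup p B := H1.isPGroup_pCore.to_le hBR
  have hBR' : ⁅B, pCore p G⁆ ≤ D := H57.commutator_le_of_chief hBD hBp H1.isPGroup_pCore
  have hBB : ⁅B, B⁆ ≤ D := (commutator_mono le_rfl hBR).trans hBR'
  have hpow : ∀ y ∈ B, y ^ p ∈ D := fun y hy => H57.chief_pow_mem hBD hBp hy
  have hcB : ∀ g : G, ∀ v ∈ B, ⁅g, v⁆ ∈ B := fun g v hv => mul_mem (hBn.conj_mem v hv g) (inv_mem hv)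
  have hcD : ∀ g : G, ∀ v ∈ D, ⁅g, v⁆ ∈ D := fun g v hv => mul_mem (hDn.conj_mem v hv g) (inv_mem hv)
  have hcR : ∀ c ∈ pCore p G, ∀ v ∈ B, ⁅c, v⁆ ∈ D := fun c hc v hv => by
    rw [← commutatorElement_inv]
    exact inv_mem (hBR' (commutator_mem_commutator hv hc))
  obtain ⟨W, _, ρ, π, h1, h2, h3, h5, h6, h7, h8, h9, h10⟩ := exists_end (L := ⊤) (V := B) (D := D)
    ⟨le_normalizer_of_normal, le_normalizer_of_normal, hDB, hBB⟩
  have hW : ∀ w : W, p • w = 0 := fun w => by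
    obtain ⟨v, hv, rfl⟩ := h2 w
    rw [← h6 v hv, h3 _ (B.pow_mem hv p)]; exact hpow v hv
  have hex : ∃ k, a ^ p ^ k ∈ pCore p G := by
    obtain ⟨k, hk⟩ := T.isPGroup' ⟨a, hAT ha⟩
    exact ⟨k, by rw [show a ^ p ^ k = 1 from congrArg Subtype.val hk]; exact one_mem _⟩
  obtain ⟨e, he⟩ : ∃ e, Nat.find hex = e + 1 := Nat.exists_eq_succ_of_ne_zero fun h =>
    haR (by simpa [h] using Nat.find_spec hex)
  have he1 : a ^ p ^ (e + 1) ∈ pCore p G := he ▸ Nat.find_spec hex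
  have he0 : a ^ p ^ e ∉ pCore p G := Nat.find_min hex (by omega)
  have hR1 : ∀ c ∈ pCore p G, ρ c = 1 := fun c hc => by
    rw [← sub_eq_zero]
    ext w
    obtain ⟨v, hv, rfl⟩ := h2 w
    rw [h8 c trivial v hv]
    exact (h3 _ (hcB c v hv)).2 (hcR c hc v hv)
  have hN : (ρ a - 1) ^ p ^ (e + 1) = 0 := by
    rw [end_pow hW, ← h10 a trivial, hR1 _ he1, sub_self]
  obtain ⟨y₀, hy₀, hy₁⟩ : ∃ y ∈ B, ((ρ a - 1) ^ (p ^ e * (p - 1))) (π y) ≠ 0 := by
    by_contra! h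
    refine hnt _ ((T : Subgroup G).pow_mem (hAT ha) _) he0 (hh T hT
      ((T : Subgroup G).pow_mem (hAT ha) _) he0 hBD hBR ?_)
    simp only [pow_mul, end_pow hW, ← h10 a trivial] at h
    generalize a ^ p ^ e = b at h ⊢
    let K : ℕ → Subgroup G := fun m =>
      { carrier := {x | x ∈ B ∧ ((ρ b - 1) ^ m) (π x) = 0}
        one_mem' := ⟨one_mem _, by rw [(h3 1 B.one_mem).2 D.one_mem, map_zero]⟩
        mul_mem' := fun {x y} hx hy => ⟨mul_mem hx.1 hy.1, by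
          rw [h1 x hx.1 y hy.1, map_add, hx.2, hy.2, add_zero]⟩
        inv_mem' := fun {x} hx => ⟨inv_mem hx.1, by rw [h5 x hx.1, map_neg, hx.2, neg_zero]⟩ }
    have key : ∀ i m, i + m = p - 1 → iterCommutator B (zpowers b) i ≤ K m := by
      intro i
      induction i with
      | zero => intro m hm x hx; rw [zero_add] at hm; exact ⟨hx, hm ▸ h x hx⟩
      | succ i ih =>
        intro m hm
        refine (commutator_mono (ih (m + 1) (by omega)) le_rfl).trans (commutator_le.2 ?_)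
        intro x hx g hg
        obtain ⟨t, rfl⟩ := (mem_powers_iff_mem_zpowers.2 hg : g ∈ Submonoid.powers b)
        rw [← commutatorElement_inv]
        refine inv_mem ⟨hcB _ x hx.1, ?_⟩
        have h11 : ((ρ b - 1) ^ (m + 1)) (π x) = 0 := hx.2
        rw [← h8 _ trivial x hx.1, h10 b trivial, geom _ _ (by
          rw [pow_succ' _ (m + 1), end_mul, h11, map_zero]), h11, nsmul_zero]
    exact (key (p - 1) 0 rfl).trans fun x hx => (h3 x hx.1).1 hx.2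
  let y : ℕ → G := fun i => (fun v => ⁅a, v⁆)^[i] y₀
  have hys : ∀ i, y (i + 1) = ⁅a, y i⁆ := fun i => Function.iterate_succ_apply' _ _ _
  have hy : ∀ i, y i ∈ B := fun i => by
    induction i with
    | zero => exact hy₀
    | succ i ih => rw [hys]; exact hcB _ _ ih
  have hyπ : ∀ i, π (y i) = ((ρ a - 1) ^ i) (π y₀) := fun i => by
    induction i with
    | zero => rfl
    | succ i ih => rw [hys, ← h8 a trivial _ (hy i), ih, pow_succ', end_mul]
  have hmono : ∀ i j : ℕ, i ≤ j → ((ρ a - 1) ^ i) (π y₀) = 0 → ((ρ a - 1) ^ j) (π y₀) = 0 :=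
    fun i j hij h => by
      obtain ⟨l, rfl⟩ := Nat.exists_eq_add_of_le' hij
      rw [pow_add, end_mul, h, map_zero]
  have hiso := iso_grp (by omega) hA (hDB.trans (hBR.trans hRT)) le_normalizer_of_normal
    le_normalizer_of_normal hDB hDC hBB hBR' hpow ha he1 hcyc y hy hys fun i hi =>
      (h3 _ (hy i)).1 (by rw [hyπ]; exact hmono _ _ hi (by rw [hN]; rfl))
  have hex' : ∃ h : ℕ, ((ρ a - 1) ^ h) (π y₀) = 0 := ⟨_, by rw [hN]; rfl⟩
  have hh1 : p ^ e * (p - 1) < Nat.find hex' := by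
    by_contra! h
    exact hy₁ (hmono _ _ h (Nat.find_spec hex'))
  have hpe : e < p ^ e := Nat.lt_pow_self hp.out.one_lt
  obtain ⟨q, rfl⟩ : ∃ q, p = q + 5 := Nat.exists_eq_add_of_le' hp5
  rw [show q + 5 - 1 = q + 4 from rfl] at hh1
  obtain ⟨i, hi⟩ : ∃ i, Nat.find hex' = i + 4 := Nat.exists_eq_add_of_le' (by nlinarith)
  have hi4 : ((ρ a - 1) ^ (4 : ℕ)) (π (y i)) = 0 := by
    rw [hyπ, ← end_mul, ← pow_add, add_comm, ← hi]; exact Nat.find_spec hex'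
  have hi3 : ((ρ a - 1) ^ (3 : ℕ)) (π (y i)) ≠ 0 := by
    rw [hyπ, ← end_mul, ← pow_add]; exact Nat.find_min hex' (by omega)
  set E := closure ({x | ∃ l, i < l ∧ x = y l} ∪ (D : Set G)) with hE
  have hEE : E ≤ 𝐂(E) := by
    have h11 : E ≤ centralizer ({x | ∃ l, i < l ∧ x = y l} ∪ (D : Set G)) := (closure_le _).2 (by
      rintro u (⟨l, hl, rfl⟩ | hu) v (⟨l', hl', rfl⟩ | hv)
      · by_cases h : l = l'
        · rw [h]
        refine commutatorElement_eq_one_iff_mul_comm.1 (hiso _ _ ?_)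
        rw [pow_succ]
        have : 2 * i + 3 ≤ l' + l := by omega
        nlinarith
      · exact (hDC hv _ (hy l)).symm
      · exact hDC hu _ (hy l')
      · exact hDC hu _ (hDB hv))
    rwa [← centralizer_closure] at h11
  have hDE : D ≤ E := fun x hx => subset_closure (Or.inr hx)
  have hyE : ∀ l, i < l → y l ∈ E := fun l hl => subset_closure (Or.inl ⟨l, hl, rfl⟩)
  have haE : ∀ x ∈ E, a * x * a⁻¹ ∈ E := fun x hx => by
    induction hx using closure_induction with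
    | mem x hx =>
      rcases hx with ⟨l, hl, rfl⟩ | hx
      · rw [show a * y l * a⁻¹ = ⁅a, y l⁆ * y l by simp [commutatorElement_def], ← hys]
        exact mul_mem (hyE _ (by omega)) (hyE _ hl)
      · exact hDE (hDn.conj_mem x hx a)
    | one => simp
    | mul x y _ _ hx hy =>
      rw [show a * (x * y) * a⁻¹ = (a * x * a⁻¹) * (a * y * a⁻¹) by group]; exact mul_mem hx hy
    | inv x _ hx => rw [show a * x⁻¹ * a⁻¹ = (a * x * a⁻¹)⁻¹ by group]; exact inv_mem hx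
  have hmul : ∀ g h x : G, ⁅g * h, x⁆ = g * ⁅h, x⁆ * g⁻¹ * ⁅g, x⁆ := fun g h x => by
    simp only [commutatorElement_def]; group
  have hAE : ∀ g ∈ A, ⁅g, y i⁆ ∈ E := fun g hg => by
    obtain ⟨t, c, hc, rfl⟩ := hcyc g hg
    rw [hmul]
    refine mul_mem (hDE (hDn.conj_mem _ (hcR c hc.2 _ (hy i)) _)) ?_
    clear hg
    induction t with
    | zero => simp
    | succ t ih => rw [pow_succ', hmul, ← hys]; exact mul_mem (haE _ ih) (hyE _ (by omega))
  obtain ⟨g, hg, hz⟩ := thompson_surj hA (hRT (hBR (hy i)))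
    (fun g hg h hh => hEE (hAE h hh) _ (hAE g hg)) (m := y (i + 2)) (by
      rw [hys, hys, show ⁅a, ⁅a, y i⁆⁆ = ⁅a * a, y i⁆ * ⁅a, y i⁆⁻¹ * ⁅a, y i⁆⁻¹ by
        simp only [commutatorElement_def]; group]
      exact mul_mem (mul_mem (subset_closure ⟨_, mul_mem ha ha, rfl⟩)
        (inv_mem (subset_closure ⟨_, ha, rfl⟩))) (inv_mem (subset_closure ⟨_, ha, rfl⟩)))
  obtain ⟨t, c, hc, rfl⟩ := hcyc g hg
  have h11 := h8 a trivial _ (mul_mem (inv_mem (hcB (a ^ t * c) _ (hy i))) (hy (i + 2)))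
  rw [commutatorElement_eq_one_iff_mul_comm.2 (hz a ha), (h3 1 B.one_mem).2 D.one_mem,
    h1 _ (inv_mem (hcB _ _ (hy i))) _ (hy _), h5 _ (hcB _ _ (hy i)), ← h8 _ trivial _ (hy i),
    h9 _ trivial _ trivial, hR1 c hc.2, mul_one, h10 a trivial, hys, hys,
    ← h8 a trivial _ (hcB _ _ (hy i)), ← h8 a trivial _ (hy i), map_add, map_neg,
    neg_add_eq_zero] at h11
  have h12 : (ρ a - 1) ((ρ a ^ t - 1) (π (y i))) = ((ρ a - 1) ^ (3 : ℕ)) (π (y i)) := h11
  have h13 := geom (ρ a) 2 hi4 t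
  rw [pow_succ' _ 1, pow_one, end_mul, h12, ← end_mul, ← pow_succ', hi4] at h13
  have h14 : q + 5 ∣ t := by
    rw [← addOrderOf_eq_prime (hW _) hi3]
    exact addOrderOf_dvd_of_nsmul_eq_zero h13.symm
  obtain ⟨s, rfl⟩ := h14
  have h15 : (ρ a ^ (q + 5)) (π (y i)) = π (y i) := by
    have := end_pow hW (ρ a) 1
    rw [pow_one] at this
    rw [← sub_eq_zero]
    change (ρ a ^ (q + 5) - 1) (π (y i)) = 0
    rw [← this, show q + 5 = (q + 1) + 4 from rfl, pow_add, end_mul, hi4, map_zero]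
  have h16 : ∀ s : ℕ, (ρ a ^ ((q + 5) * s)) (π (y i)) = π (y i) := fun s => by
    induction s with
    | zero => rfl
    | succ s ih => rw [Nat.mul_succ, pow_add, end_mul, h15, ih]
  refine hi3 ?_
  rw [← h12]
  change (ρ a - 1) ((ρ a ^ ((q + 5) * s)) (π (y i)) - π (y i)) = 0
  rw [h16, sub_self, map_zero]

end H92.JN
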