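import Mathlib
import Cfsg.Agent.Lib.Misc92.JNormB
import Cfsg.Agent.Lib.Core.CoprimeNorm
import Cfsg.Agent.Lib.Core.CoprimeAbelian

/-! Thompson's `J(S)` criterion for `p ≥ 5` (helper92). -/

set_option autoImplicit false

namespace H92.JN

open Subgroup Cfsg H69
open scoped commutatorElement

variable {X : Type*} [Group X] [Finite X] {p : ℕ} [hp : Fact p.Prime]

theorem exists_irr {N A : Subgroup X} (hN : IsMulCommutative N) (hA : IsMulCommutative A)
    (hAN : A ≤ 𝐍(N)) (hco : (Nat.card A).Coprime (Nat.card N)) (hne : ¬ A ≤ 𝐂(N)) :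
    ∃ Q ≤ N, Q ≠ ⊥ ∧ A ≤ 𝐍(Q) ∧ (∀ K ≤ Q, A ≤ 𝐍(K) → K = ⊥ ∨ K = Q) ∧ ∃ a ∈ A, a ∉ 𝐂(Q) ∧
      ∀ g ∈ A, ∃ t : ℕ, ∃ c ∈ A ⊓ 𝐂(Q), g = a ^ t * c := by
  have hAc := H24.isMulCommutative_iff_mem.1 hA
  have hb := H2.commutator_inf_centralizer_eq_bot hN hAN hco
  obtain ⟨Q, ⟨hQ, hQ1, hAQ⟩, hmin⟩ := exists_minimal_of_wellFoundedLT
    (fun Q : Subgroup X => Q ≤ ⁅N, A⁆ ∧ Q ≠ ⊥ ∧ A ≤ 𝐍(Q))
    ⟨_, le_rfl, fun h => hne (le_centralizer_comm.1 (commutator_eq_bot_iff_le_centralizer.1 h)),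
      le_normalizer_commutator hAN le_normalizer⟩
  have hirr : ∀ K ≤ Q, A ≤ 𝐍(K) → K = ⊥ ∨ K = Q := fun K hK hAK => by
    by_cases h : K = ⊥
    · exact Or.inl h
    · exact Or.inr (le_antisymm hK (hmin ⟨hK.trans hQ, h, hAK⟩ hK))
  let φ : A →* MulAut Q := Q.normalizerMonoidHom.comp (inclusion hAQ)
  have hφ : ∀ (g : A) (v : Q), (φ g v : X) = g * v * (g : X)⁻¹ := fun _ _ => rfl
  have hφ1 : ∀ g : A, φ g = 1 ↔ (g : X) ∈ 𝐂(Q) := fun g =>
    ⟨fun h v hv => by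
      have := hφ g ⟨v, hv⟩
      rw [h, eq_mul_inv_iff_mul_eq] at this
      exact this, fun h => MulEquiv.ext fun v => Subtype.ext (by
        rw [hφ, ← h v v.2, mul_inv_cancel_right]; rfl)⟩
  haveI : Nontrivial Q := (nontrivial_iff_ne_bot Q).2 hQ1
  haveI : IsMulCommutative φ.range := ⟨⟨by
    rintro ⟨_, a, rfl⟩ ⟨_, b, rfl⟩
    exact Subtype.ext (by
      change φ a * φ b = φ b * φ a
      rw [← map_mul, ← map_mul, mul_comm' a b])⟩⟩
  have hNc := H24.isMulCommutative_iff_mem.1 hN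
  have hQN := hQ.trans (commutator_le_left_of_le_normalizer hAN)
  letI : CommGroup Q := { (inferInstance : Group Q) with
    mul_comm := fun a b => Subtype.ext (hNc _ (hQN a.2) _ (hQN b.2)) }
  have hcyc : IsCyclic φ.range := H2.isCyclic_of_fpf_of_comm (V := Q) φ.range.subtype (by
    rintro ⟨_, g, rfl⟩ hg v hv
    rcases hirr (Q ⊓ 𝐂(zpowers (g : X))) inf_le_left (le_normalizer_inf hAQ
      (le_normalizer_centralizer (le_normalizer_of_le_centralizer fun b hb c hc =>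
        hAc c (zpowers_le_of_mem g.2 hc) b hb))) with h | h
    · have : (v : X) ∈ Q ⊓ 𝐂(zpowers (g : X)) := ⟨v.2, by
        have h1 : (g : X) * v * (g : X)⁻¹ = v := congrArg Subtype.val hv
        rw [mul_inv_eq_iff_eq_mul] at h1
        rintro _ ⟨k, rfl⟩
        exact (Commute.zpow_left h1 k)⟩
      rw [h] at this
      exact Subtype.ext this
    · exact absurd (Subtype.ext ((hφ1 g).2 fun w hw =>
        ((h.ge hw).2 _ (mem_zpowers _)).symm)) hg)
  obtain ⟨⟨_, a, rfl⟩, ha⟩ := hcyc.exists_monoid_generator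
  have hgen : ∀ g ∈ A, ∃ t : ℕ, ∃ c ∈ A ⊓ 𝐂(Q), g = a ^ t * c := fun g hg => by
    obtain ⟨t, ht⟩ := ha ⟨_, ⟨g, hg⟩, rfl⟩
    have h1 : φ a ^ t = φ ⟨g, hg⟩ := congrArg Subtype.val ht
    refine ⟨t, ((a ^ t)⁻¹ * ⟨g, hg⟩ : A), ⟨Subtype.prop _, (hφ1 _).1 ?_⟩, by simp⟩
    rw [map_mul, map_inv, map_pow, h1, inv_mul_cancel]
  refine ⟨Q, hQN, hQ1, hAQ, hirr, a, a.2,
    fun h => hQ1 (eq_bot_iff.2 (hb ▸ le_inf hQ (le_centralizer_comm.1 fun g hg => ?_))), hgen⟩
  obtain ⟨t, c, hc, rfl⟩ := hgen g hg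
  exact mul_mem (pow_mem h t) hc.2

theorem le_pCore_of_minConf (hp5 : 5 ≤ p) {T : Sylow p X} (h : H24.MinConf p T) {A : Subgroup X}
    (hA : A ∈ H24.maxAb (T : Subgroup X)) : A ≤ pCore p X := by
  by_contra hAR
  obtain ⟨hAT, hAc, -⟩ := H24.mem_maxAb.1 hA
  set π := QuotientGroup.mk' (pCore p X) with hπ
  set N := pResidual p (X ⧸ pCore p X) with hN
  haveI : N.Normal := H4.pResidual_normal _ _
  have hN1 : ¬ p ∣ Nat.card N := H4.hasNormalPComplement_iff_not_dvd.mp h.quot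
  have hTp : IsPGroup p ((T : Subgroup X).map π) := T.isPGroup'.map π
  have hAp : IsPGroup p (A.map π) := hTp.to_le (map_mono hAT)
  have hb : ∀ P : Subgroup (X ⧸ pCore p X), IsPGroup p P → N ⊓ P = ⊥ := fun P hP =>
    H4.inf_eq_bot_of_not_dvd_card hN1 hP
  have hAc' : IsMulCommutative (A.map π) := inferInstance
  obtain ⟨Q, hQN, hQ1, hAQ, hirr, _, ⟨a, ha, rfl⟩, haQ, hgen⟩ :=
    exists_irr h.isMulCommutative_residual hAc' le_normalizer_of_normal
      (H1.coprime_card_of_isPGroup_of_coprime hAp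
        ((Nat.Prime.coprime_iff_not_dvd hp.out).mpr hN1).symm) fun hc => hAR (by
      have h1 : ((T : Subgroup X).map π ⊓ 𝐂(N)).Normal := by
        rw [← normalizer_eq_top_iff, eq_top_iff,
          ← H4.pResidual_sup_sylow (T.mapSurjective (QuotientGroup.mk'_surjective _))]
        exact sup_le (le_normalizer_of_le_centralizer (le_centralizer_comm.1 inf_le_right))
          (le_normalizer_inf le_normalizer le_normalizer_of_normal)
      have h2 := (le_inf (map_mono hAT) hc).trans (H1.le_pCore (hTp.to_le inf_le_left))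
      rwa [H1.pCore_quotient_pCore, le_bot_iff, Subgroup.map_eq_bot_iff, QuotientGroup.ker_mk'] at h2)
  set Y := (A.map π ⊔ Q).comap π with hY
  let f : Y →* X ⧸ pCore p X := π.comp Y.subtype
  have hAY : A ≤ Y := map_le_iff_le_comap.1 le_sup_left
  have hfY : ∀ y : Y, ∃ b ∈ A.map π, ∃ q ∈ Q, f y = b * q := fun y =>
    (mem_sup_of_le_normalizer_right hAQ).1 y.2
  have hsur : ∀ z ∈ A.map π ⊔ Q, ∃ y : Y, f y = z := fun z hz => by
    obtain ⟨x, rfl⟩ := QuotientGroup.mk'_surjective _ z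
    exact ⟨⟨x, hz⟩, rfl⟩
  have hker : ∀ y : Y, y ∈ f.ker ↔ (y : X) ∈ pCore p X := fun y => QuotientGroup.eq_one_iff _
  have hkp : IsPGroup p f.ker := (H1.isPGroup_pCore (p := p) (G := X)).comap_subtype.to_le
    fun y hy => (hker y).1 hy
  have hSp : IsPGroup p ((A.map π).comap f) := hAp.comap_of_ker_isPGroup f hkp
  have hnot : ∀ P : Subgroup Y, IsPGroup p P → P ≠ ⊤ := fun P hP e => hQ1 (eq_bot_iff.2 (by
    rw [← hb _ (hP.map f)]
    refine le_inf hQN fun q hq => ?_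
    obtain ⟨y, rfl⟩ := hsur q (mem_sup_right hq)
    exact mem_map_of_mem f (e ▸ mem_top y)))
  have hco : IsCoatom ((A.map π).comap f) := by
    refine ⟨hnot _ hSp, fun H hH => ?_⟩
    have hkH : f.ker ≤ H := (ker_le_comap f _).trans hH.le
    have hAH : A.map π ≤ H.map f := fun b hb => by
      obtain ⟨y, rfl⟩ := hsur b (mem_sup_left hb)
      exact mem_map_of_mem f (hH.le hb)
    have hmem : ∀ y : Y, f y ∈ H.map f → y ∈ H := fun y hy => by
      rwa [← mem_comap, comap_map_eq_self hkH] at hy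
    rcases hirr (Q ⊓ H.map f) inf_le_left
      (le_normalizer_inf hAQ (hAH.trans le_normalizer)) with e | e
    · refine absurd (fun y hy => ?_) hH.not_ge
      obtain ⟨b, hb, q, hq, e'⟩ := hfY y
      have : q ∈ Q ⊓ H.map f := ⟨hq, by
        rw [eq_inv_mul_of_mul_eq e'.symm]
        exact (H.map f).mul_mem ((H.map f).inv_mem (hAH hb)) (mem_map_of_mem f hy)⟩
      rw [e, mem_bot] at this
      rw [mem_comap, e', this, mul_one]; exact hb
    · refine eq_top_iff.2 fun y _ => hmem y ?_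
      obtain ⟨b, hb, q, hq, e'⟩ := hfY y
      rw [e']; exact mul_mem (hAH hb) (e.ge hq).2
  obtain ⟨P, hP⟩ := hSp.exists_le_sylow
  have hPe : (P : Subgroup Y) = (A.map π).comap f := by
    by_contra e
    exact hnot _ P.isPGroup' (hco.2 _ (lt_of_le_of_ne hP (Ne.symm e)))
  have hkc : f.ker ≤ pCore p Y := H1.le_pCore hkp
  refine local_false hp5 P (hPe ▸ hco) (fun y hy => hkc ((hker y).2 (h.constr fun r hr => ?_)))
    (A := A.subgroupOf Y) ?_ (a := ⟨a, hAY ha⟩) ha (fun hc => haQ fun q hq => ?_) fun g hg => ?_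
  · have hr' : r ∈ Y := by
      rw [hY, mem_comap, show π r = 1 from (QuotientGroup.eq_one_iff r).2 hr]; exact one_mem _
    exact congrArg Subtype.val (hy ⟨r, hr'⟩ (hkc ((hker _).2 hr)))
  · rw [← H24.map_mem_maxAb_iff Y.subtype_injective, map_subgroupOf_eq_of_le hAY]
    refine H24.mem_maxAb_of_le hA (fun b hb => ⟨⟨b, hAY hb⟩, ?_, rfl⟩) ?_
    · rw [hPe]; exact mem_map_of_mem π hb
    · rintro _ ⟨y, hy, rfl⟩
      rw [hPe] at hy
      have : (y : X) ∈ ((T : Subgroup X).map π).comap π := map_mono hAT hy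
      rwa [comap_map_eq_self (by rw [hπ, QuotientGroup.ker_mk']; exact H1.pCore_le_sylow T)] at this
  · obtain ⟨y, rfl⟩ := hsur q (mem_sup_right hq)
    have h1 : ⁅f y, π a⁆ ∈ N ⊓ (pCore p Y).map f := ⟨hQN (by
      rw [← commutatorElement_inv]
      exact inv_mem (mul_mem (conj_mem_of_mem_normalizer (hAQ (mem_map_of_mem π ha)) hq)
        (inv_mem hq))), ⟨⁅y, ⟨a, hAY ha⟩⁆, mul_mem ((inferInstance : (pCore p Y).Normal).conj_mem
          _ hc y) (inv_mem hc), map_commutatorElement f _ _⟩⟩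
    rw [hb _ (H1.isPGroup_pCore.map f), mem_bot] at h1
    exact commutatorElement_eq_one_iff_mul_comm.1 h1
  · obtain ⟨t, c, hc, e⟩ := hgen (π g) (mem_map_of_mem π hg)
    have hKn : ((A.map π ⊓ 𝐂(Q)).comap f).Normal := ⟨fun y hy z => by
      have : f z ∈ 𝐍(A.map π ⊓ 𝐂(Q)) := (sup_le (le_normalizer_inf le_normalizer
        (le_normalizer_centralizer hAQ)) (le_normalizer_of_le_centralizer
          (le_centralizer_comm.1 inf_le_right)) : A.map π ⊔ Q ≤ _) z.2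
      rw [mem_comap, map_mul, map_mul, map_inv]
      exact conj_mem_of_mem_normalizer this hy⟩
    refine ⟨t, (⟨a, hAY ha⟩ ^ t)⁻¹ * g, ⟨(A.subgroupOf Y).mul_mem ((A.subgroupOf Y).inv_mem
      ((A.subgroupOf Y).pow_mem ha t)) hg,
      H1.le_pCore (hN := hKn) ((hAp.to_le inf_le_left).comap_of_ker_isPGroup f hkp) ?_⟩, by simp⟩
    rw [mem_comap, map_mul, map_inv, map_pow]
    change (π a ^ t)⁻¹ * π g ∈ _
    rw [e, inv_mul_cancel_left]; exact hc

theorem npc_of_thompsonA (hp5 : 5 ≤ p) (S : Sylow p X)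
    (h : HasNormalPComplement p 𝐍(thompsonSubgroupAOf (S : Subgroup X))) :
    HasNormalPComplement p X :=
  H24.npc_of_functor (by omega) (fun _ _ T => thompsonSubgroupAOf T)
    (fun _ _ T => H24.thompsonSubgroupAOf_le T)
    (fun _ _ _ _ _ _ h => H24.map_thompsonSubgroupAOf_of_disjoint h)
    (fun _ _ _ T h => by
      rw [← H24.thompsonSubgroupAOf_eq_of_le (H24.thompsonSubgroupAOf_le_iff.mpr fun A hA' =>
        le_pCore_of_minConf hp5 h hA') (H1.pCore_le_sylow T)]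
      exact H24.thompsonSubgroupAOf_normal _) S h

end H92.JN
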