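import Cfsg.Agent.Lib.Misc92.L34Par
import Cfsg.Agent.Lib.Core.CrossedHom
import Cfsg.Agent.Lib.BG4.MetaAct
import Cfsg.Agent.S0820

/-! The preimages of the two elementary abelian subgroups of order 16 of a Sylow 2-subgroup of
`PSL₃(4)` in a central extension by an elementary abelian 2-group. -/

set_option autoImplicit false

namespace H92.L34

open Subgroup H69 Matrix
open scoped MatrixGroups

variable {F : Type*} [Field F] [Fintype F] {X : Type*} [Group X] [Finite X] {π : X →* PSL(3, F)}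

omit [Finite X] in
theorem sq_eq_one (hF : Fintype.card F = 4) (hπ : Function.Surjective π) (hk : π.ker = center X)
    (hZ : ∀ z ∈ center X, z * z = 1) {H : Subgroup X} (h1 : ∀ x ∈ H, π x * π x = 1)
    (h2 : Nat.card (H.map π) = 16) : ∀ x ∈ H, x * x = 1 := by
  classical
  have hc : ∀ x ∈ H, x * x ∈ center X := fun x hx => hk.le (by rw [MonoidHom.mem_ker, map_mul, h1 x hx])
  have key : ∀ x ∈ H, ∀ y ∈ H, π x ≠ 1 → π y ≠ 1 → y * y = x * x := by
    intro x hx y hy x1 y1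
    obtain ⟨c, hc'⟩ := isConj_iff.1 (Cfsg.Agent.S0820.result hF _ _
      (orderOf_eq_prime (by rw [sq, h1 x hx]) x1) (orderOf_eq_prime (by rw [sq, h1 y hy]) y1))
    obtain ⟨c, rfl⟩ := hπ c
    have h3 : (c * x * c⁻¹)⁻¹ * y ∈ center X := hk.le (by
      rw [MonoidHom.mem_ker, map_mul, map_inv, map_mul, map_mul, map_inv, hc', inv_mul_cancel])
    set z := (c * x * c⁻¹)⁻¹ * y with hz
    have h4 : y = c * x * c⁻¹ * z := by rw [hz]; group
    calc y * y = c * x * c⁻¹ * (z * (c * x * c⁻¹)) * z := by rw [h4]; group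
      _ = c * (x * x) * c⁻¹ * (z * z) := by rw [← mem_center_iff.1 h3]; group
      _ = x * x := by rw [hZ z h3, mem_center_iff.1 (hc x hx)]; group
  have ex : ∀ s : Finset PSL(3, F), s.card ≤ 4 → ∃ y ∈ H, π y ∉ s := by
    intro s hs
    by_contra h
    push Not at h
    have : Nat.card (H.map π) ≤ Nat.card s := Nat.card_le_card_of_injective
      (fun y => ⟨y.1, by obtain ⟨_, a, ha, rfl⟩ := y; exact h a ha⟩)
      fun a b e => Subtype.ext (by simpa using e)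
    rw [h2, Nat.card_eq_fintype_card, Fintype.card_coe] at this
    omega
  have hinv : ∀ x ∈ H, ∀ y, π (x * y) = 1 → π y = π x := fun x hx y h => by
    rw [map_mul, ← h1 x hx] at h
    exact mul_left_cancel h
  intro x hx
  by_cases x1 : π x = 1
  · exact hZ x (hk.le x1)
  obtain ⟨y, hy, hy'⟩ := ex {1, π x} (Finset.card_le_two.trans (by norm_num))
  obtain ⟨w, hw, hw'⟩ := ex {1, π x, π y, π (x * y)} Finset.card_le_four
  simp only [Finset.mem_insert, Finset.mem_singleton, not_or] at hy' hw'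
  have comm : ∀ u ∈ H, π u ≠ 1 → π (x * u) ≠ 1 → u * x = x * u * (x * x)⁻¹ := by
    intro u hu u1 u2
    have e1 := key x hx u hu x1 u1
    have e2 := key x hx _ (mul_mem hx hu) x1 u2
    calc u * x = x⁻¹ * (x * u * (x * u)) * u⁻¹ := by group
      _ = x * u * (u * u)⁻¹ := by rw [e2]; group
      _ = _ := by rw [e1]
  have e1 := comm y hy hy'.1 fun h => hy'.2 (hinv x hx y h)
  have e2 := comm w hw hw'.1 fun h => hw'.2.1 (hinv x hx w h)
  have e3 := comm _ (mul_mem hy hw) (fun h => hw'.2.2.1 (hinv y hy w h)) fun h =>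
    hw'.2.2.2 (hinv _ (mul_mem hx hy) w (by rwa [mul_assoc]))
  rw [mul_assoc y w x, e2, ← mul_assoc, ← mul_assoc, e1, mul_assoc _ _ w,
    ← mem_center_iff.1 (inv_mem (hc x hx)) w] at e3
  have : (x * x)⁻¹ = 1 := by
    calc (x * x)⁻¹ = (x * y * w)⁻¹ * (x * y * (w * (x * x)⁻¹) * (x * x)⁻¹) * (x * x) := by group
      _ = 1 := by rw [e3]; group
  exact inv_eq_one.1 this

theorem core (hF : Fintype.card F = 4) (hπ : Function.Surjective π) (T : Sylow 2 X)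
    (hT : (T : Subgroup X).map π = (H10.unitriSL (Fin 3) F).map (QuotientGroup.mk' _))
    {W W' : Subgroup SL(3, F)} (hW : Rad W) (hs : H10.unitriSL (Fin 3) F ≤ W ⊔ W')
    {H K : Subgroup X} (hH : H = (W.map (QuotientGroup.mk' _)).comap π)
    (hK : K = (W'.map (QuotientGroup.mk' _)).comap π) (hHT : H ≤ T) (hKT : K ≤ T)
    (eH : Cfsg.IsElementaryAbelian 2 H) (eK : Cfsg.IsElementaryAbelian 2 K) :
    (H ⊔ K) ⊓ 𝐂(H) ≤ H ∧ ∃ C : Subgroup X, C ≤ 𝐍(H) ∧ C ⊓ H = ⊥ ∧ H ⊔ C = 𝐍(H) ∧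
      Nonempty (C ≃* PSL(2, F)) := by
  obtain ⟨P, ψ, h1, h2, h3, h4⟩ := hW.par
  set ρ := QuotientGroup.mk' (center SL(3, F)) with hρ
  have hTe : (T : Subgroup X) ≤ H ⊔ K := by
    have := map_mono (f := ρ) hs
    rw [← hT, Subgroup.map_sup, map_le_iff_le_comap, ← comap_sup_eq π _ _ hπ, ← hH, ← hK] at this
    exact this
  have hN : 𝐍(H) = 𝐍(W.map ρ).comap π := by rw [hH, comap_normalizer_eq_of_surjective _ hπ]
  have hP : ∀ g ∈ P, ρ g ∈ 𝐍(W.map ρ) := by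
    intro g hg
    refine mem_normalizer_of_cj_le fun y hy => ?_
    obtain ⟨_, ⟨w, hw, rfl⟩, rfl⟩ := mem_cj'.1 hy
    have h5 := (h4 ⟨w, h2 (hW.le hw)⟩).2 (mem_map_of_mem _ hw)
    exact (h4 (⟨g, hg⟩ * ⟨w, h2 (hW.le hw)⟩ * ⟨g, hg⟩⁻¹)).1 (by rw [map_mul, map_mul, h5, map_inv, mul_one, mul_inv_cancel])
  have hTN : (T : Subgroup X) ≤ 𝐍(H) := by
    rw [hN, ← map_le_iff_le_comap, hT]
    rintro _ ⟨g, hg, rfl⟩
    exact hP g (h2 hg)
  refine ⟨fun x ⟨hx1, hx2⟩ => ?_, ?_⟩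
  · obtain ⟨u, hu, e⟩ := hT.le (mem_map_of_mem π (sup_le hHT hKT hx1))
    rw [hH]
    refine ⟨u, hW.cent u hu fun w hw => ?_, e⟩
    obtain ⟨y, hy⟩ := hπ (ρ w)
    have h5 := mem_centralizer_iff_commute.1 hx2 y (hH.ge (by
      rw [mem_comap, hy]; exact mem_map_of_mem _ hw))
    refine eq_of_mk_eq (mul_mem hu (hW.le hw)) (mul_mem (hW.le hw) hu) ?_
    have h6 := congrArg π h5
    rw [map_mul, map_mul, hy, ← e] at h6
    exact h6.symm
  obtain ⟨A, a1, a2, a3⟩ := H48.exists_compl_of_isElementaryAbelian eK (inf_le_right : H ⊓ K ≤ K)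
  have hHN : H ≤ 𝐍(H) := le_normalizer
  have := eH.1
  have : IsMulCommutative (H.subgroupOf 𝐍(H)) := inferInstance
  obtain ⟨C, hC⟩ := H3.gaschuetz_exists (H.subgroupOf 𝐍(H)) ((T : Subgroup X).subgroupOf 𝐍(H))
    (comap_mono hHT) (by
      obtain ⟨k, hk⟩ := IsPGroup.iff_card.1 (T.isPGroup'.to_le hHT)
      rw [card_subgroupOf hHN, hk]
      exact ((Nat.Prime.coprime_iff_not_dvd Nat.prime_two).2
        (isSylowIn_of_le T hTN).not_dvd_relIndex).pow_left k) (A.subgroupOf 𝐍(H))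
    (by
      rw [subgroupOf, subgroupOf, ← comap_inf, show A ⊓ H = ⊥ from le_bot_iff.1
        ((le_inf (le_inf inf_le_right (inf_le_left.trans a1)) inf_le_left).trans a2.le)]
      exact bot_subgroupOf _)
    (by
      rw [← subgroupOf_sup hHN (a1.trans (hKT.trans hTN))]
      congr 1
      exact le_antisymm (sup_le hHT (a1.trans hKT)) (hTe.trans (sup_le le_sup_left
        (a3.ge.trans (sup_le_sup_right inf_le_left _)))))
  have hm := map_subgroupOf_eq_of_le hHN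
  choose g hg using fun x : 𝐍(H) => QuotientGroup.mk'_surjective (center SL(3, F)) (π x)
  have hgP : ∀ x, g x ∈ P := fun x => h3 _ (by
    have := hN.le x.2
    rwa [mem_comap, ← hg] at this)
  have hψ : ∀ a b : P, ρ a = ρ b → ψ a = ψ b := fun a b e => by
    rw [← inv_mul_eq_one, ← map_inv, ← map_mul, h4]
    show ρ ((a : SL(3, F))⁻¹ * b) ∈ _
    rw [map_mul, map_inv, e, inv_mul_cancel]
    exact one_mem _
  let θ : 𝐍(H) →* SL(2, F) := MonoidHom.mk' (fun x => ψ ⟨g x, hgP x⟩) fun x y => by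
    rw [← map_mul]
    refine hψ _ _ ?_
    show ρ (g (x * y)) = ρ (g x * g y)
    rw [map_mul, hg, hg, hg, coe_mul, map_mul]
  have hθ : ∀ x, θ x = 1 ↔ x ∈ H.subgroupOf 𝐍(H) := fun x => by
    refine (h4 ⟨g x, hgP x⟩).trans ?_
    show ρ (g x) ∈ _ ↔ x.1 ∈ H
    rw [hg]
    exact (SetLike.ext_iff.1 hH x.1).symm
  refine ⟨C.map 𝐍(H).subtype, map_subtype_le _, ?_, ?_, ⟨((C.equivMapOfInjective _
    𝐍(H).subtype_injective).symm.trans (MulEquiv.ofBijective (θ.comp C.subtype) ⟨?_, fun B => ?_⟩)).trans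
      (H64.SL2.projEquiv (two hF))⟩⟩
  · have := congrArg (Subgroup.map 𝐍(H).subtype) hC.disjoint.eq_bot
    rwa [map_inf _ _ _ 𝐍(H).subtype_injective, hm, Subgroup.map_bot, inf_comm] at this
  · have := congrArg (Subgroup.map 𝐍(H).subtype) hC.sup_eq_top
    rwa [Subgroup.map_sup, hm, map_subtype_top] at this
  · refine (injective_iff_map_eq_one _).2 fun x hx => Subtype.ext ?_
    exact mem_bot.1 (hC.disjoint.eq_bot.le ⟨(hθ x).1 hx, x.2⟩)
  · obtain ⟨b, rfl⟩ := h1 B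
    obtain ⟨x, hx⟩ := hπ (ρ b)
    have hxN : x ∈ 𝐍(H) := hN.ge (by rw [mem_comap, hx]; exact hP b b.2)
    obtain ⟨⟨h, c⟩, e⟩ := hC.2 ⟨x, hxN⟩
    refine ⟨c, ?_⟩
    have e1 : θ ⟨x, hxN⟩ = ψ b := hψ _ _ ((hg _).trans hx)
    rw [← e1, ← e]
    show θ c = θ (h * c)
    rw [map_mul, (hθ h).2 h.2, one_mul]

theorem eq_comap (hk : π.ker = center X) {W : Subgroup SL(3, F)} (hW : Rad W) {H : Subgroup X}
    (hZ : center X ≤ H) (h2 : Nat.card (H.map π) = 16)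
    (h : H.map π ≤ W.map (QuotientGroup.mk' _)) : H = (W.map (QuotientGroup.mk' _)).comap π := by
  rw [← eq_of_le_of_card_ge h (h2 ▸ hW.card ▸ Nat.le_of_dvd Nat.card_pos (card_map_dvd _ _)), comap_map_eq, hk, sup_eq_left.2 hZ]

theorem main (hF : Fintype.card F = 4) (hπ : Function.Surjective π) (hk : π.ker = center X)
    (hZ : ∀ z ∈ center X, z * z = 1) (T : Sylow 2 X)
    (hT : (T : Subgroup X).map π = (H10.unitriSL (Fin 3) F).map (QuotientGroup.mk' _))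
    {H K : Subgroup X} (hHK : H ≠ K) (hHT : H ≤ T) (hKT : K ≤ T) (hZH : center X ≤ H)
    (hZK : center X ≤ K) (h1 : ∀ x ∈ H, π x * π x = 1) (h2 : Nat.card (H.map π) = 16)
    (k1 : ∀ x ∈ K, π x * π x = 1) (k2 : Nat.card (K.map π) = 16) :
    Cfsg.IsElementaryAbelian 2 H ∧ Cfsg.IsElementaryAbelian 2 K ∧ H ⊓ K = (H ⊔ K) ⊓ 𝐂(H ⊔ K) ∧
      (∃ C : Subgroup X, C ≤ 𝐍(H) ∧ C ⊓ H = ⊥ ∧ H ⊔ C = 𝐍(H) ∧ Nonempty (C ≃* PSL(2, F))) ∧
      ∃ C : Subgroup X, C ≤ 𝐍(K) ∧ C ⊓ K = ⊥ ∧ K ⊔ C = 𝐍(K) ∧ Nonempty (C ≃* PSL(2, F)) := by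
  obtain ⟨W₁, W₂, r1, r2, r3, r4⟩ := exists_rads hF
  have el : ∀ H : Subgroup X, (∀ x ∈ H, π x * π x = 1) → Nat.card (H.map π) = 16 →
      Cfsg.IsElementaryAbelian 2 H := fun H h1 h2 => by
    have h3 := sq_eq_one hF hπ hk hZ h1 h2
    refine ⟨le_centralizer_iff_isMulCommutative.1 fun x hx => mem_centralizer_iff_commute.2
      fun y hy => ?_, fun x hx => by rw [sq, h3 x hx]⟩
    calc y * x = y * x * (x * y * (x * y)) := by rw [h3 _ (mul_mem hx hy), mul_one]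
      _ = y * (x * x) * y * x * y := by group
      _ = x * y := by rw [h3 x hx, mul_one, h3 y hy, one_mul]
  have or : ∀ H : Subgroup X, H ≤ T → center X ≤ H → (∀ x ∈ H, π x * π x = 1) →
      Nat.card (H.map π) = 16 → H = (W₁.map (QuotientGroup.mk' _)).comap π ∨
        H = (W₂.map (QuotientGroup.mk' _)).comap π := by
    intro H hHT hZH h1 h2
    refine (SubgroupClass.subset_union.1 ?_).imp (eq_comap hk r1 hZH h2) (eq_comap hk r2 hZH h2)
    rintro _ ⟨x, hx, rfl⟩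
    obtain ⟨u, hu, e⟩ := hT.le (mem_map_of_mem π (hHT hx))
    have h3 : u * u = 1 := eq_of_mk_eq (mul_mem hu hu) (one_mem _) (by
      have := h1 x hx
      rwa [← e] at this)
    exact (r3 u hu h3).imp (fun h => ⟨u, h, e⟩) fun h => ⟨u, h, e⟩
  have eH := el H h1 h2
  have eK := el K k1 k2
  have fin : ∀ W W' : Subgroup SL(3, F), Rad W → Rad W' → H10.unitriSL (Fin 3) F ≤ W ⊔ W' →
      H = (W.map (QuotientGroup.mk' _)).comap π → K = (W'.map (QuotientGroup.mk' _)).comap π →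
      H ⊓ K = (H ⊔ K) ⊓ 𝐂(H ⊔ K) ∧
      (∃ C : Subgroup X, C ≤ 𝐍(H) ∧ C ⊓ H = ⊥ ∧ H ⊔ C = 𝐍(H) ∧ Nonempty (C ≃* PSL(2, F))) ∧
      ∃ C : Subgroup X, C ≤ 𝐍(K) ∧ C ⊓ K = ⊥ ∧ K ⊔ C = 𝐍(K) ∧ Nonempty (C ≃* PSL(2, F)) := by
    intro W W' s1 s2 s3 e1 e2
    obtain ⟨c1, c2⟩ := core hF hπ T hT s1 s3 e1 e2 hHT hKT eH eK
    obtain ⟨c3, c4⟩ := core hF hπ T hT s2 (s3.trans (sup_comm _ _).le) e2 e1 hKT hHT eK eH
    refine ⟨le_antisymm (le_inf (inf_le_left.trans le_sup_left) ?_) (le_inf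
      ((inf_le_inf_left _ (centralizer_anti le_sup_left)).trans c1)
      ((inf_le_inf (sup_comm _ _).le (centralizer_anti le_sup_right)).trans c3)), c2, c4⟩
    rw [centralizer_sup]
    exact inf_le_inf (le_centralizer_iff_isMulCommutative.2 eH.1)
      (le_centralizer_iff_isMulCommutative.2 eK.1)
  refine ⟨eH, eK, ?_⟩
  rcases or H hHT hZH h1 h2 with e1 | e1 <;> rcases or K hKT hZK k1 k2 with e2 | e2
  · exact absurd (e1.trans e2.symm) hHK
  · exact fin _ _ r1 r2 r4 e1 e2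
  · exact fin _ _ r2 r1 (r4.trans (sup_comm _ _).le) e1 e2
  · exact absurd (e1.trans e2.symm) hHK

end H92.L34
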