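import Cfsg.Agent.Lib.LocStruct.SylowIn
import Cfsg.Agent.Lib.PGroup.Omega
import Cfsg.Agent.Lib.PGroup.Rank
import Cfsg.Agent.Lib.PGroup.Frattini
import Cfsg.Agent.Lib.MaxCl.Hall
import Mathlib.Combinatorics.SimpleGraph.Extremal.Turan

/-! A `p`-group acting faithfully on an elementary abelian group of rank `a` needs at most
`a ^ 2 / 4` generators (weight filtration and Mantel's theorem); generators of `p`-central groups. -/

set_option autoImplicit false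

namespace H92

open Subgroup H69
open scoped commutatorElement

universe u

theorem mantel {a : ℕ} (T : Finset (Fin a × Fin a)) (h1 : ∀ x ∈ T, x.1 < x.2)
    (h2 : ∀ i j k, (i, j) ∈ T → (j, k) ∈ T → (i, k) ∉ T) : T.card ≤ a ^ 2 / 4 := by
  classical
  let Γ : SimpleGraph (Fin a) := SimpleGraph.fromRel fun i j => (i, j) ∈ T
  have hadj : ∀ i j, Γ.Adj i j → (i, j) ∈ T ∨ (j, i) ∈ T := fun i j h =>
    ((SimpleGraph.fromRel_adj _ _ _).1 h).2
  have hΓ : Γ.CliqueFree (2 + 1) := by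
    intro s hs
    obtain ⟨x, y, z, e1, e2, e3, -⟩ := SimpleGraph.is3Clique_iff.1 hs
    rcases hadj _ _ e1 with e1 | e1 <;> rcases hadj _ _ e2 with e2 | e2 <;>
      rcases hadj _ _ e3 with e3 | e3
    · exact h2 _ _ _ e1 e3 e2
    · exact h2 _ _ _ e2 e3 e1
    · exact absurd ((h1 _ e1).trans ((h1 _ e3).trans (h1 _ e2))) (lt_irrefl _)
    · exact h2 _ _ _ e2 e1 e3
    · exact h2 _ _ _ e1 e2 e3
    · exact absurd ((h1 _ e1).trans ((h1 _ e2).trans (h1 _ e3))) (lt_irrefl _)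
    · exact h2 _ _ _ e3 e2 e1
    · exact h2 _ _ _ e3 e1 e2
  have h3 := hΓ.card_edgeFinset_le
  simp only [Fintype.card_fin] at h3
  have h4 : T.card ≤ Γ.edgeFinset.card := by
    refine Finset.card_le_card_of_injOn (fun x => s(x.1, x.2)) (fun x hx => ?_) fun x hx y hy e => ?_
    · simp only [Finset.mem_coe, SimpleGraph.mem_edgeFinset, SimpleGraph.mem_edgeSet]
      exact (SimpleGraph.fromRel_adj _ _ _).2 ⟨(h1 x hx).ne, Or.inl hx⟩
    · rcases Sym2.eq_iff.1 e with ⟨e1, e2⟩ | ⟨e1, e2⟩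
      · exact Prod.ext e1 e2
      · have := h1 x hx
        rw [e1, e2] at this
        exact absurd (this.trans (h1 y hy)) (lt_irrefl _)
  have h5 : (a % 2).choose 2 = 0 := Nat.choose_eq_zero_of_lt (Nat.mod_lt _ two_pos)
  rw [h5] at h3
  refine h4.trans (h3.trans ?_)
  simpa using Nat.div_le_div_right (Nat.sub_le _ _)

theorem sidon_two_pow {i j k l : ℕ} (h1 : i < j) (h2 : k < l) (h : 2 ^ j + 2 ^ k = 2 ^ l + 2 ^ i) :
    i = k ∧ j = l := by
  have aux : ∀ {i j k l : ℕ}, i < j → k < l → 2 ^ j + 2 ^ k = 2 ^ l + 2 ^ i → ¬ j < l := by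
    intro i j k l _ h2 h h3
    obtain ⟨m, rfl⟩ : ∃ m, l = m + 1 := ⟨l - 1, by omega⟩
    have e1 : 2 ^ j ≤ 2 ^ m := Nat.pow_le_pow_right two_pos (by omega)
    have e2 : 2 ^ k ≤ 2 ^ m := Nat.pow_le_pow_right two_pos (by omega)
    have e3 : 0 < 2 ^ i := Nat.two_pow_pos i
    rw [pow_succ] at h
    omega
  have e : j = l := le_antisymm (not_lt.1 (aux h2 h1 h.symm)) (not_lt.1 (aux h1 h2 h))
  subst e
  exact ⟨Nat.pow_right_injective le_rfl (by simpa using h.symm), rfl⟩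

theorem exists_gens_of_filtration {G : Type*} [Group G] (B : ℕ → Subgroup G)
    (hn : ∀ s, (B s).Normal) (mono : Monotone B) (hc : ∀ s, ∀ u ∈ B s, ∀ v ∈ B s, u * v = v * u)
    (h1 : ∀ s (g : G), ∀ v ∈ B (s + 1), ⁅g, v⁆ ∈ B s)
    (hgen : ∀ s, ∀ v ∈ B (s + 1), v ∉ B s → B (s + 1) ≤ B s ⊔ zpowers v)
    {a : ℕ} (t : Fin a → ℕ) (ht : StrictMono t) (hj : ∀ s, B s ≠ B (s + 1) → ∃ i, s = t i)
    (sidon : ∀ i j k l, i < j → k < l → t j + t k = t l + t i → i = k ∧ j = l)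
    (H K : Subgroup G) (N : ℕ) (hK1 : ∀ g ∈ H, ∀ h ∈ H, ⁅g, h⁆ ∈ K)
    (hK2 : ∀ g ∈ H, (∀ v ∈ B N, ⁅g, v⁆ ∈ B 0) → g ∈ K) :
    ∃ S : Finset G, S.card ≤ a ^ 2 / 4 ∧ (S : Set G) ⊆ H ∧ H ≤ closure (S : Set G) ⊔ K := by
  classical
  obtain ⟨F, hF⟩ : ∃ F : ℕ → Subgroup G, ∀ w g, g ∈ F w ↔ ∀ s, ∀ v ∈ B (s + w), ⁅g, v⁆ ∈ B s := by
    refine ⟨fun w =>
      { carrier := {g | ∀ s, ∀ v ∈ B (s + w), ⁅g, v⁆ ∈ B s}
        one_mem' := fun s v _ => by simp
        mul_mem' := fun {x y} hx hy s v hv => ?_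
        inv_mem' := fun {x} hx s v hv => ?_ }, fun _ _ => Iff.rfl⟩
    · rw [show ⁅x * y, v⁆ = x * ⁅y, v⁆ * x⁻¹ * ⁅x, v⁆ by simp only [commutatorElement_def]; group]
      exact mul_mem ((hn s).conj_mem _ (hy s v hv) x) (hx s v hv)
    · rw [show ⁅x⁻¹, v⁆ = x⁻¹ * ⁅x, v⁆⁻¹ * x⁻¹⁻¹ by simp only [commutatorElement_def]; group]
      exact (hn s).conj_mem _ (inv_mem (hx s v hv)) _
  have hB : ∀ s (g : G), ∀ v ∈ B s, ⁅g, v⁆ ∈ B s := fun s g v hv =>
    mul_mem ((hn s).conj_mem v hv g) (inv_mem hv)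
  have lead : ∀ w s g, g ∈ F w → ∀ v ∈ B (s + w + 1), v ∉ B (s + w) → ⁅g, v⁆ ∈ B s →
      ∀ u ∈ B (s + w + 1), ⁅g, u⁆ ∈ B s := by
    intro w s g hg v hv hv' h
    let U : Subgroup G :=
      { carrier := {u | ⁅g, u⁆ ∈ B s}
        one_mem' := by simp
        mul_mem' := fun {x y} hx hy => by
          show ⁅g, x * y⁆ ∈ B s
          rw [show ⁅g, x * y⁆ = ⁅g, x⁆ * (x * ⁅g, y⁆ * x⁻¹) by
            simp only [commutatorElement_def]; group]
          exact mul_mem hx ((hn s).conj_mem _ hy x)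
        inv_mem' := fun {x} hx => by
          show ⁅g, x⁻¹⁆ ∈ B s
          rw [show ⁅g, x⁻¹⁆ = x⁻¹ * ⁅g, x⁆⁻¹ * x⁻¹⁻¹ by simp only [commutatorElement_def]; group]
          exact (hn s).conj_mem _ (inv_mem hx) _ }
    exact (hgen _ v hv hv').trans (sup_le ((hF w g).1 hg s) (zpowers_le.2 h : zpowers v ≤ U))
  have jump : ∀ w g, 0 < w → g ∈ F w → g ∉ F (w + 1) → ∃ i j, i < j ∧ t j = t i + w ∧
      ∃ v ∈ B (t j + 1), v ∉ B (t j) ∧ ⁅g, v⁆ ∉ B (t i) := by
    intro w g hw hg hg'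
    rw [hF] at hg'
    push Not at hg'
    obtain ⟨s, v, hv, h⟩ := hg'
    have h2 : v ∉ B (s + w) := fun e => h ((hF w g).1 hg s v e)
    have h3 : ⁅g, v⁆ ∈ B (s + 1) := (hF w g).1 hg _ v (by rwa [add_right_comm])
    obtain ⟨i, rfl⟩ := hj s fun e => h (e ▸ h3)
    obtain ⟨j, e⟩ := hj (t i + w) fun e => h2 (e ▸ hv)
    exact ⟨i, j, ht.lt_iff_lt.1 (by omega), e.symm, v, e ▸ hv, e ▸ h2, h⟩
  have jump' : ∀ i j w g, i < j → t j = t i + w → g ∈ F w → g ∉ F (w + 1) →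
      ∀ v ∈ B (t j + 1), v ∉ B (t j) → ⁅g, v⁆ ∉ B (t i) := by
    intro i j w g hij e hg hg' v hv hv' h
    obtain ⟨k, l, hkl, e', u, hu, -, h'⟩ := jump w g (by have := ht hij; omega) hg hg'
    obtain ⟨rfl, rfl⟩ := sidon i j k l hij hkl (by omega)
    exact h' (lead w _ g hg v (e ▸ hv) (e ▸ hv') h u (e ▸ hu))
  have gen : ∀ w g, 0 < w → g ∈ F w → g ∉ F (w + 1) → ∀ x ∈ F w, ∃ n : ℤ,
      x * (g ^ n)⁻¹ ∈ F (w + 1) := by
    intro w g hw hg hg' x hx
    obtain ⟨i, j, hij, e, v, hv, hv', h⟩ := jump w g hw hg hg'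
    have h2 : ∀ y ∈ F w, ⁅y, v⁆ ∈ B (t i + 1) := fun y hy =>
      (hF w y).1 hy _ v (by rwa [add_right_comm, ← e])
    have := hn (t i)
    let f : F w →* G ⧸ B (t i) := MonoidHom.mk' (fun y => (⁅(y : G), v⁆ : G)) fun y z => by
      rw [← QuotientGroup.mk_mul, hc _ _ (h2 y y.2) _ (h2 z z.2), eq_comm, QuotientGroup.eq,
        ← (hn _).mem_comm_iff]
      convert h1 _ y _ (h2 z z.2) using 1
      simp only [commutatorElement_def, coe_mul]
      group
    obtain ⟨b, hb, n, e1⟩ := (H5.mem_sup_zpowers_iff ((normalizer_eq_top _).ge (mem_top _))).1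
      (hgen _ _ (h2 g hg) h (h2 x hx))
    refine ⟨n, ?_⟩
    by_contra h3
    have h4 : x * (g ^ n)⁻¹ ∈ F w := mul_mem hx (inv_mem (zpow_mem hg n))
    refine jump' i j w _ hij e h4 h3 v hv hv' ((QuotientGroup.eq_one_iff _).1 ?_)
    have h5 : f ⟨x, hx⟩ = f ⟨g, hg⟩ ^ n := by
      show ((⁅x, v⁆ : G) : G ⧸ B (t i)) = ((⁅g, v⁆ : G) : G ⧸ B (t i)) ^ n
      rw [e1, QuotientGroup.mk_mul, (QuotientGroup.eq_one_iff b).2 hb, one_mul,
        QuotientGroup.mk_zpow]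
    have h6 : f (⟨x, hx⟩ * (⟨g, hg⟩ ^ n)⁻¹) = 1 := by rw [map_mul, map_inv, map_zpow, h5]; simp
    exact h6
  have hcomm : ∀ s (g h : G), ∀ v ∈ B s, ⁅⁅g, h⁆, h * g * v * (h * g)⁻¹⁆ = ⁅g, ⁅h, v⁆⁆ * ⁅h, ⁅g, v⁆⁆⁻¹ := by
    intro s g h v hv
    have := hc s _ (hB s g v hv) _ (hB s h v hv)
    calc _ = ⁅g, ⁅h, v⁆⁆ * (⁅h, v⁆ * ⁅g, v⁆) * (⁅g, v⁆ * ⁅h, v⁆)⁻¹ * ⁅h, ⁅g, v⁆⁆⁻¹ := by
          simp only [commutatorElement_def]; group
      _ = _ := by rw [this]; group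
  have hcF : ∀ x y g h, g ∈ F x → h ∈ F y → ⁅g, h⁆ ∈ F (x + y) := by
    intro x y g h hg hh
    rw [hF] at hg hh ⊢
    intro s v hv
    have h2 := (hn _).conj_mem v hv (h * g)⁻¹
    have h3 := hcomm _ g h _ h2
    rw [show h * g * ((h * g)⁻¹ * v * (h * g)⁻¹⁻¹) * (h * g)⁻¹ = v by group] at h3
    rw [h3]
    exact mul_mem (hg s _ (hh _ _ (by rwa [add_assoc])))
      (inv_mem (hh s _ (hg _ _ (by rwa [add_assoc, add_comm y]))))
  let T : Finset (Fin a × Fin a) := Finset.univ.filter fun x => x.1 < x.2 ∧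
    ¬ H ⊓ F (t x.2 - t x.1) ≤ (H ⊓ F (t x.2 - t x.1 + 1)) ⊔ K
  have hT : ∀ x ∈ T, x.1 < x.2 ∧ ∃ g, g ∈ H ∧ g ∈ F (t x.2 - t x.1) ∧
      g ∉ F (t x.2 - t x.1 + 1) := by
    intro x hx
    obtain ⟨e1, e2⟩ := (Finset.mem_filter.1 hx).2
    obtain ⟨g, hg, hg'⟩ := SetLike.not_le_iff_exists.1 e2
    exact ⟨e1, g, hg.1, hg.2, fun h => hg' (mem_sup_left ⟨hg.1, h⟩)⟩
  have gen' : ∀ w g, 0 < w → g ∈ H → g ∈ F w → g ∉ F (w + 1) →
      H ⊓ F w ≤ (H ⊓ F (w + 1)) ⊔ zpowers g := by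
    intro w g hw hgH hg hg' x hx
    obtain ⟨n, hn⟩ := gen w g hw hg hg' x hx.2
    have := mul_mem (mem_sup_left ⟨H.mul_mem hx.1 (H.inv_mem (H.zpow_mem hgH n)), hn⟩ :
      _ ∈ (H ⊓ F (w + 1)) ⊔ zpowers g) (mem_sup_right (zpow_mem_zpowers g n))
    rwa [inv_mul_cancel_right] at this
  have hcard : T.card ≤ a ^ 2 / 4 := by
    refine mantel T (fun x hx => (hT x hx).1) fun i j k e1 e2 e3 => ?_
    obtain ⟨hij, g, hgH, hg, hg'⟩ := hT _ e1
    obtain ⟨hjk, h, hhH, hh, hh'⟩ := hT _ e2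
    simp only at hij hjk hg hg' hh hh'
    have l1 := ht hij
    have l2 := ht hjk
    have e4 : t k - t i = t j - t i + (t k - t j) := by omega
    refine (Finset.mem_filter.1 e3).2.2 ?_
    simp only
    have h2 : ⁅g, h⁆ ∉ F (t k - t i + 1) := by
      intro h2
      obtain ⟨j', k', hjk', e5, v, hv, hv', -⟩ := jump _ h (by omega) hh hh'
      obtain ⟨rfl, rfl⟩ := sidon j k j' k' hjk hjk' (by omega)
      have h3 := jump' j k _ h hjk e5 hh hh' v hv hv'
      have h4 : ⁅h, v⁆ ∈ B (t j + 1) := (hF _ h).1 hh _ v (by rwa [add_right_comm, ← e5])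
      have h5 := jump' i j _ g hij (by omega) hg hg' _ h4 h3
      have h6 : ⁅g, v⁆ ∈ B (t i + (t k - t j) + 1) :=
        (hF _ g).1 hg _ v (by convert hv using 2; omega)
      have h7 : B (t i + (t k - t j)) = B (t i + (t k - t j) + 1) := by
        by_contra h7
        obtain ⟨l, e6⟩ := hj _ h7
        have := sidon i j l k hij (ht.lt_iff_lt.1 (by omega)) (by omega)
        exact hjk.ne this.2
      have h8 := (hF _ h).1 hh _ _ (h7.ge h6)
      have h9 := (hF _ _).1 h2 (t i) _ (show h * g * v * (h * g)⁻¹ ∈ B (t i + (t k - t i + 1)) by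
        convert (hn _).conj_mem v hv (h * g) using 2; omega)
      rw [hcomm _ g h v hv] at h9
      exact h5 (by have := mul_mem h9 h8; rwa [inv_mul_cancel_right] at this)
    refine (gen' _ _ (by omega) (mul_mem (mul_mem (mul_mem hgH hhH) (inv_mem hgH)) (inv_mem hhH))
      (e4 ▸ hcF _ _ g h hg hh) h2).trans (sup_le_sup_left (zpowers_le.2 (hK1 g hgH h hhH)) _)
  choose! r hr using fun x hx => (hT x hx).2
  refine ⟨T.image r, Finset.card_image_le.trans hcard, ?_, ?_⟩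
  · intro x hx
    obtain ⟨y, hy, rfl⟩ := Finset.mem_image.1 hx
    exact (hr y hy).1
  have key : ∀ m w, 0 < w → N ≤ w + m → H ⊓ F w ≤ closure ((T.image r : Finset G) : Set G) ⊔ K := by
    intro m
    induction m with
    | zero =>
      intro w _ hw g hg
      exact mem_sup_right (hK2 g hg.1 fun v hv => (hF w g).1 hg.2 0 v (mono (by omega) hv))
    | succ m ih =>
      intro w hw hw'
      have h2 := ih (w + 1) (by omega) (by omega)
      by_cases h3 : H ⊓ F w ≤ (H ⊓ F (w + 1)) ⊔ K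
      · exact h3.trans (sup_le h2 le_sup_right)
      obtain ⟨g, hg, hg'⟩ := SetLike.not_le_iff_exists.1 h3
      obtain ⟨i, j, hij, e, -⟩ := jump w g hw hg.2 fun h => hg' (mem_sup_left ⟨hg.1, h⟩)
      have e' : t j - t i = w := by omega
      have h4 : (i, j) ∈ T := Finset.mem_filter.2 ⟨Finset.mem_univ _, hij, by rwa [e']⟩
      obtain ⟨r1, r2, r3⟩ := hr _ h4
      rw [e'] at r2 r3
      exact (gen' w _ hw r1 r2 r3).trans (sup_le h2 (zpowers_le.2 (mem_sup_left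
        (subset_closure (Finset.mem_coe.2 (Finset.mem_image_of_mem r h4))))))
  exact fun g hg => key N 1 one_pos (by omega) ⟨hg, (hF 1 g).2 fun s => h1 s g⟩

section PCentral

variable {p : ℕ} [hp : Fact p.Prime]

theorem commutator_pow_of_pCentral (hp2 : p ≠ 2) (n : ℕ) : ∀ (G : Type u) [Group G] [Finite G],
    Nat.card G = n → IsPGroup p G → (∀ y : G, y ^ p = 1 → y ∈ center G) →
      ∀ x g : G, (x ^ p) ^ p = 1 → ⁅x, g⁆ ^ p = 1 := by
  induction n using Nat.strong_induction_on with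
  | _ n ih =>
  intro G _ _ hn hG h x g hx
  by_cases h1 : zpowers x = ⊤
  · obtain ⟨i, rfl⟩ := h1.ge (mem_top g)
    simp only
    rw [commutatorElement_eq_one_iff_commute.2 (Commute.zpow_right rfl i), one_pow]
  obtain ⟨M, hM, hMn, -, hMc⟩ := H5.exists_le_normal_index_eq hG h1
  have hxM : x ∈ M := hM (mem_zpowers x)
  have h2 := ih _ (hn ▸ H1.card_lt_of_ne_top hMc.1) M rfl (hG.to_subgroup M) (fun y hy =>
      mem_center_iff.2 fun z => Subtype.ext (mem_center_iff.1 (h y (congrArg Subtype.val hy)) z))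
    ⟨x, hxM⟩ ⟨g * x⁻¹ * g⁻¹, hMn.conj_mem _ (inv_mem hxM) g⟩ (Subtype.ext hx)
  have h3 : ⁅x, g * x⁻¹ * g⁻¹⁆ ^ p = 1 := congrArg Subtype.val h2
  have h4 : ⁅g * x⁻¹ * g⁻¹, x⁆ ^ p = 1 := by rw [← commutatorElement_inv, inv_pow, h3, inv_one]
  have h5 := mem_center_iff.1 (h _ h4)
  rw [show ⁅x, g⁆ = x * (g * x⁻¹ * g⁻¹) by rw [commutatorElement_def]; group,
    H5.mul_pow_eq_of_class_two_of_odd (h5 _) (h5 _) (hp.out.odd_of_ne_two hp2) h4, conj_pow,
    inv_pow, mem_center_iff.1 (inv_mem (h _ hx)) g]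
  group

theorem index_frattini_le_of_pCentral (hp2 : p ≠ 2) (n : ℕ) : ∀ (G : Type u) [Group G] [Finite G],
    Nat.card G = n → IsPGroup p G → ∀ E : Subgroup G, E ≤ center G → (∀ y, y ∈ E ↔ y ^ p = 1) →
      (frattini G).index ≤ Nat.card E := by
  induction n using Nat.strong_induction_on with
  | _ n ih =>
  intro G _ _ hn hG E hE h
  have hc := commutator_pow_of_pCentral hp2 _ G rfl hG fun y hy => hE ((h y).2 hy)
  by_cases E1 : E = ⊥
  · have : Subsingleton G := by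
      by_contra hG1
      rw [not_subsingleton_iff_nontrivial] at hG1
      obtain ⟨x, -, hx⟩ := exists_orderOf_eq_prime (hG.to_subgroup ⊤) top_ne_bot
      have := (h x).2 (by rw [← hx, pow_orderOf_eq_one])
      rw [E1, mem_bot] at this
      rw [this, orderOf_one] at hx
      exact hp.out.one_lt.ne hx
    rw [Subsingleton.elim (frattini G) ⊤, index_top]
    exact Nat.card_pos
  have hEn : E.Normal := ⟨fun x hx g => by rwa [mem_center_iff.1 (hE hx) g, mul_inv_cancel_right]⟩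
  have hq : ∀ x : G, (x : G ⧸ E) ^ p = 1 ↔ (x ^ p) ^ p = 1 := fun x => by
    rw [← QuotientGroup.mk_pow, QuotientGroup.eq_one_iff, h]
  have hz : ∀ y : G ⧸ E, y ^ p = 1 → y ∈ center (G ⧸ E) := by
    intro y hy
    obtain ⟨x, rfl⟩ := QuotientGroup.mk_surjective y
    refine mem_center_iff.2 fun g => ?_
    obtain ⟨g, rfl⟩ := QuotientGroup.mk_surjective g
    rw [eq_comm, ← commutatorElement_eq_one_iff_mul_comm]
    exact (QuotientGroup.eq_one_iff ⁅x, g⁆).2 ((h _).2 (hc x g ((hq x).1 hy)))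
  let E' : Subgroup (G ⧸ E) :=
    { carrier := {y | y ^ p = 1}
      one_mem' := one_pow _
      mul_mem' := fun {x y} hx hy => by
        show (x * y) ^ p = 1
        rw [Commute.mul_pow (mem_center_iff.1 (hz y hy) x), hx, hy, one_mul]
      inv_mem' := fun {x} hx => by
        show x⁻¹ ^ p = 1
        rw [inv_pow, hx, inv_one] }
  have h1 := ih _ (hn ▸ H1.card_quotient_lt E1) (G ⧸ E) rfl (hG.to_quotient E) E' hz
    fun _ => Iff.rfl
  have hout : ∀ y : E', ((y : G ⧸ E).out ^ p) ^ p = 1 := fun y =>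
    (hq _).1 (by rw [QuotientGroup.out_eq']; exact y.2)
  have h2 : Nat.card E' ≤ Nat.card (frattini G ⊓ E : Subgroup G) := by
    refine Nat.card_le_card_of_injective (fun y => ⟨(y : G ⧸ E).out ^ p,
      H5.pow_mem_frattini hG _, (h _).2 (hout y)⟩) fun y z e => Subtype.ext ?_
    rw [← QuotientGroup.out_eq' (y : G ⧸ E), ← QuotientGroup.out_eq' (z : G ⧸ E), QuotientGroup.eq,
      h]
    have h3 := hc _ (y : G ⧸ E).out⁻¹ (hout z)
    have h4 := mem_center_iff.1 (hE ((h _).2 h3))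
    rw [H5.mul_pow_eq_of_class_two_of_odd (h4 _) (h4 _) (hp.out.odd_of_ne_two hp2) h3, inv_pow,
      show (y : G ⧸ E).out ^ p = (z : G ⧸ E).out ^ p from congrArg Subtype.val e, inv_mul_cancel]
  have h3 : (frattini G ⊔ E).index = (frattini (G ⧸ E)).index := by
    rw [← H5.map_frattini_of_surjective hG (QuotientGroup.mk'_surjective E),
      ← index_comap_of_surjective _ (QuotientGroup.mk'_surjective E), comap_map_eq,
      QuotientGroup.ker_mk']
  rw [← relIndex_mul_index (le_sup_left : frattini G ≤ frattini G ⊔ E), relIndex_sup_left, h3,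
    ← H1.card_inf_mul_relIndex (frattini G) E, mul_comm]
  exact Nat.mul_le_mul_right _ (h1.trans h2)

theorem exists_gens_mod_centralizer {G : Type*} [Group G] [Finite G] (hG : IsPGroup p G)
    (A : Subgroup G) [hAn : A.Normal] (hA : A ≤ 𝐂(A)) {a : ℕ} (ha : Nat.card A = p ^ a)
    (H K : Subgroup G) (hK1 : ∀ g ∈ H, ∀ h ∈ H, ⁅g, h⁆ ∈ K) (hK2 : H ⊓ 𝐂(A) ≤ K) :
    ∃ S : Finset G, S.card ≤ a ^ 2 / 4 ∧ (S : Set G) ⊆ H ∧ H ≤ closure (S : Set G) ⊔ K := by
  have step : ∀ K : {K : Subgroup G // K.Normal ∧ K ≤ A},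
      ∃ M : {K : Subgroup G // K.Normal ∧ K ≤ A}, K.1 ≤ M.1 ∧ (K.1 = A ∨
        Nat.card M.1 = Nat.card K.1 * p ∧ ⁅M.1, (⊤ : Subgroup G)⁆ ≤ K.1) := by
    rintro ⟨K, h1, h2⟩
    rcases h2.eq_or_lt with e | e
    · exact ⟨⟨K, h1, h2⟩, le_rfl, Or.inl e⟩
    · obtain ⟨M, m1, m2, m3, m4, m5⟩ := H5.exists_normal_cover hG e
      exact ⟨⟨M, m1, m3⟩, m2, Or.inr ⟨m4, m5⟩⟩
  choose f hf1 hf2 using step
  let C : ℕ → {K : Subgroup G // K.Normal ∧ K ≤ A} := fun i => f^[i] ⟨⊥, inferInstance, bot_le⟩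
  have hC : ∀ i, C (i + 1) = f (C i) := fun i => Function.iterate_succ_apply' _ _ _
  have hmono : Monotone fun i => (C i).1 := monotone_nat_of_le_succ fun i => by
    rw [hC]; exact hf1 _
  have hcard : ∀ i, (C i).1 = A ∨ Nat.card (C i).1 = p ^ i := by
    intro i
    induction i with
    | zero => exact Or.inr (by simp [C])
    | succ i ih =>
      rcases hf2 (C i) with e | e
      · exact Or.inl (le_antisymm (C _).2.2 (e.ge.trans (hmono i.le_succ)))
      rcases ih with e' | e'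
      · exact Or.inl (le_antisymm (C _).2.2 (e'.ge.trans (hmono i.le_succ)))
      · exact Or.inr (by rw [hC, e.1, e', pow_succ])
  have htop : ∀ i, a ≤ i → (C i).1 = A := by
    intro i hi
    refine le_antisymm (C _).2.2 (le_trans ?_ (hmono hi))
    rcases hcard a with e | e
    · exact e.ge
    · exact (eq_of_le_of_card_ge (C a).2.2 (by rw [e, ha])).ge
  have hsz : ∀ s, Nat.size s = Nat.size (s + 1) ∨
      Nat.size (s + 1) = Nat.size s + 1 ∧ s = 2 ^ Nat.size s - 1 := by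
    intro s
    rcases (Nat.size_le_size s.le_succ).eq_or_lt with e | e
    · exact Or.inl e
    have h1 := Nat.lt_size.1 e
    have h2 := Nat.lt_size_self s
    have h3 : s + 1 = 2 ^ Nat.size s := by omega
    exact Or.inr ⟨by rw [h3, Nat.size_pow], by omega⟩
  have hjump : ∀ s, (C (Nat.size s)).1 = (C (Nat.size (s + 1))).1 ∨ Nat.size s < a ∧
      s = 2 ^ Nat.size s - 1 ∧
      Nat.card (C (Nat.size (s + 1))).1 = Nat.card (C (Nat.size s)).1 * p ∧
      ⁅(C (Nat.size (s + 1))).1, (⊤ : Subgroup G)⁆ ≤ (C (Nat.size s)).1 := by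
    intro s
    rcases hsz s with e | ⟨e1, e2⟩
    · exact Or.inl (by rw [e])
    by_cases h : Nat.size s < a
    swap
    · exact Or.inl (by rw [htop _ (not_lt.1 h), htop _ (by omega)])
    rcases hf2 (C (Nat.size s)) with e | e
    · exact Or.inl (le_antisymm (hmono (by omega)) ((C _).2.2.trans e.ge))
    · exact Or.inr ⟨h, e2, by rwa [e1, hC]⟩
  have hsm : StrictMono fun i : Fin a => 2 ^ (i : ℕ) - 1 := fun i j h => by
    have h1 := Nat.pow_lt_pow_right one_lt_two (Fin.lt_def.1 h)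
    have h2 := Nat.two_pow_pos i
    simp only
    omega
  refine exists_gens_of_filtration (fun s => (C (Nat.size s)).1) (fun s => (C _).2.1)
    (fun s s' h => hmono (Nat.size_le_size h)) (fun s u hu v hv =>
      mem_centralizer_iff_commute.1 (hA ((C _).2.2 hv)) u ((C _).2.2 hu)) (fun s g v hv => ?_)
    (fun s v hv hv' => ?_) _ hsm (fun s hs => ?_) (fun i j k l h1 h2 h => ?_) H K (2 ^ a) hK1
    (fun g hg h => hK2 ⟨hg, mem_centralizer_iff_commute.2 fun v hv => ?_⟩)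
  · rcases hjump s with e | ⟨-, -, -, e⟩
    · exact mul_mem ((C _).2.1.conj_mem v (e.ge hv) g) (inv_mem (e.ge hv))
    · rw [← commutatorElement_inv]
      exact inv_mem (e (commutator_mem_commutator hv (mem_top g)))
  · rcases hjump s with e | ⟨-, -, e, -⟩
    · exact absurd (e.ge hv) hv'
    · exact (H5.eq_sup_zpowers_of_card hp.out (hmono (Nat.size_le_size s.le_succ)) e hv hv').ge
  · obtain ⟨e1, e2, -⟩ := (hjump s).resolve_left hs
    exact ⟨⟨_, e1⟩, e2⟩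
  · have := Nat.two_pow_pos i
    have := Nat.two_pow_pos j
    have := Nat.two_pow_pos k
    have := Nat.two_pow_pos l
    obtain ⟨e1, e2⟩ := sidon_two_pow (Fin.lt_def.1 h1) (Fin.lt_def.1 h2) (by omega)
    exact ⟨Fin.ext e1, Fin.ext e2⟩
  · have h1 := h v ((htop _ (by rw [Nat.size_pow]; omega)).ge hv)
    exact (commutatorElement_eq_one_iff_mul_comm.1 (mem_bot.1 h1)).symm

end PCentral

end H92
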