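import Mathlib
import Cfsg.Agent.Base
import Cfsg.Agent.Lib.FGS.RealElt
import Cfsg.Agent.Lib.FGS.ClassSize
import Cfsg.Agent.Lib.Core.HallSZ
import Cfsg.Agent.Lib.LocStruct.SylowIn

/-! Real elements of odd order lift through any surjection of finite groups. -/

set_option autoImplicit false

namespace H92.RC

open Subgroup Cfsg H69
open scoped Pointwise

variable {G G' : Type*} [Group G] [Group G']

theorem lift_odd_ker [Finite G] (f : G →* G') (hf : Function.Surjective f)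
    (hk : Odd (Nat.card f.ker)) {y : G'} (hy : Odd (orderOf y)) (hr : IsConj y y⁻¹) :
    ∃ x : G, f x = y ∧ Odd (orderOf x) ∧ IsConj x x⁻¹ := by
  classical
  obtain ⟨s, hs⟩ := isConj_iff.mp hr
  obtain ⟨s, rfl⟩ := hf s
  obtain ⟨j, m, hm, hjm⟩ := Nat.exists_eq_two_pow_mul_odd (orderOf_pos s).ne'
  have h1 := H77.pow_inverts_of_odd hs hm
  rw [← map_pow] at h1
  have h2 : (s ^ m) ^ 2 ^ j = 1 := by rw [← pow_mul, mul_comm, ← hjm, pow_orderOf_eq_one]
  generalize s ^ m = t at h1 h2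
  have h3 : f t * y⁻¹ * (f t)⁻¹ = y := by rw [← conj_inv, h1, inv_inv]
  let σ : Function.End {c : G // f c = y} := fun c => ⟨t * c.1⁻¹ * t⁻¹, by
    rw [map_mul, map_mul, map_inv, map_inv, c.2, h3]⟩
  have hσ : ∀ (k : ℕ) (c : {c : G // f c = y}), ((σ ^ (2 * k)) c).1 = t ^ (2 * k) * c.1 * (t ^ (2 * k))⁻¹ := by
    intro k
    induction k with
    | zero => intro c; simp; rfl
    | succ k ih =>
      intro c
      rw [show 2 * (k + 1) = 2 * k + 1 + 1 by ring, pow_succ', pow_succ']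
      change t * (t * ((σ ^ (2 * k)) c).1⁻¹ * t⁻¹)⁻¹ * t⁻¹ = _
      rw [ih]; group
  have h4 : σ ^ 2 ^ (j + 1) = 1 := by
    funext c
    apply Subtype.ext
    rw [pow_succ', hσ, mul_comm 2, pow_mul, h2]
    simp; rfl
  have := Fintype.ofFinite {c : G // f c = y}
  have h5 := Equiv.Perm.card_fixedPoints_modEq (p := 2) h4
  obtain ⟨x0, hx0⟩ := hf y
  have h6 : Fintype.card {c : G // f c = y} = Nat.card f.ker := by
    rw [← Nat.card_eq_fintype_card]
    exact Nat.card_congr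
      { toFun := fun c => ⟨x0⁻¹ * c.1, by rw [MonoidHom.mem_ker, map_mul, map_inv, hx0, c.2, inv_mul_cancel]⟩
        invFun := fun k => ⟨x0 * k.1, by rw [map_mul, hx0, k.2, mul_one]⟩
        left_inv := fun c => by simp
        right_inv := fun k => by simp }
  have h7 : Fintype.card (Function.fixedPoints σ) ≠ 0 := by
    intro e
    rw [e, h6, Nat.ModEq, Nat.odd_iff.mp hk] at h5
    omega
  obtain ⟨⟨c, hc⟩⟩ := Fintype.card_pos_iff.mp (Nat.pos_of_ne_zero h7)
  have hc' : t * c.1⁻¹ * t⁻¹ = c.1 := congrArg Subtype.val hc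
  refine ⟨c.1, c.2, ?_, isConj_iff.mpr ⟨t, by rw [← inv_inj, conj_inv, hc', inv_inv]⟩⟩
  have h8 : c.1 ^ orderOf y ∈ f.ker := by rw [MonoidHom.mem_ker, map_pow, c.2, pow_orderOf_eq_one]
  have h9 : c.1 ^ (orderOf y * Nat.card f.ker) = 1 := by
    rw [pow_mul]; exact orderOf_dvd_iff_pow_eq_one.mp (H1.orderOf_dvd_card_of_mem h8)
  exact (hy.mul hk).of_dvd_nat (orderOf_dvd_of_pow_eq_one h9)

theorem lift_two_ker [Finite G] (f : G →* G') (hf : Function.Surjective f)
    (hk : IsPGroup 2 f.ker) {y : G'} (hy : Odd (orderOf y)) (hr : IsConj y y⁻¹) :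
    ∃ x : G, f x = y ∧ Odd (orderOf x) ∧ IsConj x x⁻¹ := by
  obtain ⟨t, ht⟩ := isConj_iff.mp hr
  obtain ⟨t, rfl⟩ := hf t
  obtain ⟨x0, hx0⟩ := hf y
  obtain ⟨a, ha⟩ := IsPGroup.iff_card.mp hk
  have hc : (2 ^ a).Coprime (orderOf y) := (Nat.coprime_two_left.mpr hy).pow_left a
  obtain ⟨k, hk'⟩ : ∃ k, y ^ (2 ^ a * k) = y := by
    obtain ⟨k, hk'⟩ := exists_pow_eq_self_of_coprime (x := y) hc
    exact ⟨k, by rw [pow_mul, hk']⟩
  have h1 : x0 ^ orderOf y ∈ f.ker := by rw [MonoidHom.mem_ker, map_pow, hx0, pow_orderOf_eq_one]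
  have h2 : (x0 ^ (2 ^ a * k)) ^ orderOf y = 1 := by
    rw [← pow_mul, mul_comm, pow_mul, pow_mul, ← ha,
      orderOf_dvd_iff_pow_eq_one.mp (H1.orderOf_dvd_card_of_mem h1), one_pow]
  have h3 : f (x0 ^ (2 ^ a * k)) = y := by rw [map_pow, hx0, hk']
  generalize x0 ^ (2 ^ a * k) = x at h2 h3
  have hox : Odd (orderOf x) := hy.of_dvd_nat (orderOf_dvd_of_pow_eq_one h2)
  refine ⟨x, h3, hox, ?_⟩
  have hcx : (Nat.card f.ker).Coprime (Nat.card (zpowers x)) := by
    rw [ha, Nat.card_zpowers]; exact (Nat.coprime_two_left.mpr hox).pow_left a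
  have h4 : t * x * t⁻¹ * x ∈ f.ker := by
    rw [MonoidHom.mem_ker, map_mul, map_mul, map_mul, map_inv, h3, ht, inv_mul_cancel]
  obtain ⟨e, he, h5⟩ := H3.exists_conj_le_of_coprime (N := f.ker) (H := zpowers (t * x * t⁻¹))
    (K := zpowers x) le_normalizer_of_normal
    (by rw [zpowers_le]; simpa using mul_mem_sup h4 (inv_mem (mem_zpowers x)))
    (by rw [Nat.card_zpowers, H9.orderOf_conj, ← Nat.card_zpowers]; exact hcx) hcx
    (Or.inr inferInstance)
  have h6 := h5 (H1.conj_mem_conj_smul (g := e) (mem_zpowers _))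
  have h7 : e * (t * x * t⁻¹) * e⁻¹ * x ∈ f.ker ⊓ zpowers x := by
    refine ⟨?_, mul_mem h6 (mem_zpowers x)⟩
    have he' : f e = 1 := he
    change f _ = 1
    simp only [map_mul, map_inv, h3, ht, he']
    group
  rw [(disjoint_of_coprime_natCard hcx).eq_bot, mem_bot] at h7
  exact isConj_iff.mpr ⟨e * t, by rw [← eq_inv_of_mul_eq_one_left h7]; group⟩

/-- A real element of odd order lifts to a real element of odd order. -/
theorem lift [Finite G] (f : G →* G') (hf : Function.Surjective f)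
    {y : G'} (hy : Odd (orderOf y)) (hr : IsConj y y⁻¹) :
    ∃ x : G, f x = y ∧ Odd (orderOf x) ∧ IsConj x x⁻¹ := by
  obtain ⟨P, hP⟩ := exists_isSylowIn 2 f.ker
  set M := normalizer (P : Set G) with hM
  let f1 : M →* G' := f.comp M.subtype
  have hf1 : Function.Surjective f1 := by
    intro z
    obtain ⟨g, rfl⟩ := hf z
    obtain ⟨n, hn, a, ha, rfl⟩ := hP.frattini (g := g) (le_normalizer_of_normal (mem_top g))
    exact ⟨⟨a, ha⟩, by rw [map_mul, show f n = 1 from hn, one_mul]; rfl⟩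
  have : (P.subgroupOf M).Normal := normal_subgroupOf_of_le_normalizer le_rfl
  have hle : P.subgroupOf M ≤ f1.ker := fun x hx => hP.le hx
  let f2 := QuotientGroup.lift (P.subgroupOf M) f1 hle
  have hf2 : Function.Surjective f2 := by
    intro z
    obtain ⟨g, rfl⟩ := hf1 z
    exact ⟨g, rfl⟩
  have hodd : Odd (Nat.card f2.ker) := by
    rw [QuotientGroup.ker_lift, H1.card_map_mk'_eq_relIndex,
      show f1.ker = (f.ker ⊓ M).subgroupOf M by ext x; simp [f1, mem_subgroupOf],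
      relIndex_subgroupOf inf_le_right, ← Nat.not_even_iff_odd, even_iff_two_dvd]
    exact (hP.mono (le_inf hP.le le_normalizer) inf_le_left).not_dvd_relIndex
  obtain ⟨x1, h1, h2, h3⟩ := lift_odd_ker f2 hf2 hodd hy hr
  obtain ⟨x, h4, h5, h6⟩ := lift_two_ker (QuotientGroup.mk' (P.subgroupOf M))
    (QuotientGroup.mk'_surjective _) (by rw [QuotientGroup.ker_mk']; exact hP.isP.comap_subtype) h2 h3
  refine ⟨x, ?_, by rwa [orderOf_coe], ?_⟩
  · rw [← h1, ← h4]; rfl
  · simpa using M.subtype.map_isConj h6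

end H92.RC
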