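import Cfsg.Agent.Lib.LocStruct.SylowIn
import Cfsg.Agent.Lib.Core.CoprimeExt
import Cfsg.Agent.Lib.Core.CoprimeNorm
import Cfsg.Agent.Lib.BG4.Rank1
import Cfsg.Agent.S3762

/-! For `p` odd, a coprime module is not covered by the fixed-point subgroups of the conjugates of
an element of order `p` lying in a normal `p`-subgroup of the acting group. -/

set_option autoImplicit false

namespace H92

open Subgroup H69 H2
open scoped commutatorElement

universe u

section Basic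

variable {N V : Type*} [Group N] [CommGroup V] (φ : N →* MulAut V)

theorem fixSub_anti {A B : Subgroup N} (h : A ≤ B) : fixSub φ B ≤ fixSub φ A :=
  fun _ hx b hb => hx b (h hb)

theorem act_mul (a b : N) (v : V) : φ (a * b) v = φ a (φ b v) := by rw [map_mul]; rfl

theorem act_inv_act (a : N) (v : V) : φ a⁻¹ (φ a v) = v := by rw [← act_mul]; simp

theorem act_act_inv (a : N) (v : V) : φ a (φ a⁻¹ v) = v := by rw [← act_mul]; simp

theorem act_mem_fixSub_cj {H : Subgroup N} {w : V} (hw : w ∈ fixSub φ H) (g : N) :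
    φ g w ∈ fixSub φ (H ^ᶜ g) := by
  intro b hb
  obtain ⟨a, ha, rfl⟩ := mem_cj'.1 hb
  rw [act_mul, act_mul, act_inv_act, hw a ha]

theorem mem_fixSub_sup {A B : Subgroup N} {w : V} (h1 : w ∈ fixSub φ A) (h2 : w ∈ fixSub φ B) :
    w ∈ fixSub φ (A ⊔ B) := by
  have : A ⊔ B ≤ (MulAction.stabilizer (MulAut V) w).comap φ := sup_le h1 h2
  exact this

theorem mem_fixSub_zp {a : N} {w : V} (h : φ a w = w) : w ∈ fixSub φ (zpowers a) := by
  have : zpowers a ≤ (MulAction.stabilizer (MulAut V) w).comap φ := zpowers_le.2 h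
  exact this

theorem exists_nm [Finite N] : ∃ nm : Subgroup N → (V →* V), (∀ H v, nm H v ∈ fixSub φ H) ∧
    (∀ H, ∀ w ∈ fixSub φ H, nm H w = w ^ Nat.card H) ∧
    ∀ H b v, nm (H ^ᶜ b) (φ b v) = φ b (nm H v) := by
  classical
  have := Fintype.ofFinite N
  refine ⟨fun H => ∏ h ∈ Finset.univ.filter (· ∈ H), (φ h).toMonoidHom, fun H v b hb => ?_,
    fun H w hw => ?_, fun H b v => ?_⟩
  · simp only [MonoidHom.finset_prod_apply, map_prod, MulEquiv.coe_toMonoidHom, ← act_mul]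
    refine Finset.prod_bij (fun h _ => b * h) (fun h hh => ?_) (fun h _ h' _ e => by simpa using e)
      (fun h hh => ⟨b⁻¹ * h, ?_, by group⟩) (fun _ _ => rfl)
    · simp only [Finset.mem_filter, Finset.mem_univ, true_and] at hh ⊢
      exact H.mul_mem hb hh
    · simp only [Finset.mem_filter, Finset.mem_univ, true_and] at hh ⊢
      exact H.mul_mem (H.inv_mem hb) hh
  · simp only [MonoidHom.finset_prod_apply, MulEquiv.coe_toMonoidHom]
    rw [Finset.prod_congr rfl (g := fun _ => w) fun h hh => hw h (by simpa using hh),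
      Finset.prod_const]
    simp [Fintype.card_subtype]
  · simp only [MonoidHom.finset_prod_apply, map_prod, MulEquiv.coe_toMonoidHom, ← act_mul]
    symm
    refine Finset.prod_bij (fun h _ => b * h * b⁻¹) (fun h hh => ?_)
      (fun h _ h' _ e => by simpa using e) (fun h hh => ⟨b⁻¹ * h * b, ?_, by group⟩)
      (fun h _ => by congr 2; group)
    · simp only [Finset.mem_filter, Finset.mem_univ, true_and] at hh ⊢
      exact cj_mem b hh
    · simp only [Finset.mem_filter, Finset.mem_univ, true_and] at hh ⊢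
      exact mem_cj.1 hh

theorem exists_maxfix [Finite N] [Nontrivial V] (E : Subgroup N) : ∃ E0 : Subgroup N, E0 ≤ E ∧
    fixSub φ E0 ≠ ⊥ ∧ ∀ H, E0 ≤ H → H ≤ E → fixSub φ H ≠ ⊥ → H = E0 := by
  obtain ⟨E0, h1, h2⟩ := Set.Finite.exists_maximal (s := {H : Subgroup N | H ≤ E ∧ fixSub φ H ≠ ⊥})
    (Set.toFinite _) ⟨⊥, bot_le, by
      obtain ⟨v, hv⟩ := exists_ne (1 : V)
      intro e
      refine hv ((mem_bot).1 (e.le fun b hb => ?_))
      rw [mem_bot.1 hb]; simp⟩
  exact ⟨E0, h1.1, h1.2, fun H h3 h4 h5 => le_antisymm (h2 ⟨h4, h5⟩ h3) h3⟩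

theorem mem_norm_of_fix [Finite N] {E E0 : Subgroup N} (h1 : E0 ≤ E)
    (h2 : ∀ H, E0 ≤ H → H ≤ E → fixSub φ H ≠ ⊥ → H = E0) {x y : N} (hx : x ∈ 𝐍(E)) (hy : y ∈ 𝐍(E))
    (h : fixSub φ (E0 ^ᶜ x) ⊓ fixSub φ (E0 ^ᶜ y) ≠ ⊥) : x⁻¹ * y ∈ 𝐍(E0) := by
  obtain ⟨⟨u, hu1, hu2⟩, hu⟩ := ne_bot_iff_exists_ne_one.1 h
  have h3 := act_mem_fixSub_cj φ hu1 x⁻¹
  have h4 := act_mem_fixSub_cj φ hu2 x⁻¹
  rw [cj_cj_inv] at h3
  rw [cj_cj] at h4
  have h5 := h2 (E0 ⊔ E0 ^ᶜ (x⁻¹ * y)) le_sup_left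
    (sup_le h1 (cj_le_of_mem_normalizer h1 (mul_mem (inv_mem hx) hy))) fun e => by
      have := e.le (mem_fixSub_sup φ h3 h4)
      rw [mem_bot, map_eq_one_iff _ (φ x⁻¹).injective] at this
      exact hu (Subtype.ext this)
  exact mem_normalizer_of_cj_le (le_sup_right.trans h5.le)

theorem exists_cocyclic [Finite N] [Finite V] {E E0 : Subgroup N} (hE : E ≤ 𝐂(E))
    (hc : (Nat.card E).Coprime (Nat.card V)) (h1 : E0 ≤ E) (h0 : fixSub φ E0 ≠ ⊥)
    (h2 : ∀ H, E0 ≤ H → H ≤ E → fixSub φ H ≠ ⊥ → H = E0) : ∃ e ∈ E, E ≤ E0 ⊔ zpowers e := by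
  by_contra hn
  push Not at hn
  refine h0 (le_bot_iff.1 (ext_le_of_forall_cocyclic (φ := φ.comp E.subtype)
    (le_centralizer_iff_isMulCommutative.1 hE) (fun a x hx => ?_)
    (hc.coprime_dvd_right (card_subgroup_dvd_card _)) ?_))
  · have := act_mem_fixSub_cj φ hx a
    rwa [cj_eq_of_mem_centralizer (centralizer_anti h1 (hE a.2))] at this
  rintro B ⟨a, ha⟩
  rw [le_bot_iff]
  by_contra hne
  obtain ⟨⟨u, hu1, hu2⟩, hu⟩ := ne_bot_iff_exists_ne_one.1 hne
  have h3 : u ∈ fixSub φ (B.map E.subtype) := by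
    rintro _ ⟨b, hb, rfl⟩
    exact hu2 b hb
  have h4 := h2 (E0 ⊔ B.map E.subtype) le_sup_left (sup_le h1 (map_subtype_le _)) fun e =>
    hu (Subtype.ext (mem_bot.1 (e.le (mem_fixSub_sup φ hu1 h3))))
  refine hn a a.2 ?_
  have := congrArg (Subgroup.map E.subtype) ha
  rw [Subgroup.map_sup, map_subtype_top, MonoidHom.map_zpowers] at this
  exact this.ge.trans (sup_le_sup_right (le_sup_right.trans h4.le) _)

end Basic

theorem mem_zpowers_of_mem_zpowers {G : Type*} [Group G] [Finite G] {p : ℕ} [hp : Fact p.Prime]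
    {z x : G} (hz : z ^ p = 1) (hx : x ∈ zpowers z) (x1 : x ≠ 1) : z ∈ zpowers x := by
  have h1 : x ^ p = 1 := by
    obtain ⟨i, rfl⟩ := hx
    simp only
    rw [← zpow_natCast, ← zpow_mul, mul_comm, zpow_mul, zpow_natCast, hz, one_zpow]
  have h2 : zpowers x = zpowers z := eq_of_le_of_card_ge (zpowers_le.2 hx) (by
    rw [Nat.card_zpowers, Nat.card_zpowers, orderOf_eq_prime h1 x1]
    exact Nat.le_of_dvd hp.out.pos (orderOf_dvd_of_pow_eq_one hz))
  exact h2.ge (mem_zpowers z)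

section Cases

variable {N V : Type*} [Group N] [Finite N] [CommGroup V] [Finite V] {φ : N →* MulAut V} {p : ℕ}
  [hp : Fact p.Prime] {K : Subgroup N}

omit [Finite N] in
theorem pow_card_inj (hV : ¬ p ∣ Nat.card V) {H : Subgroup N} [Finite H] (hH : IsPGroup p H)
    {u v : V} (h : u ^ Nat.card H = v ^ Nat.card H) : u = v := by
  obtain ⟨k, hk⟩ := IsPGroup.iff_card.1 hH
  refine (powCoprime (G := V) (n := Nat.card H) ?_).injective h
  rw [hk]
  exact (((Nat.Prime.coprime_iff_not_dvd hp.out).2 hV).pow_left k).symm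

/-- The case of a group of class at most two with commutators in a central subgroup of order `p`:
there is a regular orbit. -/
theorem case_class_two (hp2 : p ≠ 2) [Nontrivial V] (hK : IsPGroup p K) (hV : ¬ p ∣ Nat.card V)
    {z : N} (hz : z ^ p = 1) (hzC : z ∈ 𝐂(K)) (hf : fixSub φ (zpowers z) = ⊥)
    (hcomm : ∀ x ∈ K, ∀ y ∈ K, ⁅x, y⁆ ∈ zpowers z)
    (hZ : ∀ x ∈ K, x ∈ 𝐂(K) → x ^ p = 1 → x ∈ zpowers z) :
    ∃ v : V, ∀ b ∈ K, b ^ p = 1 → φ b v = v → b = 1 := by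
  classical
  obtain ⟨nm, n1, n2, n3⟩ := exists_nm φ
  obtain ⟨M0, h1, h0, h2⟩ := exists_maxfix φ K
  have hM0 : ∀ x ∈ M0, x ∈ zpowers z → x = 1 := by
    intro x hx hxz
    by_contra x1
    exact h0 (le_bot_iff.1 ((fixSub_anti φ ((zpowers_le.2 (mem_zpowers_of_mem_zpowers hz hxz
      x1)).trans (zpowers_le.2 hx))).trans hf.le))
  have hNC : ∀ x ∈ K, x ∈ 𝐍(M0) → x ∈ 𝐂(M0) := by
    intro x hx hxn
    refine mem_centralizer_iff_commute.2 fun a ha => ?_
    have := hM0 _ (M0.mul_mem (conj_mem_of_mem_normalizer hxn ha) (M0.inv_mem ha))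
      (hcomm x hx a (h1 ha))
    exact (commutatorElement_eq_one_iff_mul_comm.1 this).symm
  have hle : ∀ x ∈ K, M0 ^ᶜ x ≤ M0 ⊔ zpowers z := by
    intro x hx y hy
    obtain ⟨a, ha, rfl⟩ := mem_cj'.1 hy
    have : x * a * x⁻¹ = ⁅x, a⁆ * a := by rw [commutatorElement_def]; group
    rw [this]
    exact mul_mem (mem_sup_right (hcomm x hx a (h1 ha))) (mem_sup_left ha)
  have hcz : ∀ X : Subgroup N, X ≤ K → X ≤ 𝐂(M0) → X ≤ 𝐂(M0 ⊔ zpowers z) := fun X h3 h4 => by
    rw [centralizer_sup]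
    exact le_inf h4 (h3.trans (le_centralizer_iff.1 (zpowers_le.2 hzC)))
  have hcc : ∀ x ∈ K, ∀ y ∈ K, M0 ^ᶜ x ≤ 𝐂(M0 ^ᶜ y) := by
    intro x hx y hy
    refine (hle x hx).trans (le_trans ?_ (centralizer_anti (hle y hy)))
    refine sup_le (hcz _ h1 fun a ha => hNC a (h1 ha) (le_normalizer ha)) ?_
    rw [centralizer_sup]
    refine le_inf (zpowers_le.2 (centralizer_anti h1 hzC)) ?_
    exact le_centralizer_iff_isMulCommutative.2 inferInstance
  set M := K ⊓ 𝐂(M0) with hM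
  obtain ⟨T, ⟨hT1, hT2⟩, hT3⟩ := exists_minimalFor_of_wellFoundedLT
    (fun T : Finset N => (T : Set N) ⊆ K ∧ K ≤ M ⊔ closure (T : Set N)) Finset.card
    ⟨(Set.toFinite (K : Set N)).toFinset, by simp, by simp⟩
  have hmin : ∀ s ∈ T, s ∉ M ⊔ closure ((T.erase s : Finset N) : Set N) := by
    intro s hs h
    have h3 := hT3 (j := T.erase s) ⟨(Finset.coe_subset.2 (T.erase_subset s)).trans hT1,
      hT2.trans (sup_le le_sup_left ((closure_le _).2 fun t ht => ?_))⟩ (Finset.card_erase_le)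
    · have := Finset.card_erase_lt_of_mem hs
      omega
    · by_cases e : t = s
      · exact e ▸ h
      · exact mem_sup_right (subset_closure (by simpa [e] using ht))
  have hT0 : 1 ∉ T := fun h => hmin 1 h (one_mem _)
  have hSK : ∀ s ∈ insert 1 T, s ∈ K := by
    intro s hs
    rcases Finset.mem_insert.1 hs with rfl | hs
    · exact K.one_mem
    · exact hT1 hs
  have hScl : ∀ t ∈ T, ∀ s ∈ insert 1 T, s ≠ t →
      s ∈ M ⊔ closure ((T.erase t : Finset N) : Set N) := by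
    intro t _ s hs hst
    rcases Finset.mem_insert.1 hs with rfl | hs
    · exact one_mem _
    · exact mem_sup_right (subset_closure (by simpa [hst] using hs))
  have hdist : ∀ s ∈ insert 1 T, ∀ t ∈ insert 1 T, s⁻¹ * t ∈ M → s = t := by
    have aux : ∀ s ∈ insert 1 T, ∀ t ∈ T, s⁻¹ * t ∈ M → s = t := by
      intro s hs t ht h
      by_contra hst
      refine hmin t ht ?_
      have := mul_mem (hScl t ht s hs hst) (mem_sup_left h)
      rwa [mul_inv_cancel_left] at this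
    intro s hs t ht h
    rcases Finset.mem_insert.1 ht with rfl | ht
    · rcases Finset.mem_insert.1 hs with rfl | hs
      · rfl
      · exact (aux 1 (Finset.mem_insert_self _ _) s hs (by simpa using M.inv_mem h)).symm
    · exact aux s hs t ht h
  obtain ⟨⟨w, hw⟩, w1⟩ := ne_bot_iff_exists_ne_one.1 h0
  have w1' : w ≠ 1 := fun e => w1 (Subtype.ext e)
  have hkill : ∀ x ∈ K, ∀ s ∈ K, s⁻¹ * x ∉ M → nm (M0 ^ᶜ x) (φ s w) = 1 := by
    intro x hx s hs h
    by_contra hne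
    refine h ⟨K.mul_mem (K.inv_mem hs) hx, hNC _ (K.mul_mem (K.inv_mem hs) hx)
      (mem_norm_of_fix φ h1 h2 (le_normalizer hs) (le_normalizer hx) fun e => hne ?_)⟩
    refine mem_bot.1 (e.le ⟨fun b hb => ?_, n1 _ _⟩)
    rw [← n3, cj_eq_of_mem_centralizer (hcc s hs x hx hb), act_mem_fixSub_cj φ hw s b hb]
  set v := ∏ s ∈ insert 1 T, φ s w with hv
  have hcomp : ∀ s ∈ insert 1 T, nm (M0 ^ᶜ s) v = φ s w ^ Nat.card (M0 ^ᶜ s) := by
    intro s hs
    rw [hv, map_prod, Finset.prod_eq_single_of_mem s hs fun t ht hts =>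
      hkill s (hSK s hs) t (hSK t ht) fun h => hts (hdist t ht s hs h)]
    exact n2 _ _ (act_mem_fixSub_cj φ hw s)
  have hP : ∀ s ∈ K, IsPGroup p (M0 ^ᶜ s) := fun s _ => isPGroup_cj (hK.to_le h1) s
  refine ⟨v, fun b hb hbp hbv => ?_⟩
  by_cases hbM : b ∈ M
  · have h3 : ∀ s ∈ insert 1 T, s⁻¹ * b * s ∈ M0 := by
      intro s hs
      have h4 : b ∈ 𝐂(M0 ^ᶜ s) := centralizer_anti (hle s (hSK s hs))
        (hcz (zpowers b) (zpowers_le.2 hb) (zpowers_le.2 hbM.2) (mem_zpowers b))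
      have h5 := n3 (M0 ^ᶜ s) b v
      rw [cj_eq_of_mem_centralizer h4, hbv, hcomp s hs, map_pow] at h5
      have h6 := pow_card_inj hV (hP s (hSK s hs)) h5
      have h7 : φ (s⁻¹ * b * s) w = w := by rw [act_mul, act_mul, ← h6, act_inv_act]
      have h8 := h2 (M0 ⊔ zpowers (s⁻¹ * b * s)) le_sup_left (sup_le h1 (zpowers_le.2
        (K.mul_mem (K.mul_mem (K.inv_mem (hSK s hs)) hb) (hSK s hs)))) fun e =>
          w1' (mem_bot.1 (e.le (mem_fixSub_sup φ hw (mem_fixSub_zp φ h7))))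
      exact h8.le (mem_sup_right (mem_zpowers _))
    have h4 : b ∈ M0 := by simpa using h3 1 (Finset.mem_insert_self _ _)
    refine hM0 b h4 (hZ b hb ?_ hbp)
    rw [← zpowers_le, le_centralizer_iff]
    refine hT2.trans (sup_le (inf_le_right.trans (centralizer_anti (zpowers_le.2 h4)))
      ((closure_le _).2 fun t ht => ?_))
    have h5 := hM0 _ (M0.mul_mem (h3 t (Finset.mem_insert_of_mem ht)) (M0.inv_mem h4))
      (by simpa [commutatorElement_def] using hcomm _ (K.inv_mem (hT1 ht)) b hb)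
    rw [H69.centralizer_zpowers]
    refine mem_centralizer_singleton_iff.2 ?_
    calc t * b = t * (t⁻¹ * b * t * b⁻¹) * b := by rw [h5]; group
      _ = b * t := by group
  exfalso
  have hsupp : ∀ x ∈ K, nm (M0 ^ᶜ x) v ≠ 1 → ∃ s ∈ insert 1 T, s⁻¹ * x ∈ M := by
    intro x hx h
    by_contra hn
    push Not at hn
    refine h ?_
    rw [hv, map_prod]
    exact Finset.prod_eq_one fun s hs => hkill x hx s (hSK s hs) (hn s hs)
  have hstep : ∀ x, nm (M0 ^ᶜ x) v ≠ 1 → nm (M0 ^ᶜ (b * x)) v ≠ 1 := by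
    intro x h
    rw [← cj_cj, ← hbv, n3]
    exact fun e => h ((map_eq_one_iff _ (φ b).injective).1 e)
  have p0 : nm (M0 ^ᶜ (1 : N)) v ≠ 1 := by
    rw [hcomp 1 (Finset.mem_insert_self _ _)]
    intro e
    refine w1' ?_
    simpa using pow_card_inj hV (hP 1 K.one_mem) (e.trans (one_pow _).symm)
  obtain ⟨s, hs, e1⟩ := hsupp _ (K.mul_mem hb K.one_mem) (hstep _ p0)
  obtain ⟨t, ht, e2⟩ := hsupp _ (K.mul_mem hb (K.mul_mem hb K.one_mem)) (hstep _ (hstep _ p0))
  rw [mul_one] at e1 e2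
  have hst : s ≠ t := by
    rintro rfl
    refine hbM ?_
    have := M.mul_mem (M.inv_mem e1) e2
    rwa [show (s⁻¹ * b)⁻¹ * (s⁻¹ * (b * b)) = b by group] at this
  rcases Finset.mem_insert.1 ht with rfl | ht'
  · refine hbM ?_
    obtain ⟨k, hk⟩ := hp.out.odd_of_ne_two hp2
    have := M.pow_mem e2 (k + 1)
    rwa [inv_one, one_mul, ← pow_two, ← pow_mul, show 2 * (k + 1) = p + 1 by omega, pow_succ, hbp,
      one_mul] at this
  · refine hmin t ht' ?_
    have h3 : b ∈ M ⊔ closure ((T.erase t : Finset N) : Set N) := by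
      have := mul_mem (hScl t ht' s hs hst) (mem_sup_left e1)
      rwa [mul_inv_cancel_left] at this
    have := mul_mem (mul_mem h3 h3) (inv_mem (mem_sup_left e2 :
      _ ∈ M ⊔ closure ((T.erase t : Finset N) : Set N)))
    rwa [show b * b * (t⁻¹ * (b * b))⁻¹ = t by group] at this

end Cases

end H92
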