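import Cfsg.Agent.Lib.Misc92.Uncover
import Cfsg.Agent.Lib.Core.PCore

/-! The covering lemma and the resulting criterion for lying in `O_p(G)`. -/

set_option autoImplicit false

namespace H92

open Subgroup H69 H2
open scoped commutatorElement

universe u

theorem comm_mem_of_sympl {N : Type*} [Group N] [Finite N] {p : ℕ} [hp : Fact p.Prime] (hp2 : p ≠ 2)
    {K : Subgroup N} [K.Normal] (hK : IsPGroup p K)
    (h : ∀ B : Subgroup N, B.Normal → B ≤ K → B ≤ 𝐂(B) → IsCyclic B) {x y : N} (hx : x ∈ K)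
    (hy : y ∈ K) : ⁅x, y⁆ ∈ 𝐂(K) ∧ ⁅x, y⁆ ^ p = 1 := by
  obtain ⟨E, R, hc, hs, hE, hR⟩ := Cfsg.Agent.S3762.result hK fun A hA hA' => by
    have := h (A.map K.subtype) inferInstance (map_subtype_le _)
      (le_centralizer_iff_isMulCommutative.2 inferInstance)
    exact (MulEquiv.isCyclic (A.equivMapOfInjective _ K.subtype_injective)).2 this
  have hR' : IsCyclic R := hR.resolve_right fun h => hp2 h.1
  have hRc : ∀ r ∈ R, ∀ g : K, r * g = g * r := by
    intro r hr g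
    have : (⊤ : Subgroup K) ≤ centralizer ({r} : Set K) := by
      rw [← hs]
      refine sup_le (fun e he => mem_centralizer_singleton_iff.2 (hc e he r hr)) fun s hs => ?_
      refine mem_centralizer_singleton_iff.2 ?_
      exact congrArg Subtype.val (mul_comm' (⟨s, hs⟩ : R) ⟨r, hr⟩)
    exact (mem_centralizer_singleton_iff.1 (this (mem_top g))).symm
  have hdec : ∀ g : K, ∃ e ∈ E, ∃ r ∈ R, g = e * r := fun g =>
    (mem_sup_of_le_normalizer_right (le_normalizer_of_le_centralizer fun e he =>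
      mem_centralizer_iff_commute.2 fun r hr => (hc e he r hr).symm)).1 (hs.ge (mem_top g))
  obtain ⟨e, he, r, hr, e1⟩ := hdec ⟨x, hx⟩
  obtain ⟨f, hf, s, hs', e2⟩ := hdec ⟨y, hy⟩
  have e3 : ⁅(⟨x, hx⟩ : K), (⟨y, hy⟩ : K)⁆ = ⁅e, f⁆ := by
    rw [e1, e2, commutatorElement_def, commutatorElement_def]
    calc e * r * (f * s) * (e * r)⁻¹ * (f * s)⁻¹ = e * (r * (f * s)) * r⁻¹ * e⁻¹ * s⁻¹ * f⁻¹ := by
          group
      _ = e * f * (s * e⁻¹) * s⁻¹ * f⁻¹ := by rw [hRc r hr]; group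
      _ = _ := by rw [hRc s hs']; group
  have e4 : ⁅e, f⁆ ∈ center K ∧ ⁅e, f⁆ ^ p = 1 := by
    rcases hE with rfl | ⟨⟨-, -, h1⟩, h2⟩
    · rw [mem_bot.1 he]; simp
    have h3 : ⁅(⟨e, he⟩ : E), (⟨f, hf⟩ : E)⁆ ∈ center E :=
      h1.le (commutator_mem_commutator (mem_top _) (mem_top _))
    refine ⟨mem_center_iff.2 fun g => ?_, ?_⟩
    · obtain ⟨e', he', r', hr', rfl⟩ := hdec g
      have h4 : e' * ⁅e, f⁆ = ⁅e, f⁆ * e' :=
        congrArg Subtype.val (mem_center_iff.1 h3 ⟨e', he'⟩)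
      rw [mul_assoc, hRc r' hr', ← mul_assoc, h4, mul_assoc]
    · have := pow_card_eq_one' (x := (⟨_, h3⟩ : center E))
      rw [h2] at this
      exact congrArg (fun t : center E => ((t : E) : K)) this
  rw [← e3] at e4
  refine ⟨mem_centralizer_iff_commute.2 fun a ha => ?_, congrArg Subtype.val e4.2⟩
  exact congrArg Subtype.val (mem_center_iff.1 e4.1 ⟨a, ha⟩)

theorem uncover (p : ℕ) [hp : Fact p.Prime] (hp2 : p ≠ 2) (n : ℕ) :
    ∀ (N V : Type u) [Group N] [Finite N] [CommGroup V] [Finite V] (φ : N →* MulAut V)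
      (K : Subgroup N) [K.Normal], Nat.card K + Nat.card V = n → IsPGroup p K → ¬ p ∣ Nat.card V →
      ∀ a ∈ K, a ^ p = 1 → φ a ≠ 1 → ∃ v : V, ∀ g : N, φ (g * a * g⁻¹) v ≠ v := by
  induction n using Nat.strong_induction_on with
  | _ n ih =>
  intro N V _ _ _ _ φ K hKn hn hK hV a ha hap hne
  have hcop : ∀ E : Subgroup N, E ≤ K → (Nat.card E).Coprime (Nat.card V) := by
    intro E hE
    obtain ⟨k, hk⟩ := IsPGroup.iff_card.1 (hK.to_le hE)
    rw [hk]
    exact ((Nat.Prime.coprime_iff_not_dvd hp.out).2 hV).pow_left k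
  by_cases hA : φ.ker ⊓ K = ⊥
  swap
  · have hs := φ.rangeRestrict_surjective
    have := hKn.map _ hs
    have h1 := H1.card_map_mul_card_inf_ker φ.rangeRestrict K
    rw [MonoidHom.ker_rangeRestrict] at h1
    have h2 : 1 < Nat.card (φ.ker ⊓ K : Subgroup N) := (one_lt_card_iff_ne_bot _).2 hA
    have h3 : 0 < Nat.card (K.map φ.rangeRestrict) := Nat.card_pos
    obtain ⟨v, hv⟩ := ih _ (by rw [← hn, ← h1]; nlinarith) φ.range V φ.range.subtype
      (K.map φ.rangeRestrict) rfl (hK.map _) hV _ (mem_map_of_mem _ ha)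
      (by rw [← map_pow, hap, map_one]) hne
    refine ⟨v, fun g => ?_⟩
    have := hv (φ.rangeRestrict g)
    rwa [← map_inv, ← map_mul, ← map_mul] at this
  have hfaith : ∀ E : Subgroup N, E ≤ K → fixSub φ E = ⊤ → E = ⊥ := by
    intro E hE h
    rw [← le_bot_iff, ← hA]
    exact le_inf (fun x hx => MulEquiv.ext fun v => h.ge (mem_top v) x hx) hE
  have hsub : ∀ (N1 : Subgroup N) (W : Subgroup V), K ≤ N1 → W ≠ ⊤ → (∀ g ∈ N1, ∀ w ∈ W, φ g w ∈ W) →
      ∀ b ∈ K, b ^ p = 1 → (∃ w ∈ W, φ b w ≠ w) →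
      ∃ w ∈ W, ∀ g ∈ N1, φ (g * b * g⁻¹) w ≠ w := by
    intro N1 W h1 h2 h3 b hb hbp ⟨w0, hw0, h4⟩
    obtain ⟨w, hw⟩ := ih _ (by
        rw [← hn, card_subgroupOf h1]
        exact Nat.add_lt_add_left (H1.card_lt_of_ne_top h2) _) N1 W
      (subAut (φ.comp N1.subtype) W fun g => h3 g g.2) (K.subgroupOf N1) rfl
      (isPGroup_subgroupOf hK N1) (fun h => hV (h.trans (card_subgroup_dvd_card W))) ⟨b, h1 hb⟩ hb
      (Subtype.ext hbp) (fun e => h4 (by
        have := congrArg Subtype.val (DFunLike.congr_fun e (⟨w0, hw0⟩ : W))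
        exact this))
    exact ⟨w, w.2, fun g hg e => hw ⟨g, hg⟩ (Subtype.ext e)⟩
  by_contra hcon
  have hB : ∀ W : Subgroup V, W ≠ ⊤ → (∀ g, ∀ w ∈ W, φ g w ∈ W) → W ≤ fixSub φ (zpowers a) := by
    intro W h1 h2 w hw
    by_contra h3
    obtain ⟨v, -, hv⟩ := hsub ⊤ W le_top h1 (fun g _ => h2 g) a ha hap
      ⟨w, hw, fun e => h3 (mem_fixSub_zp φ e)⟩
    exact hcon ⟨v, fun g => hv g trivial⟩
  have hF : ∀ E : Subgroup N, E.Normal → E ≤ K → E ≠ ⊥ → fixSub φ E = ⊥ := by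
    intro E hE hEK E1
    have h1 := ext_actComm_sup_fixSub (φ := φ) (K := ⊤) (B := E) (fun _ _ _ _ => trivial)
      (by rw [card_top]; exact hcop E hEK) (Or.inr inferInstance)
    have h2 := ext_actComm_inf_fixSub_le (φ := φ) (K := ⊤) (B := E) (fun _ _ _ _ => trivial)
      (by rw [card_top]; exact hcop E hEK)
    have h3 : fixSub φ E ≤ fixSub φ (zpowers a) := hB _ (fun e => E1 (hfaith E hEK e)) fun g w hw => by
      have := act_mem_fixSub_cj φ hw g
      rwa [cj_eq_of_normal] at this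
    by_cases h4 : actComm φ ⊤ E = ⊤
    · rw [h4, top_inf_eq] at h2
      refine le_bot_iff.1 (h2.trans (commutator_eq_bot_of_le_centralizer ?_).le)
      exact le_centralizer_iff_isMulCommutative.2 inferInstance
    have h5 := hB _ h4 fun g w hw => by
      have : actComm φ ⊤ E ≤ (actComm φ ⊤ E).comap (φ g).toMonoidHom := by
        refine actComm_le.2 fun b hb x _ => ?_
        have := mem_actComm (φ := φ) (U := ⊤) (hE.conj_mem b hb g) (mem_top (φ g x))
        rw [act_mul, act_mul, act_inv_act] at this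
        simpa [mem_comap] using this
      exact this hw
    have h6 : (⊤ : Subgroup V) ≤ fixSub φ (zpowers a) :=
      h1.ge.trans (sup_le h5 (inf_le_right.trans h3))
    exact absurd (MulEquiv.ext fun v => h6 (mem_top v) a (mem_zpowers a)) hne
  have hC : ∀ E : Subgroup N, E.Normal → a ∈ E → K ≤ E := by
    intro E hE haE
    by_contra h
    refine hcon (ih _ ?_ N V φ (E ⊓ K) rfl (hK.to_le inf_le_right) hV a ⟨haE, ha⟩ hap hne)
    rw [← hn]
    exact Nat.add_lt_add_right (H1.card_lt_of_lt (lt_of_le_of_ne inf_le_right fun e =>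
      h (e.ge.trans inf_le_left))) _
  have a1 : a ≠ 1 := by rintro rfl; exact hne (map_one _)
  have K1 : K ≠ ⊥ := fun e => a1 (by rwa [e] at ha)
  have : Nontrivial V := by
    by_contra h
    rw [not_nontrivial_iff_subsingleton] at h
    exact hne (MulEquiv.ext fun v => Subsingleton.elim _ _)
  have hconj : ∀ g : N, g * a * g⁻¹ ∈ K ∧ (g * a * g⁻¹) ^ p = 1 ∧ g * a * g⁻¹ ≠ 1 := fun g =>
    ⟨hKn.conj_mem a ha g, by rw [conj_pow, hap]; group, fun e => a1 (by simpa using e)⟩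
  have hNn : ∀ (E : Subgroup N) [E.Normal] (g : N), g ∈ 𝐍(E) := fun E _ g =>
    (normalizer_eq_top E).ge (mem_top g)
  set Z := K ⊓ 𝐂(K) with hZ
  have hZn : Z.Normal := inferInstance
  have hZc : Z ≤ 𝐂(Z) := inf_le_right.trans (centralizer_anti inf_le_left)
  by_cases hcyc : IsCyclic Z
  swap
  · classical
    obtain ⟨nm, n1, n2, n3⟩ := exists_nm φ
    obtain ⟨E0, h1, h0, h2⟩ := exists_maxfix φ Z
    have hE0 : E0 ≠ ⊥ := by
      rintro rfl
      obtain ⟨e, he, h3⟩ := exists_cocyclic φ hZc (hcop Z inf_le_left) h1 h0 h2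
      rw [bot_sup_eq] at h3
      exact hcyc (by rw [le_antisymm h3 (zpowers_le.2 he)]; infer_instance)
    obtain ⟨g0, hg0⟩ : ∃ g0 : N, ∃ w ∈ fixSub φ E0, φ (g0 * a * g0⁻¹) w ≠ w := by
      by_contra h
      push Not at h
      refine h0 (le_bot_iff.1 (le_trans (b := fixSub φ K) (fun w hw b hb => ?_)
        (hF K hKn le_rfl K1).le))
      have h3 := hC ((MulAction.stabilizer (MulAut V) w).comap φ).normalCore inferInstance
        (fun g => h g w hw)
      exact normalCore_le _ (h3 hb)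
    have hKC : ∀ g : N, K ≤ 𝐂(E0 ^ᶜ g) := fun g => le_centralizer_iff.1
      ((cj_le_of_mem_normalizer h1 (hNn Z g)).trans inf_le_right)
    have hKN : K ≤ 𝐍(E0) := by
      have := hKC 1
      rw [cj_one] at this
      exact this.trans (centralizer_le_normalizer _)
    obtain ⟨w, hw, hw'⟩ := hsub 𝐍(E0) (fixSub φ E0) hKN
      (fun e => hE0 (hfaith E0 (h1.trans inf_le_left) e)) (fun g hg w hw => by
        have := act_mem_fixSub_cj φ hw g
        rwa [cj_eq_of_mem_normalizer hg] at this) _ (hconj g0).1 (hconj g0).2.1 hg0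
    have := Fintype.ofFinite (N ⧸ 𝐍(E0))
    refine hcon ⟨∏ c : N ⧸ 𝐍(E0), φ c.out w, fun g hg => ?_⟩
    obtain ⟨h, hh⟩ := QuotientGroup.mk_out_eq_mul 𝐍(E0) (g * g0⁻¹)
    set c0 : N ⧸ 𝐍(E0) := QuotientGroup.mk (g * g0⁻¹) with hc0
    have h3 : nm (E0 ^ᶜ c0.out) (∏ c : N ⧸ 𝐍(E0), φ c.out w) =
        φ c0.out w ^ Nat.card (E0 ^ᶜ c0.out) := by
      rw [map_prod, Finset.prod_eq_single_of_mem c0 (Finset.mem_univ _) fun c _ hc => ?_]
      · exact n2 _ _ (act_mem_fixSub_cj φ hw _)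
      by_contra hne
      refine hc ?_
      rw [← c.out_eq, ← c0.out_eq, QuotientGroup.eq]
      refine mem_norm_of_fix φ h1 h2 (hNn Z _) (hNn Z _) fun e => hne ?_
      refine mem_bot.1 (e.le ⟨fun b hb => ?_, n1 _ _⟩)
      rw [← n3, cj_eq_of_mem_centralizer (hKC _ ((cj_le_of_mem_normalizer h1 (hNn Z _) hb).1)),
        act_mem_fixSub_cj φ hw _ b hb]
    have h4 := n3 (E0 ^ᶜ c0.out) (g * a * g⁻¹) (∏ c : N ⧸ 𝐍(E0), φ c.out w)
    rw [cj_eq_of_mem_centralizer (hKC _ (hconj g).1), hg, h3, map_pow] at h4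
    have h5 := pow_card_inj hV (isPGroup_cj (hK.to_le (h1.trans inf_le_left)) c0.out) h4
    refine hw' (h : N)⁻¹ (inv_mem h.2) ?_
    rw [hh] at h5
    apply (φ (g * g0⁻¹ * h)).injective
    rw [← act_mul, h5, ← act_mul]
    congr 2
    group
  obtain ⟨z, hzZ, hzo⟩ := exists_orderOf_eq_prime (hK.to_le (inf_le_left : Z ≤ K))
    (center_ne_bot hK K1)
  have hz : z ^ p = 1 := by rw [← hzo, pow_orderOf_eq_one]
  have z1 : z ≠ 1 := by rintro rfl; rw [orderOf_one] at hzo; exact hp.out.one_lt.ne hzo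
  have hZ0 : ∀ x ∈ K, x ∈ 𝐂(K) → x ^ p = 1 → x ∈ zpowers z := fun x h1 h2 h3 =>
    H13.TG.mem_zpowers_of_cyclic hcyc hzZ hzo ⟨h1, h2⟩ h3
  have hZ0n : (zpowers z).Normal := by
    rw [normal_iff_top_le_normalizer]
    refine le_normalizer_of_cj_le fun g _ => ?_
    rw [cj_zpowers, zpowers_le]
    have := hZn.conj_mem z hzZ g
    exact hZ0 _ this.1 this.2 (by rw [conj_pow, hz]; group)
  have hfz := hF _ hZ0n (zpowers_le.2 hzZ.1) (mt zpowers_eq_bot.1 z1)
  by_cases hS : ∀ B : Subgroup N, B.Normal → B ≤ K → B ≤ 𝐂(B) → IsCyclic B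
  · obtain ⟨v, hv⟩ := case_class_two hp2 hK hV hz hzZ.2 hfz (fun x hx y hy => by
      have := comm_mem_of_sympl hp2 hK hS hx hy
      exact hZ0 _ (by rw [commutatorElement_def]; exact K.mul_mem (K.mul_mem (K.mul_mem hx hy)
        (K.inv_mem hx)) (K.inv_mem hy)) this.1 this.2) hZ0
    exact hcon ⟨v, fun g e => (hconj g).2.2 (hv _ (hconj g).1 (hconj g).2.1 e)⟩
  push Not at hS
  obtain ⟨B, hBn, hBK, hBc, hBnc⟩ := hS
  obtain ⟨E, ⟨hEn, hEK, hEc, hEp, hEz⟩, hEmin⟩ := exists_minimal_of_wellFoundedLT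
    (fun E : Subgroup N => E.Normal ∧ E ≤ K ∧ E ≤ 𝐂(E) ∧ (∀ x ∈ E, x ^ p = 1) ∧ ¬ E ≤ zpowers z) (by
      let Ω : Subgroup N :=
        { carrier := {x | x ∈ B ∧ x ^ p = 1}
          one_mem' := ⟨B.one_mem, one_pow _⟩
          mul_mem' := fun {x y} hx hy => ⟨B.mul_mem hx.1 hy.1, by
            rw [Commute.mul_pow (mem_centralizer_iff_commute.1 (hBc hy.1) x hx.1), hx.2, hy.2,
              one_mul]⟩
          inv_mem' := fun {x} hx => ⟨B.inv_mem hx.1, by rw [inv_pow, hx.2, inv_one]⟩ }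
      have hΩ : Ω ≤ B := fun x hx => hx.1
      refine ⟨Ω, ⟨fun x hx g => ⟨hBn.conj_mem x hx.1 g, by rw [conj_pow, hx.2]; group⟩⟩,
        hΩ.trans hBK, hΩ.trans (hBc.trans (centralizer_anti hΩ)), fun x hx => hx.2, fun h => ?_⟩
      exact hBnc (H48.isCyclic_of_forall_pow_eq_one_mem hp2 (hK.to_le hBK)
        (inferInstance : IsCyclic (zpowers z)) fun x hx hxp => h ⟨hx, hxp⟩))
  have E1 : E ≠ ⊥ := by rintro rfl; exact hEz bot_le
  have hlt := commutator_lt_of_isPGroup (hK.to_le hEK) hK (fun g _ => hNn E g) E1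
  have hEK' : ⁅E, K⁆ ≤ zpowers z := by
    by_contra h
    exact not_le_of_gt hlt (hEmin ⟨inferInstance, hlt.le.trans hEK,
      hlt.le.trans (hEc.trans (centralizer_anti hlt.le)), fun x hx => hEp x (hlt.le hx), h⟩ hlt.le)
  have hzE : z ∈ E := by
    obtain ⟨⟨x, hx1, hx2⟩, x1⟩ := ne_bot_iff_exists_ne_one.1
      (inf_centralizer_ne_bot (hK.to_le hEK) hK (fun g _ => hNn E g) E1)
    exact zpowers_le.2 hx1 (mem_zpowers_of_mem_zpowers hz (hZ0 x (hEK hx1) hx2 (hEp x hx1))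
      fun e => x1 (Subtype.ext e))
  have haE : a ∉ 𝐂(E) := fun h => hEz fun x hx =>
    hZ0 x (hEK hx) (le_centralizer_iff.1 (hC _ inferInstance h) hx) (hEp x hx)
  obtain ⟨E0, h1, h0, h2⟩ := exists_maxfix φ E
  have hE0 : ∀ x ∈ E0, x ∈ zpowers z → x = 1 := by
    intro x hx hxz
    by_contra x1
    exact h0 (le_bot_iff.1 ((fixSub_anti φ ((zpowers_le.2 (mem_zpowers_of_mem_zpowers hz hxz
      x1)).trans (zpowers_le.2 hx))).trans hfz.le))
  have hsplit : E ≤ E0 ⊔ zpowers z := by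
    obtain ⟨e, he, h3⟩ := exists_cocyclic φ hEc (hcop E hEK) h1 h0 h2
    obtain ⟨x, hx, y, hy, e1⟩ := (mem_sup_of_le_normalizer_left ((zpowers_le.2 he).trans
      (le_normalizer_of_le_centralizer (hEc.trans (centralizer_anti h1))))).1 (h3 hzE)
    have y1 : y ≠ 1 := by
      rintro rfl
      rw [mul_one] at e1
      exact z1 (hE0 z (e1 ▸ hx) (mem_zpowers z))
    refine h3.trans (sup_le le_sup_left (zpowers_le.2 (zpowers_le.2 ?_
      (mem_zpowers_of_mem_zpowers (hEp e he) hy y1))))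
    have : y = x⁻¹ * z := by rw [e1]; group
    rw [this]
    exact mul_mem (inv_mem (mem_sup_left hx)) (mem_sup_right (mem_zpowers z))
  obtain ⟨⟨w, hw⟩, w1⟩ := ne_bot_iff_exists_ne_one.1 h0
  refine hcon ⟨w, fun g e => haE ?_⟩
  obtain ⟨hb, -, -⟩ := hconj g
  have h3 : (1 : N)⁻¹ * (g * a * g⁻¹) ∈ 𝐍(E0) :=
    mem_norm_of_fix φ h1 h2 (hNn E _) (hNn E _) fun e' => w1 (Subtype.ext (mem_bot.1 (e'.le
      ⟨by rwa [cj_one], by
        have := act_mem_fixSub_cj φ hw (g * a * g⁻¹)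
        rwa [e] at this⟩)))
  rw [inv_one, one_mul] at h3
  have h4 : g * a * g⁻¹ ∈ 𝐂(E) := by
    refine centralizer_anti hsplit ?_
    rw [centralizer_sup]
    refine ⟨mem_centralizer_iff_commute.2 fun x hx => ?_,
      le_centralizer_iff.1 (zpowers_le.2 hzZ.2) hb⟩
    refine commutatorElement_eq_one_iff_mul_comm.1 (hE0 _ ?_
      (hEK' (commutator_mem_commutator (h1 hx) hb)))
    have := E0.mul_mem hx (conj_mem_of_mem_normalizer h3 (E0.inv_mem hx))
    rwa [← mul_assoc, ← mul_assoc] at this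
  have := (inferInstance : (𝐂(E)).Normal).conj_mem _ h4 g⁻¹
  simpa [mul_assoc] using this

end H92
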