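import Cfsg.Agent.Lib.Misc92.Uncover2

/-! A `p`-element of a solvable group that generates a `p`-group with a conjugate by a member of
every class lies in `O_p(G)` (`p` odd). -/

set_option autoImplicit false

namespace H92

open Subgroup H69 H2
open scoped commutatorElement

universe u

theorem mem_pCore_of_classes (p : ℕ) [hp : Fact p.Prime] (hp2 : p ≠ 2) (n : ℕ) :
    ∀ (G : Type u) [Group G] [Finite G], Nat.card G = n → Group.IsSolvable G → ∀ a : G,
      (∀ c : G, ∃ g, IsConj c g ∧ IsPGroup p ↥(zpowers a ⊔ zpowers (g * a * g⁻¹))) →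
      a ∈ Cfsg.pCore p G := by
  induction n using Nat.strong_induction_on with
  | _ n ih =>
  intro G _ _ hn hG a0 h0
  have hq : ∀ (V : Subgroup G) [V.Normal], V ≠ ⊥ → ∀ a : G,
      (∀ c : G, ∃ g, IsConj c g ∧ IsPGroup p ↥(zpowers a ⊔ zpowers (g * a * g⁻¹))) →
      (a : G ⧸ V) ∈ Cfsg.pCore p (G ⧸ V) := by
    intro V _ hV a h
    refine ih _ (hn ▸ H1.card_quotient_lt hV) (G ⧸ V) rfl inferInstance _ fun c => ?_
    obtain ⟨c, rfl⟩ := QuotientGroup.mk_surjective c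
    obtain ⟨g, h1, h2⟩ := h c
    refine ⟨g, (QuotientGroup.mk' V).map_isConj h1, ?_⟩
    have := h2.map (QuotientGroup.mk' V)
    rwa [Subgroup.map_sup, MonoidHom.map_zpowers, MonoidHom.map_zpowers] at this
  by_cases hO : Cfsg.pCore p G = ⊥
  swap
  · have := hq _ hO a0 h0
    rwa [H1.pCore_quotient_pCore, mem_bot, QuotientGroup.eq_one_iff] at this
  by_contra hne
  have a1 : a0 ≠ 1 := by rintro rfl; exact hne (one_mem _)
  obtain ⟨g0, -, hg0⟩ := h0 1
  obtain ⟨a, ha0, hao⟩ := exists_orderOf_eq_prime (hg0.to_le le_sup_left)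
    (mt zpowers_eq_bot.1 a1)
  have h : ∀ c : G, ∃ g, IsConj c g ∧ IsPGroup p ↥(zpowers a ⊔ zpowers (g * a * g⁻¹)) := by
    intro c
    obtain ⟨g, h1, h2⟩ := h0 c
    refine ⟨g, h1, h2.to_le (sup_le_sup (zpowers_le.2 ha0) ?_)⟩
    rw [← cj_zpowers, ← cj_zpowers]
    exact cj_mono g (zpowers_le.2 ha0)
  have hap : a ^ p = 1 := by rw [← hao, pow_orderOf_eq_one]
  have a2 : a ≠ 1 := by rintro rfl; rw [orderOf_one] at hao; exact hp.out.one_lt.ne hao
  have hPa : IsPGroup p (zpowers a) := (hg0.to_le le_sup_left).to_le (zpowers_le.2 ha0)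
  obtain ⟨V, q, hq1, hVn, V1, -, hVc, -, hVq, -⟩ := H1.exists_elementary_abelian_normal_le
    (⊤ : Subgroup G) (fun e => a1 (mem_bot.1 (e.le (mem_top _)))) inferInstance
  have := Fact.mk hq1
  have hqp : q ≠ p := by
    rintro rfl
    exact V1 (le_bot_iff.1 ((H1.le_pCore hVq).trans hO.le))
  have hV : ¬ p ∣ Nat.card V := by
    obtain ⟨k, hk⟩ := IsPGroup.iff_card.1 hVq
    rw [hk]
    exact fun e => hqp ((Nat.prime_dvd_prime_iff_eq hp.out hq1).1 (hp.out.dvd_of_dvd_pow e)).symm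
  have hVC : V ≤ 𝐂(V) := le_centralizer_iff_isMulCommutative.2 hVc
  have haK := hq V V1 a h
  have haC : a ∉ 𝐂(V) := by
    intro haC
    set D := (Cfsg.pCore p (G ⧸ V)).comap (QuotientGroup.mk' V) ⊓ 𝐂(V) with hD
    have hDn : D.Normal := inferInstance
    obtain ⟨P, hP, haP⟩ := exists_isSylowIn_le hPa (zpowers_le.2 ⟨haK, haC⟩ : zpowers a ≤ D)
    have h1 := hP.map (QuotientGroup.mk' V)
    have h2 := h1.max _ h1.le le_rfl (H1.isPGroup_pCore.to_le
      (map_le_iff_le_comap.2 inf_le_left))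
    have h3 : D ≤ P ⊔ V := by
      have := congrArg (Subgroup.comap (QuotientGroup.mk' V)) h2
      rw [comap_map_eq, comap_map_eq, QuotientGroup.ker_mk'] at this
      exact le_sup_left.trans this.le
    have h4 : D ≤ 𝐍(P) := h3.trans (sup_le le_normalizer (le_normalizer_of_le_centralizer
      (le_centralizer_iff.1 (hP.le.trans inf_le_right))))
    have h5 : P.Normal := by
      rw [normal_iff_top_le_normalizer]
      intro g _
      obtain ⟨d, hd, b, hb, rfl⟩ := hP.frattini ((normalizer_eq_top D).ge (mem_top g))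
      exact mul_mem (h4 hd) hb
    exact a2 (mem_bot.1 (hO.le (H1.le_pCore hP.isP (haP (mem_zpowers a)))))
  letI : CommGroup V := { (inferInstance : Group V) with mul_comm := mul_comm' }
  let φ : G ⧸ V →* MulAut V := QuotientGroup.lift V MulAut.conjNormal fun x hx =>
    MulEquiv.ext fun v => Subtype.ext (by
      have := mem_centralizer_iff_commute.1 (hVC hx) v v.2
      simp [← this])
  have hφ : ∀ (g : G) (v : V), (φ g v : G) = g * v * g⁻¹ := fun g v => rfl
  obtain ⟨v, hv⟩ := uncover p hp2 _ (G ⧸ V) V φ (Cfsg.pCore p (G ⧸ V)) rfl H1.isPGroup_pCore hV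
    a haK (by rw [← QuotientGroup.mk_pow, hap]; rfl) (fun e => haC
      (mem_centralizer_iff_commute.2 fun v hv => by
        have := hφ a ⟨v, hv⟩
        rw [e] at this
        exact eq_mul_inv_iff_mul_eq.1 this))
  obtain ⟨g, h1, h2⟩ := h v
  obtain ⟨x, rfl⟩ := isConj_iff.1 h1
  have h3 : ⁅a, x * v * x⁻¹⁆ = 1 := by
    have h4 : ⁅a, x * v * x⁻¹⁆ ∈ (zpowers a ⊔ zpowers (x * v * x⁻¹ * a * (x * v * x⁻¹)⁻¹)) ⊓ V := by
      have h5 := hVn.conj_mem _ v.2 x
      refine ⟨?_, V.mul_mem (hVn.conj_mem _ h5 a) (V.inv_mem h5)⟩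
      have := mul_mem (mem_sup_left (mem_zpowers a) : a ∈ zpowers a ⊔
        zpowers (x * v * x⁻¹ * a * (x * v * x⁻¹)⁻¹)) (inv_mem (mem_sup_right (mem_zpowers _)))
      rwa [show a * (x * v * x⁻¹ * a * (x * v * x⁻¹)⁻¹)⁻¹ = ⁅a, x * v * x⁻¹⁆ by
        rw [commutatorElement_def]; group] at this
    rwa [eq_bot_of_not_dvd (h2.to_le inf_le_left) inf_le_right hV, mem_bot] at h4
  refine hv (x⁻¹ : G) (Subtype.ext ?_)
  have := hφ (x⁻¹ * a * x⁻¹⁻¹) v
  refine this.trans ?_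
  rw [commutatorElement_def] at h3
  calc x⁻¹ * a * x⁻¹⁻¹ * v * (x⁻¹ * a * x⁻¹⁻¹)⁻¹
      = x⁻¹ * (a * (x * v * x⁻¹) * a⁻¹ * (x * v * x⁻¹)⁻¹) * x * v := by group
    _ = v := by rw [h3]; group

end H92
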